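import Cfsg.Agent.BN.G2b
import Cfsg.Agent.Chev.K2

/-!
# Two-generation of `³D₄(q)`
-/

set_option autoImplicit false

namespace CF.BN.TG

open CF.Chev Cfsg.Lie

variable {K : Type*} [Field K] {G : Type*} [Group G] {ρ : StRep cD4 K G} {T : Tw ρ}
  {φ : K →+* K} {q : ℕ}

theorem swD (O : List (Fin 24)) {r s : Fin 24}
    (h : O.idxOf r < O.idxOf s ∧ s ≠ r ∧ s ≠ cD4.neg r ∧ chevD4.commTerms r s = []) (t u : K)
    (g : G) : ρ.x s u * (ρ.x r t * g) = ρ.x r t * id (ρ.x s u * g) :=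
  swap linkD4 ρ.toPreSt O h t u g

theorem swD₁ (r s v : Fin 24) (c : ℤ)
    (h : s ≠ r ∧ s ≠ cD4.neg r ∧ chevD4.commTerms r s = [(v.1, c, 1, 1)]) (t u : K) (g : G) :
    ρ.x s u * (ρ.x r t * g) = ρ.x r t * (ρ.x s u * (ρ.x v (-(c * t * u)) * g)) :=
  swap₁ linkD4 ρ.toPreSt r s v c h t u g

theorem wpD (l : List (Fin 4)) (r s : Fin 24)
    (h : l.foldr (fun (i : Fin 4) (s : ℕ) => chevD4.reflectRoot i s) r = s) : cD4.wp l r = s :=
  wp_apply_eq linkD4 h

theorem hasD {Y : Subgroup G} (hY : Y ≤ T.Fix) {n : G} (hn : n ∈ Y)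
    (hw : ρ.NW n (cD4.wp [0, 2, 3, 1])) (j : ℕ) {S : List (Fin 24)} (hL : Has T Y S)
    (S' : List (Fin 24)) (h : ∀ r ∈ S', ∃ s ∈ S,
      (List.replicate j ([0, 2, 3, 1] : List (Fin 4))).flatten.foldr
        (fun (i : Fin 4) (s : ℕ) => chevD4.reflectRoot i s) s = r) : Has T Y S' :=
  Has.pow linkD4 hY hn hw j h hL

/-- The short root elements of `³D₄`. -/
def xD (ρ : StRep cD4 K G) (φ : K →+* K) (t : K) : G :=
  ρ.x 18 t * (ρ.x 13 (φ t) * ρ.x 12 (φ (φ t)))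

theorem xD_add (t u : K) : xD ρ φ (t + u) = xD ρ φ t * xD ρ φ u := by
  refine mul_right_cancel (b := 1) ?_
  simp (disch := decide +kernel) only [xD, map_add, mul_assoc, x_x, id_eq, swD [18, 13, 12]]

theorem commD (a b c d e f : K) : (ρ.x 19 d * (ρ.x 16 e * ρ.x 15 f)) *
    (ρ.x 5 a * (ρ.x 10 b * ρ.x 11 c)) = (ρ.x 5 a * (ρ.x 10 b * ρ.x 11 c)) *
      (ρ.x 19 d * (ρ.x 16 e * ρ.x 15 f)) * ρ.x 14 (a * d - b * e - c * f) := by
  refine mul_right_cancel (b := 1) ?_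
  simp (disch := decide +kernel) only [mul_assoc, x_x, id_eq, swD [5, 10, 11, 19, 16, 15, 14],
    swD₁ 5 19 14 (-1) (by decide +kernel), swD₁ 10 16 14 1 (by decide +kernel),
    swD₁ 11 15 14 1 (by decide +kernel)]
  congr 8; push_cast; ring

variable (h : T.IsGr pD4 φ)
include h

theorem xD_conj {g : G} (hg : g ∈ T.Fix) {χ : Char (Fin 4) K} (hχ : ρ.ActsT g χ) (t : K) :
    g * xD ρ φ t * g⁻¹ = xD ρ φ (χ.ev (cD4.vec 18) * t) := by
  have e1 := T.ev_π hg hχ 18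
  have e2 := T.ev_π hg hχ 13
  rw [(h.spec (r := 18) (s := 13) (by decide +kernel)).1] at e1
  rw [(h.spec (r := 13) (s := 12) (by decide +kernel)).1] at e2
  simp only [xD, ← conj_mul, hχ _, e2, e1, Tw.φu, h.φ_eq, map_mul, Units.coe_map, MonoidHom.coe_coe]

variable (hφ : ∀ t, φ t = t ^ q) (h3 : ∀ t, φ (φ (φ t)) = t)
include hφ h3

theorem two_genD4 [Finite K] {k : Kˣ} (hk : ∀ u, u ∈ Subgroup.zpowers k)
    (hk1 : φ (k ^ 2) ≠ k ^ 2) : ∃ a b : gD4 ρ q, Subgroup.closure ({a, b} : Set (gD4 ρ q)) = ⊤ := by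
  have F := formD4 h hφ h3
  have D := dataD4 h.p_eq
  have hr := ρ.r3_of_finite
  let ψ := Units.map (φ : K →* K)
  have hh := tor_memD4 hφ hr (c := ![k, 1, ψ k, ψ (ψ k)]) fun i => by
    fin_cases i
    exacts [rfl, (map_one _).symm, rfl, Units.ext (h3 _).symm]
  have hχ := hr.actsT_tor ![k, 1, ψ k, ψ (ψ k)]
  have hH : hr.tor ![k, 1, ψ k, ψ (ψ k)] ∈ ρ.H := hr.range_tor.le ⟨_, rfl⟩
  generalize hr.tor _ = a at hh hχ hH
  obtain ⟨n1, hn1, hw1⟩ := F.exists_n_s 1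
  obtain ⟨n0, hn0, hw0⟩ := F.exists_n_s 0
  have hw := hw0.mul hw1
  rw [D.s_eq, D.s_eq, ← cD4.wp_append] at hw
  rw [D.s_eq] at hw1
  have hn := mul_mem hn0 hn1
  generalize n0 * n1 = n at hn hw
  have hx : ∀ t, xD ρ φ t ∈ gD4 ρ q := mem_gD4₃ (Or.inl rfl) hφ
  refine two_gen_of hh (mul_mem (hx 1) hn) (gD4_le_Gen h hφ h3) ?_
  have hY : Subgroup.closure {a, xD ρ φ 1 * n} ≤ T.Fix := ((Subgroup.closure_le _).2 (by
    rintro _ (rfl | rfl); exacts [hh, mul_mem (hx 1) hn])).trans F.fix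
  have ha : a ∈ Subgroup.closure {a, xD ρ φ 1 * n} := Subgroup.subset_closure (by simp)
  have hb : xD ρ φ 1 * n ∈ Subgroup.closure {a, xD ρ φ 1 * n} := Subgroup.subset_closure (by simp)
  generalize Subgroup.closure {a, xD ρ φ 1 * n} = Y at hY ha hb
  obtain ⟨χ', h1, h2⟩ := exists_actsT_conj T.faith hw.acts hH hχ
  have e : ∀ i, cD4.sp i (cD4.vec 18) = ![2, -1, 0, 0] i ∧
      cD4.sp i (cD4.vec 4) = ![-1, -1, 1, 1] i := by decide +kernel
  have hk0 := k.ne_zero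
  have hX : ∀ t, xD ρ φ t ∈ Y := by
    refine stein (xD ρ φ) xD_add hk (fun e => hk1 (by rw [e, map_one]))
      (κ := χ'.ev (cD4.vec 18)) ?_ (hr.commute_H hH (hw.acts.conj_mem_H hH)) (fun t => ?_)
      (xD_conj h (F.fix (mul_mem (mul_mem hn hh) (inv_mem hn))) h1) ha ?_
    · have := h2 4
      rw [wpD (swD4 0 ++ swD4 1) 4 18 (by decide +kernel)] at this
      rw [this, cD4.torChar_ev]
      simp only [e, Fin.prod_univ_four]
      intro e1
      have e2 : φ k * φ (φ k) = k := by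
        refine ((inv_mul_eq_one₀ hk0).1 ?_).symm
        simpa [ψ, mul_assoc] using e1
      have e3 := congrArg φ e2
      rw [map_mul, h3] at e3
      refine hk1 ?_
      rw [map_pow]
      linear_combination (-φ k) * e3 + k * e2
    · rw [xD_conj h (F.fix hh) hχ, cD4.torChar_ev]
      simp [e, Fin.prod_univ_four, zpow_ofNat]
    · convert mul_mem (mul_mem hb ha) (inv_mem hb) using 1; group
  replace hn : n ∈ Y := (mul_mem_cancel_left (hX 1)).1 hb
  have hS : Has T Y [18, 13, 12] := fun g hg => by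
    obtain ⟨t, rfl⟩ := (memD4₃ h h3).1 hg
    exact hX t
  have hS' := hasD hY hn hw 3 hS [5, 10, 11] (by decide +kernel)
  have hS'' := hasD hY hn hw 2 hS [19, 16, 15] (by decide +kernel)
  have hL : Has T Y [14] := by
    obtain ⟨d, hd⟩ := hw1.acts.exists_conj_x 18
    obtain ⟨e, he⟩ := hw1.acts.exists_conj_x 13
    obtain ⟨f, hf⟩ := hw1.acts.exists_conj_x 12
    rw [wpD (swD4 1) 18 19 (by decide +kernel)] at hd
    rw [wpD (swD4 1) 13 16 (by decide +kernel)] at he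
    rw [wpD (swD4 1) 12 15 (by decide +kernel)] at hf
    have hb : ρ.x 19 d * (ρ.x 16 e * ρ.x 15 f) ∈ Y := hS'' (im (mul_mem (ρ.x_mem_U (by decide) _)
      (mul_mem (ρ.x_mem_U (by decide) _) (ρ.x_mem_U (by decide) _))) (by
        have := F.fix (mul_mem (mul_mem hn1 (hx 1)) (inv_mem hn1))
        simpa only [xD, ← conj_mul, hd, he, hf, map_one, mul_one] using this))
    have key : ∀ t, ρ.x 14 (t * d - φ t * e - φ (φ t) * f) ∈ Y := fun t => by
      have ha : ρ.x 5 t * (ρ.x 10 (φ t) * ρ.x 11 (φ (φ t))) ∈ Y :=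
        hS' (im (mul_mem (ρ.x_mem_U (by decide) _) (mul_mem (ρ.x_mem_U (by decide) _)
          (ρ.x_mem_U (by decide) _))) (F.fix (mem_gD4₃ (Or.inr rfl) hφ t)))
      have := mul_mem hb ha
      rwa [commD, mul_mem_cancel_left (mul_mem ha hb)] at this
    obtain ⟨s, hs⟩ : ∃ s, s * d - φ s * e - φ (φ s) * f ≠ 0 := by
      by_contra! h0
      set l : K := k ^ 2
      have h4 : φ (φ l) ≠ l := fun e => hk1 (by rw [← e, h3, e])
      have : d * (l - φ l) * (l - φ (φ l)) = 0 := by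
        have a0 := h0 1
        have a1 := h0 l
        have a2 := h0 (l * l)
        simp only [map_mul, map_one] at a0 a2
        linear_combination a2 - (φ l + φ (φ l)) * a1 + φ l * φ (φ l) * a0
      simp [sub_eq_zero, hk1.symm, h4.symm] at this
    intro g hg
    obtain ⟨t, rfl⟩ := (memD4₁ h).1 hg
    have h5 := (fixD4₁ h (Or.inl rfl)).1 (hY (key s))
    generalize hv : s * d - φ s * e - φ (φ s) * f = v at hs h5
    have h6 : φ (t / v) = t / v := by rw [map_div₀, h5, t.2]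
    have := key (t / v * s)
    rwa [map_mul, map_mul, h6, h6, show t / v * s * d - t / v * φ s * e - t / v * φ (φ s) * f =
      t / v * v by rw [← hv]; ring, div_mul_cancel₀ _ hs] at this
  refine form_of_has D F hY (fun i => ?_) fun i => ?_ <;> rcases rlD4_cases i with e | e <;> rw [e]
  exacts [hS, hL, hasD hY hn hw 3 hS _ (by decide +kernel), hasD hY hn hw 3 hL _ (by decide +kernel)]

omit h hφ h3

theorem two_gen_D4 [Fintype K] (hq : IsPrimePow q) (hK : Fintype.card K = q ^ 3) :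
    ∃ a b : twistedD4 K q, Subgroup.closure ({a, b} : Set (twistedD4 K q)) = ⊤ := by
  obtain ⟨φ, hφ, h3⟩ := exists_frobD4 hq hK
  obtain ⟨k, hk⟩ := IsCyclic.exists_generator (α := Kˣ)
  refine two_gen_equiv (packD4 hφ h3).e (two_genD4 (isGr_twD4 φ) hφ h3 hk fun e => ?_)
  have h1 := orderOf_eq_card_of_forall_mem_zpowers hk
  rw [Nat.card_units, Nat.card_eq_fintype_card, hK] at h1
  obtain ⟨m, rfl⟩ : ∃ m, q = m + 2 := ⟨q - 2, by have := hq.two_le; omega⟩
  have h2 : k ^ (2 * (m + 1)) = 1 := Units.ext (mul_right_cancel₀ (pow_ne_zero 2 k.ne_zero) (by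
    rw [hφ] at e
    rw [Units.val_one, one_mul, ← e, Units.val_pow_eq_pow_val, e, ← pow_add, ← e, ← pow_mul]
    congr 1))
  have h4 := Nat.le_of_dvd (by omega) (orderOf_dvd_of_pow_eq_one h2)
  rw [h1] at h4
  have : 2 * (m + 1) + 2 ≤ (m + 2) ^ 3 := by nlinarith [Nat.zero_le (m ^ 2), Nat.zero_le (m ^ 3)]
  omega

end CF.BN.TG
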