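import Cfsg.Agent.BN.EGt
import Cfsg.Agent.BN.G2c
import Cfsg.Agent.Chev.Rk2
import Cfsg.Agent.Chev.Gen2

/-!
# The long root Levi subgroup of `³D₄(q)`
-/

set_option autoImplicit false

namespace CF.BN.TG

open CF.Chev CF.Chev.StRep CF.Chev.Gl2 Cfsg.Lie Matrix

theorem commute_LJ {B ι : Type} [Fintype B] [DecidableEq B] [Fintype ι] [DecidableEq ι]
    {C : ChevBasis B ι} {K : Type*} [Field K] {G : Type*} [Group G] {ρ : StRep C K G}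
    (h3 : ρ.R3) {g : G} {χ : Char B K} (hg : g ∈ ρ.H) (hχ : ρ.ActsT g χ) {J : Set B}
    (h1 : ∀ r, C.InSub J r → χ.ev (C.vec r) = 1) {l : G} (hl : l ∈ ρ.LJ J) : Commute g l := by
  refine (Subgroup.mem_centralizer_singleton_iff.1 ((sup_le (fun y hy => ?_)
    ((ρ.U_le_iff (H := Subgroup.centralizer {g})).2 fun r hr t => ?_) :
      ρ.LJ J ≤ Subgroup.centralizer {g}) hl)).symm
  · exact Subgroup.mem_centralizer_singleton_iff.2 (h3.commute_H hy hg)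
  · have := hχ r t
    rw [h1 r hr, Units.val_one, one_mul, mul_inv_eq_iff_eq_mul] at this
    exact Subgroup.mem_centralizer_singleton_iff.2 this.symm

theorem mul3 {G : Type*} [Group G] {a b c a' b' c' : G} (h1 : Commute b a') (h2 : Commute c a')
    (h3 : Commute c b') : a * (b * c) * (a' * (b' * c')) = a * a' * (b * b' * (c * c')) := by
  calc _ = a * (b * (c * a')) * (b' * c') := by group
    _ = a * (b * a') * (c * b') * c' := by rw [h2.eq]; group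
    _ = _ := by rw [h1.eq, h3.eq]; group

variable {K : Type*} [Field K] {G : Type*} [Group G] {ρ : StRep cD4 K G} {T : Tw ρ}
  {φ : K →+* K} {q : ℕ}

/-- The fixed field. -/
abbrev kF (φ : K →+* K) : Subfield K := φ.eqLocusField (RingHom.id K)

/-- The action on units. -/
abbrev pu (φ : K →+* K) : Kˣ →* Kˣ := Units.map (φ : K →* K)

/-- The Steinberg representation over the fixed field. -/
noncomputable abbrev rk (ρ : StRep cD4 K G) (φ : K →+* K) : StRep cD4 (kF φ) G := ρ.comap (kF φ).subtype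

theorem inSub1 {r : Fin 24} : cD4.InSub {1} r ↔ r = 14 ∨ r = 9 :=
  (by decide +kernel : ∀ r : Fin 24, (∀ k, ¬ k = 1 → cD4.vec r k = 0) ↔ r = 14 ∨ r = 9) r

theorem sim1 : cD4.simple 1 = 14 := by decide +kernel

theorem nsim1 : cD4.neg (cD4.simple 1) = 9 := by decide +kernel

theorem m3D {a b c a' b' c' : G} (hb : b ∈ ρ.U {13, cD4.neg 13}) (hc : c ∈ ρ.U {12, cD4.neg 12})
    (ha' : a' ∈ ρ.U {18, cD4.neg 18}) (hb' : b' ∈ ρ.U {13, cD4.neg 13}) :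
    a * (b * c) * (a' * (b' * c')) = a * a' * (b * b' * (c * c')) :=
  mul3 (SO.commute_U (by decide +kernel) hb ha') (SO.commute_U (by decide +kernel) hc ha')
    (SO.commute_U (by decide +kernel) hc hb')

/-- The negative short root elements. -/
def yD (ρ : StRep cD4 K G) (φ : K →+* K) (t : K) : G :=
  ρ.x 5 t * (ρ.x 10 (φ t) * ρ.x 11 (φ (φ t)))

/-- The short reflection. -/
noncomputable def nD (ρ : StRep cD4 K G) : G := ρ.n 18 1 * (ρ.n 13 1 * ρ.n 12 1)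

/-- The short torus elements. -/
noncomputable def aD (hr : ρ.R3) (φ : K →+* K) (s : Kˣ) : G :=
  hr.tor ![s, 1, pu φ s, pu φ (pu φ s)]

/-- The centre of the Levi subgroup. -/
noncomputable def zD (hr : ρ.R3) (φ : K →+* K) (s : Kˣ) : G :=
  hr.tor ![(pu φ s * pu φ (pu φ s))⁻¹, 1, pu φ s, pu φ (pu φ s)]

theorem tor_H (hr : ρ.R3) (c : Fin 4 → Kˣ) : hr.tor c ∈ ρ.H := hr.range_tor.le ⟨_, rfl⟩

theorem negD : cD4.neg 18 = 5 ∧ cD4.neg 13 = 10 ∧ cD4.neg 12 = 11 := by decide +kernel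

theorem xp (r : Fin 24) (t : K) : ρ.x r t ∈ ρ.U {r, cD4.neg r} := ρ.x_mem_U (by simp) t

theorem xn (r : Fin 24) (t : K) : ρ.x (cD4.neg r) t ∈ ρ.U {r, cD4.neg r} := ρ.x_mem_U (by simp) t

theorem nD_eq : nD ρ = xD ρ φ 1 * yD ρ φ (-1) * xD ρ φ 1 := by
  simp only [xD, yD, ← negD.1, ← negD.2.1, ← negD.2.2]
  rw [m3D (xp _ _) (xp _ _) (xn _ _) (xn _ _), m3D (mul_mem (xp _ _) (xn _ _))
    (mul_mem (xp _ _) (xn _ _)) (xp _ _) (xp _ _)]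
  simp [nD, PreSt.n]

theorem h_tor (hr : ρ.R3) (a b c : Kˣ) :
    ρ.h 18 a * (ρ.h 13 b * ρ.h 12 c) = hr.tor ![a, 1, b, c] := by
  have e : 18 = cD4.simple 0 ∧ 13 = cD4.simple 2 ∧ 12 = cD4.simple 3 := by decide +kernel
  rw [e.1, e.2.1, e.2.2]
  simp only [← hr.tor_single, ← map_mul]
  congr 1
  ext i
  fin_cases i <;> simp

theorem h_tor' (hr : ρ.R3) (a b c : Kˣ) :
    ρ.h 17 a * (ρ.h 20 b * ρ.h 21 c) = hr.tor ![b * c, a * b * c, a * c, a * b] := by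
  have e : ∀ i, cD4.cov 17 i = ![0, 1, 1, 1] i ∧ cD4.cov 20 i = ![1, 1, 0, 1] i ∧
    cD4.cov 21 i = ![1, 1, 1, 0] i := by decide +kernel
  simp only [hr.h_eq_tor, ← map_mul, e]
  congr 1
  ext i
  fin_cases i <;> simp [mul_assoc]

theorem h_tor'' (hr : ρ.R3) (a b c : Kˣ) :
    ρ.h 4 a * (ρ.h 7 b * ρ.h 8 c) = hr.tor ![a⁻¹, (a * b * c)⁻¹, b⁻¹, c⁻¹] := by
  have e : ∀ i, cD4.cov 4 i = ![-1, -1, 0, 0] i ∧ cD4.cov 7 i = ![0, -1, -1, 0] i ∧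
    cD4.cov 8 i = ![0, -1, 0, -1] i := by decide +kernel
  simp only [hr.h_eq_tor, ← map_mul, e]
  congr 1
  ext i
  fin_cases i <;> simp [mul_comm, mul_left_comm]

theorem x_nD (hr : ρ.R3) (t : Kˣ) :
    xD ρ φ t * nD ρ = yD ρ φ (t⁻¹ : Kˣ) * aD hr φ (-t) * xD ρ φ (-1 / t) := by
  have key : ∀ r (t : Kˣ), ρ.x r t * ρ.n r 1 =
      ρ.x (cD4.neg r) (t⁻¹ : Kˣ) * ρ.h r (-t) * ρ.x r (-1 / t) := fun r t => by
    simpa [ρ.x_zero] using hr.x_mul_x_neg_mul_n r 0 t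
  have hn : ∀ r (t : Kˣ), ρ.n r t ∈ ρ.U {r, cD4.neg r} := fun r t =>
    ρ.n_mem_U (by simp) (by simp) t
  have hh : ∀ r (t : Kˣ), ρ.h r t ∈ ρ.U {r, cD4.neg r} := fun r t =>
    ρ.h_mem_U (by simp) (by simp) t
  rw [aD, ← h_tor]
  simp only [xD, yD, nD, ← negD.1, ← negD.2.1, ← negD.2.2]
  rw [m3D (xp _ _) (xp _ _) (hn _ _) (hn _ _), m3D (xn _ _) (xn _ _) (hh _ _) (hh _ _),
    m3D (mul_mem (xn _ _) (hh _ _)) (mul_mem (xn _ _) (hh _ _)) (xp _ _) (xp _ _), key]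
  have h1 := key 13 (pu φ t)
  have h2 := key 12 (pu φ (pu φ t))
  simp only [Units.coe_map, MonoidHom.coe_coe] at h1 h2
  rw [h1, h2]
  have : ∀ t : Kˣ, pu φ (-t) = -pu φ t := fun t => Units.ext (by simp)
  simp [this]

theorem nW_nD : ρ.NW (nD ρ) (cD4.wp [0, 2, 3]) := by
  have e : 18 = cD4.simple 0 ∧ 13 = cD4.simple 2 ∧ 12 = cD4.simple 3 := by decide +kernel
  have := (ρ.nW_n 18 1).mul ((ρ.nW_n 13 1).mul (ρ.nW_n 12 1))
  rw [nD]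
  convert this using 1
  rw [e.1, e.2.1, e.2.2]
  simp [RootSys.wp_cons]

theorem rk_LJ_le : (rk ρ φ).LJ {1} ≤ ρ.LJ {1} :=
  sup_le_sup ((rk ρ φ).H_le_iff.2 fun r t => by rw [comap_h]; exact ρ.h_mem_H _ _)
    (ρ.comap_U_le _ _)

theorem cen_commute (hr : ρ.R3) (b c : Kˣ) {l : G} (hl : l ∈ ρ.LJ {1}) :
    Commute (hr.tor ![(b * c)⁻¹, 1, b, c]) l := by
  have e : ∀ i, cD4.sp i (cD4.vec 14) = ![-1, 2, -1, -1] i ∧
      cD4.sp i (cD4.vec 9) = ![1, -2, 1, 1] i := by decide +kernel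
  refine commute_LJ hr (tor_H hr _) (hr.actsT_tor _) (fun r h => ?_) hl
  rcases inSub1.1 h with rfl | rfl <;> rw [cD4.torChar_ev] <;>
    simp [e, Fin.prod_univ_four, mul_comm, mul_assoc]

theorem zD_commute (hr : ρ.R3) (s : Kˣ) {l : G} (hl : l ∈ ρ.LJ {1}) : Commute (zD hr φ s) l :=
  cen_commute hr _ _ hl

theorem zD_mul (hr : ρ.R3) (s t : Kˣ) : zD hr φ (s * t) = zD hr φ s * zD hr φ t := by
  rw [zD, zD, zD, ← map_mul hr.tor]
  congr 1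
  ext i
  fin_cases i <;> simp [mul_comm, mul_left_comm, mul_assoc]

theorem zD_one (hr : ρ.R3) : zD hr φ 1 = 1 := by
  simpa using zD_mul (φ := φ) hr 1 1

theorem zD_inv (hr : ρ.R3) (s : Kˣ) : zD hr φ s⁻¹ = (zD hr φ s)⁻¹ :=
  eq_inv_of_mul_eq_one_left (by rw [← zD_mul, inv_mul_cancel, zD_one])

theorem h_cen (hr : ρ.R3) (a d b c : Kˣ) :
    ρ.h (cD4.simple 1) a * ρ.h (cD4.simple 0) d * hr.tor ![(b * c)⁻¹, 1, b, c] =
      hr.tor ![d * (b * c)⁻¹, a, b, c] := by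
  simp only [← hr.tor_single, ← map_mul]
  congr 1
  ext i
  fin_cases i <;> simp

theorem exists_norm [Fintype K] (hφ : ∀ t, φ t = t ^ q) (hq : 1 < q)
    (hK : Fintype.card K = q ^ 3) {d : Kˣ} (hd : pu φ d = d) :
    ∃ s : Kˣ, s * (pu φ s * pu φ (pu φ s)) = d := by
  have hψ : ∀ u, pu φ u = u ^ q := fun u => Units.ext (hφ u)
  obtain ⟨g, hg⟩ := IsCyclic.exists_generator (α := Kˣ)
  have h1 := orderOf_eq_card_of_forall_mem_zpowers hg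
  rw [Nat.card_units, Nat.card_eq_fintype_card, hK] at h1
  obtain ⟨m, rfl⟩ := mem_powers_iff_mem_zpowers.2 (hg d)
  obtain ⟨q, rfl⟩ : ∃ m, q = m + 1 := ⟨q - 1, by omega⟩
  have h2 : g ^ (m * q) = 1 := by
    rw [hψ, pow_succ, ← pow_mul] at hd
    simpa using hd
  have h4 := orderOf_dvd_of_pow_eq_one h2
  rw [h1, show (q + 1) ^ 3 - 1 = (1 + (q + 1) + (q + 1) ^ 2) * q by
    rw [Nat.sub_eq_iff_eq_add (Nat.one_le_pow _ _ (by omega))]; ring] at h4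
  obtain ⟨k, rfl⟩ := Nat.dvd_of_mul_dvd_mul_right (by omega) h4
  refine ⟨g ^ k, ?_⟩
  simp only [hψ, ← pow_mul, ← pow_add]
  congr 1; ring

variable (h : T.IsGr pD4 φ) (hφ : ∀ t, φ t = t ^ q) (h3 : ∀ t, φ (φ (φ t)) = t)

include hφ in
theorem x14_mem (t : kF φ) : ρ.x 14 t ∈ ρ.UL {1} ⊓ gD4 ρ q :=
  im (ρ.x_mem_U (And.intro (by decide +kernel) (inSub1.2 (Or.inl rfl))) _)
    (mem_gD4₁ (Or.inl rfl) ((hφ _).symm.trans t.2))

include hφ in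
theorem x9_mem (t : kF φ) : ρ.x 9 t ∈ ρ.VL {1} ⊓ gD4 ρ q :=
  im (ρ.x_mem_U (And.intro (by decide +kernel) (inSub1.2 (Or.inr rfl))) _)
    (mem_gD4₁ (Or.inr rfl) ((hφ _).symm.trans t.2))

include hφ h3 in
theorem aD_mem (hr : ρ.R3) (s : Kˣ) : aD hr φ s ∈ gD4 ρ q :=
  tor_memD4 hφ hr fun i => by
    fin_cases i
    exacts [rfl, (map_one _).symm, rfl, Units.ext (h3 _).symm]

include hφ in
theorem nD_mem : nD ρ ∈ gD4 ρ q := by
  rw [nD_eq (φ := φ)]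
  exact mul_mem (mul_mem (mem_gD4₃ (Or.inl rfl) hφ _) (mem_gD4₃ (Or.inr rfl) hφ _))
    (mem_gD4₃ (Or.inl rfl) hφ _)

include h hφ h3

theorem exists_x14 {g : G} (hg : g ∈ ρ.UL {1} ⊓ gD4 ρ q) : ∃ t : kF φ, g = ρ.x 14 t := by
  obtain ⟨t, rfl⟩ := ρ.mem_X.1 ((ρ.U_singleton 14).le (ρ.U_mono (fun r (hr : _ ∧ _) =>
    (inSub1.1 hr.2).resolve_right fun e => absurd (e ▸ hr.1) (by decide +kernel)) hg.1))
  exact ⟨⟨t, (fixD4₁ h (Or.inl rfl)).1 ((formD4 h hφ h3).fix hg.2)⟩, rfl⟩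

theorem exists_x9 {g : G} (hg : g ∈ ρ.VL {1} ⊓ gD4 ρ q) : ∃ t : kF φ, g = ρ.x 9 t := by
  obtain ⟨t, rfl⟩ := ρ.mem_X.1 ((ρ.U_singleton 9).le (ρ.U_mono (fun r (hr : ¬ _ ∧ _) =>
    (inSub1.1 hr.2).resolve_left fun e => hr.1 (e ▸ by decide +kernel)) hg.1))
  exact ⟨⟨t, (fixD4₁ h (Or.inr rfl)).1 ((formD4 h hφ h3).fix hg.2)⟩, rfl⟩

theorem LG_eq : LG ρ (gD4 ρ q) {1} = (rk ρ φ).GJ {1} := by
  refine le_antisymm (sup_le (fun g hg => ?_) fun g hg => ?_) ((rk ρ φ).U_le_iff.2 fun r hr t => ?_)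
  · obtain ⟨t, rfl⟩ := exists_x14 h hφ h3 hg
    exact (rk ρ φ).x_mem_U (r := 14) (inSub1.2 (Or.inl rfl)) t
  · obtain ⟨t, rfl⟩ := exists_x9 h hφ h3 hg
    exact (rk ρ φ).x_mem_U (r := 9) (inSub1.2 (Or.inr rfl)) t
  · rcases inSub1.1 hr with rfl | rfl
    exacts [UL_mem_LG (x14_mem hφ t), VL_mem_LG (x9_mem hφ t)]

theorem exists_tor [Finite K] [Finite G] (hr : ρ.R3) (hZ : Subgroup.center G = ⊥) {z : G}
    (hz : z ∈ ρ.H ⊓ gD4 ρ q) : ∃ s a : Kˣ, pu φ a = a ∧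
      z = hr.tor ![s, a, pu φ s, pu φ (pu φ s)] := by
  have h1 := Tw.card_map_tor (T := T) hr hZ
  rw [TF_inf_ker_D4 h h3, Subgroup.card_bot, one_mul] at h1
  obtain ⟨c, hc, rfl⟩ := (Subgroup.eq_of_le_of_card_ge (H := T.TF.map hr.tor)
    (le_inf ((Subgroup.map_le_range _ _).trans hr.range_tor.le) (by
      rintro _ ⟨c, hc, rfl⟩; exact tor_memD4 hφ hr (h.mem_TF.1 hc)))
    ((Subgroup.card_le_of_le (inf_le_inf_left _ (formD4 h hφ h3).fix)).trans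
      (h1 ▸ T.card_H_inf_Fix_le hZ))).ge hz
  have hc := h.mem_TF.1 hc
  refine ⟨c 0, c 1, (hc 1).symm, congrArg _ (funext fun i => ?_)⟩
  fin_cases i
  exacts [rfl, rfl, hc 0, (hc 2).trans (congrArg (pu φ) (hc 0))]

theorem tor_mem_LG (hr : ρ.R3) {a : Kˣ} (ha : pu φ a = a) :
    hr.tor ![1, a, 1, 1] ∈ LG ρ (gD4 ρ q) {1} := by
  rw [LG_eq h hφ h3]
  have := h_mem_GJ (ρ := rk ρ φ) (J := {1}) rfl (Units.mk0 ⟨a, congrArg Units.val ha⟩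
    fun e => a.ne_zero (congrArg Subtype.val e))
  rw [comap_h, ← hr.tor_single] at this
  convert this using 2
  ext i
  fin_cases i <;> simp

end CF.BN.TG
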