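import Cfsg.Agent.BN.CsD1

/-!
# A real semisimple element of the long root Levi subgroup of `³D₄(q)`
-/

set_option autoImplicit false

namespace CF.BN.TG

open CF.Chev CF.Chev.StRep CF.Chev.Gl2 Cfsg.Lie Matrix

section

variable {B ι : Type} [Fintype B] [DecidableEq B] [Fintype ι] [DecidableEq ι]
  {C : ChevBasis B ι} {K : Type*} [Field K] {G : Type*} [Group G] {ρ : StRep C K G}

theorem commute_U_U {S S' : Set ι} (h : ∀ r ∈ S, ∀ s ∈ S', s ≠ C.neg r ∧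
    ∀ v, C.vec v ≠ C.vec s + C.vec r) {a b : G} (ha : a ∈ ρ.U S) (hb : b ∈ ρ.U S') :
    Commute a b :=
  Subgroup.mem_centralizer_singleton_iff.1 ((ρ.U_le_iff
    (H := Subgroup.centralizer {b})).2 (fun v hv t => Subgroup.mem_centralizer_singleton_iff.2
      (Subgroup.mem_centralizer_singleton_iff.1 ((ρ.U_le_iff (H := Subgroup.centralizer {_})).2
        (fun z hz u => Subgroup.mem_centralizer_singleton_iff.2
          (ρ.commute_of_none (h v hv z hz).1 (h v hv z hz).2 t u).symm) hb)).symm) ha)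

theorem map_h_of {K' G' : Type*} [Field K'] [Group G'] {ρ' : StRep C K' G'} {j : K →+* K'}
    {F : G →* G'} (hF : ∀ r t, F (ρ.x r t) = ρ'.x r (j t)) (r : ι) (t : Kˣ) :
    F (ρ.h r t) = ρ'.h r (Units.map (j : K →* K') t) := by
  simp [PreSt.h, PreSt.n, hF]

end

variable {K : Type*} [Field K] {G : Type*} [Group G] {ρ : StRep cD4 K G} {T : Tw ρ}
  {φ : K →+* K} {q : ℕ} {ψ : GL (Fin 2) (kF φ) →* G}

/-- The norm. -/
abbrev nm (φ : K →+* K) (s : Kˣ) : Kˣ := s * (pu φ s * pu φ (pu φ s))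

theorem perp_mem {m g : G} (hm : ρ.NW m (cD4.wp [0, 2, 3, 1]))
    (hg : g ∈ ρ.U {r | r ∈ ([18, 13, 12, 5, 10, 11] : List (Fin 24))}) :
    m * g * m⁻¹ ∈ ρ.U {r | r ∈ ([17, 20, 21, 6, 3, 2] : List (Fin 24))} :=
  hm.acts.conj_mem_U (fun r hr => by
    obtain ⟨s, h1, h2⟩ := (by decide +kernel : ∀ r ∈ ([18, 13, 12, 5, 10, 11] : List (Fin 24)),
      ∃ s ∈ ([17, 20, 21, 6, 3, 2] : List (Fin 24)), ([0, 2, 3, 1] : List (Fin 4)).foldr
        (fun (i : Fin 4) (s : ℕ) => chevD4.reflectRoot i s) r = s) r hr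
    rw [wpD _ r s h2]; exact h1) hg

theorem perp_commute {g l : G} (hg : g ∈ ρ.U {r | r ∈ ([17, 20, 21, 6, 3, 2] : List (Fin 24))})
    (hl : l ∈ ρ.GJ {1}) : Commute g l :=
  commute_U_U (fun r hr s hs => by
    rcases inSub1.1 hs with rfl | rfl <;> revert r <;> decide +kernel) hg hl

theorem nD_mem_U : nD ρ ∈ ρ.U {r | r ∈ ([18, 13, 12, 5, 10, 11] : List (Fin 24))} :=
  mul_mem (ρ.n_mem_U (by decide) (by decide +kernel) _) (mul_mem
    (ρ.n_mem_U (by decide) (by decide +kernel) _) (ρ.n_mem_U (by decide) (by decide +kernel) _))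

theorem nW_perp {m : G} (hm : ρ.NW m (cD4.wp [0, 2, 3, 1])) :
    ρ.NW (m * nD ρ * m⁻¹) (cD4.wp [0, 2, 3, 1, 0, 2, 3, 1, 3, 2, 0]) := by
  have := (hm.mul nW_nD).mul hm.inv
  rwa [← cD4.wp_append, ← cD4.wp_reverse, ← cD4.wp_append] at this

theorem perp_aD (hr : ρ.R3) {n : G} (hn : ρ.NW n (cD4.wp [0, 2, 3, 1, 0, 2, 3, 1, 3, 2, 0]))
    (s : Kˣ) : n * aD hr φ s * n⁻¹ =
      hr.tor ![s⁻¹, (nm φ s)⁻¹, pu φ s⁻¹, pu φ (pu φ s⁻¹)] := by
  rw [aD, ← h_tor, ← conj_mul, ← conj_mul, hr.conj_h hn.acts, hr.conj_h hn.acts,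
    hr.conj_h hn.acts, wpD _ 18 4 (by decide +kernel), wpD _ 13 7 (by decide +kernel),
    wpD _ 12 8 (by decide +kernel), h_tor'', mul_assoc, map_inv, map_inv]

theorem noroot (h3 : ∀ t, φ (φ (φ t)) = t) {A : Matrix (Fin 2) (Fin 2) (kF φ)} (hA : Ell A)
    (c : K) : c ^ 2 - A.trace * c + A.det ≠ 0 := fun e => by
  have e1 : φ A.trace = A.trace := A.trace.2
  have e2 : φ A.det = A.det := A.det.2
  have e3 := congrArg φ e
  simp only [map_add, map_sub, map_mul, map_pow, e1, e2, map_zero] at e3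
  have e4 : φ c = c := by
    by_contra h
    have e5 : φ c = A.trace - c := by
      refine mul_left_cancel₀ (sub_ne_zero.2 h) ?_
      linear_combination e3 - e
    have e6 : φ (φ c) = c := by
      conv_lhs => rw [e5, map_sub, e1, e5]
      ring
    exact h ((congrArg φ e6).symm.trans (h3 c))
  exact hA ⟨c, e4⟩ (Subtype.ext (by simpa using e))

variable (hr : ρ.R3) (hψ : (rk ρ φ).IsG 0 1 ψ)
include hψ

theorem psi_LJ (Λ : GL (Fin 2) (kF φ)) : ψ Λ ∈ ρ.LJ {1} := rk_LJ_le (hψ.mem_LJ Λ)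

theorem psi_S (S : Matrix.SpecialLinearGroup (Fin 2) (kF φ)) :
    ψ (SpecialLinearGroup.toGL S) ∈ (rk ρ φ).GJ {1} :=
  Set.range_const (ι := Fin 1) (c := (1 : Fin 4)) ▸ hψ.isA.range.le ⟨S, rfl⟩

theorem psi_dg {δ : (kF φ)ˣ} {s : Kˣ} (hd : ((nm φ s : Kˣ) : K) = (δ : kF φ)) :
    ψ (dgl ![1, δ]) * zD hr φ s = aD hr φ s := by
  have := h_cen hr 1 (nm φ s) (pu φ s) (pu φ (pu φ s))
  rw [ρ.h_one, one_mul, mul_inv_cancel_right] at this
  rw [hψ.dg, comap_h, aD, ← this, zD]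
  congr 2
  exact Units.ext hd.symm

open Polynomial in
theorem fpfD [Finite K] (h3 : ∀ t, φ (φ (φ t)) = t) (hρ : ρ.IsAdj) {A : GL (Fin 2) (kF φ)}
    (hA : Ell A.1) (h0 : A.1.trace ≠ 0) {s : Kˣ} (hd : ((nm φ s : Kˣ) : K) = A.1.det)
    (h1 : (s : K) ^ 2 ≠ A.1.det) (p : ℕ) [Fact p.Prime] [CharP K p] :
    ¬ p ∣ orderOf (ψ A * zD hr φ s) ∧ (∀ y ∈ ρ.VJ {1}, Commute (ψ A * zD hr φ s) y → y = 1) ∧
      ∀ y ∈ ρ.UJ {1}, Commute (ψ A * zD hr φ s) y → y = 1 := by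
  set f : K[X] := Polynomial.C 1 * X ^ 2 + Polynomial.C (-(A.1.trace : K)) * X +
    Polynomial.C (A.1.det : K)
  have hf : f.natDegree = 2 := natDegree_quadratic one_ne_zero
  have : Fact (Irreducible f) := ⟨irreducible_of_degree_le_three_of_not_isRoot (by simp [hf])
    fun c e => noroot h3 hA c (by simpa [f, sub_eq_add_neg] using e)⟩
  have := (AdjoinRoot.powerBasis this.out.ne_zero).finite
  have : Finite (AdjoinRoot f) := Module.finite_of_finite K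
  obtain ⟨x, y, P, e, e1, e2, -⟩ := hA.exists_diag h0 ((AdjoinRoot.of f).comp (kF φ).subtype)
    (x := AdjoinRoot.root f) (by simpa [f, sub_eq_add_neg] using AdjoinRoot.mk_self (f := f))
  generalize AdjoinRoot.of f = i at e e1 e2
  replace e1 : (x : AdjoinRoot f) + y = i A.1.trace := e1
  replace e2 : (x : AdjoinRoot f) * y = i A.1.det := e2
  have e3 : ∀ c, i c ≠ x ∧ i c ≠ y := fun c => by
    constructor <;> refine fun e => noroot h3 hA c (i.injective ?_) <;>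
      simp only [map_add, map_sub, map_mul, map_pow, map_zero, e, ← e1, ← e2] <;> ring
  obtain ⟨F, hF, hF'⟩ := isAdj_adRes.exists_field_hom hρ i
  set ρ' := (cD4.adSt (AdjoinRoot f)).res
  have hr' := ρ'.r3_of_finite
  obtain ⟨ψ', hψ'⟩ := hr'.exists_isG (a := 0) (b := 1) (by decide +kernel)
  have e4 := hψ.map_eq hψ' (i := i.comp (kF φ).subtype) (F := F) (fun r t => hF' r t) A
  rw [e, map_mul, map_mul, map_inv] at e4
  set j : Kˣ →* (AdjoinRoot f)ˣ := Units.map (i : K →* AdjoinRoot f)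
  have e5 : F (zD hr φ s) = hr'.tor ![(j (pu φ s) * j (pu φ (pu φ s)))⁻¹, 1, j (pu φ s),
      j (pu φ (pu φ s))] := by
    rw [zD, ← h_tor, ← h_tor, map_mul, map_mul, map_h_of hF', map_h_of hF', map_h_of hF', map_inv,
      map_mul]
  have e6 : x * y = j s * (j (pu φ s) * j (pu φ (pu φ s))) := by
    rw [← map_mul, ← map_mul]; exact Units.ext (e2.trans (congrArg i hd.symm))
  have e7 : F (ψ A * zD hr φ s) =
      ψ' P * hr'.tor ![j s, x, j (pu φ s), j (pu φ (pu φ s))] * (ψ' P)⁻¹ := by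
    rw [map_mul, e4, e5, mul_assoc, ← (cen_commute hr' _ _ (inv_mem (hψ'.mem_LJ P))).eq,
      hψ'.dgl_eq, ← mul_assoc, mul_assoc (ψ' P), h_cen, e6, mul_inv_cancel_right]
  have f1 : φ A.1.det = A.1.det := A.1.det.2
  have k1 : ∀ t : Kˣ, (t : K) ^ 2 ≠ A.1.det → ((pu φ t : Kˣ) : K) ^ 2 ≠ A.1.det := fun t ht e =>
    ht (φ.injective (by rw [map_pow, f1]; exact e))
  have k2 : ∀ t : Kˣ, (t : K) ^ 2 ≠ A.1.det → j t ^ 2 ≠ x * y ∧ j t ^ 2 ≠ x ∧ j t ^ 2 ≠ y :=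
    fun t ht => ⟨fun e => ht (i.injective (by rw [← e2, map_pow]; exact congrArg Units.val e)),
      fun e => (e3 (t ^ 2)).1 (by rw [map_pow]; exact congrArg Units.val e),
      fun e => (e3 (t ^ 2)).2 (by rw [map_pow]; exact congrArg Units.val e)⟩
  have k3 := k2 _ h1
  have k4 := k2 _ (k1 _ h1)
  have k5 := k2 _ (k1 _ (k1 _ h1))
  have k6 : x ≠ 1 ∧ y ≠ 1 := ⟨fun e => (e3 1).1 (by simp [e]), fun e => (e3 1).2 (by simp [e])⟩
  generalize j s = a at *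
  generalize j (pu φ s) = b at *
  generalize j (pu φ (pu φ s)) = c at *
  have k7 : ∀ r : Fin 24, ¬ cD4.InSub {1} r → (cD4.torChar ![a, x, b, c]).ev (cD4.vec r) ≠ 1 := by
    have key : ∀ r : Fin 24, r = 14 ∨ r = 9 ∨ ∃ v ∈ ([![2, -1, 0, 0], ![0, -1, 2, 0], ![0, -1, 0, 2],
        ![1, 1, -1, -1], ![-1, 1, 1, -1], ![-1, 1, -1, 1], ![1, 0, 1, -1], ![1, 0, -1, 1],
        ![-1, 0, 1, 1], ![1, -1, 1, 1], ![0, 1, 0, 0]] : List (Fin 4 → ℤ)),
        (∀ i, cD4.sp i (cD4.vec r) = v i) ∨ ∀ i, cD4.sp i (cD4.vec r) = -v i := by decide +kernel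
    intro r hr e
    obtain ⟨v, hv, h⟩ := ((key r).resolve_left fun e => hr (inSub1.2 (.inl e))).resolve_left
      fun e => hr (inSub1.2 (.inr e))
    have e' : ∏ i, ![a, x, b, c] i ^ v i = 1 := by
      rw [cD4.torChar_ev] at e
      rcases h with h | h <;> simp only [h] at e
      · exact e
      · simpa only [_root_.zpow_neg, Finset.prod_inv_distrib, inv_eq_one] using e
    have e8 := congrArg Units.val e6
    have n1 := a.ne_zero
    have n2 := b.ne_zero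
    have n3 := c.ne_zero
    have n4 := x.ne_zero
    simp only [ne_eq, Units.ext_iff, Units.val_mul, Units.val_pow_eq_pow_val, Units.val_one]
      at k3 k4 k5 k6 e8
    replace e' := congrArg Units.val e'
    simp only [List.mem_cons, List.not_mem_nil, or_false] at hv
    rcases hv with rfl | rfl | rfl | rfl | rfl | rfl | rfl | rfl | rfl | rfl | rfl <;>
      simp [Fin.prod_univ_four, zpow_ofNat] at e' <;> try field_simp at e'
    exacts [k3.2.1 e', k4.2.1 e', k5.2.1 e',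
      k3.2.2 (mul_left_cancel₀ n4 (by linear_combination a * e' - e8)),
      k4.2.2 (mul_left_cancel₀ n4 (by linear_combination b * e' - e8)),
      k5.2.2 (mul_left_cancel₀ n4 (by linear_combination c * e' - e8)),
      k5.1 (by linear_combination -c * e' - e8), k4.1 (by linear_combination -b * e' - e8),
      k3.1 (by linear_combination -a * e' - e8),
      k6.2 (mul_left_cancel₀ n4 (by linear_combination e8 + e')), k6.1 (by simp [e'])]
  have k8 : ∀ S, cD4.Closed S → cD4.IsNil S → (∀ r ∈ S, ¬ cD4.InSub {1} r) →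
      (∀ g ∈ ρ'.LJ {1}, ∀ y ∈ ρ'.U S, g * y * g⁻¹ ∈ ρ'.U S) →
      ∀ y ∈ ρ.U S, Commute (ψ A * zD hr φ s) y → y = 1 := fun S s1 s2 s3 s4 z hz hc => by
    have m1 : F z ∈ ρ'.U S := (ρ.U_le_iff (H := (ρ'.U S).comap F)).2 (fun r hr t => by
      rw [Subgroup.mem_comap, hF']; exact ρ'.x_mem_U hr _) hz
    exact hF ((conj_eq_one_iff.1 ((hr'.actsT_tor _).eq_one_of_commute faithful_adRes s1 s2
      (fun r hr => k7 r (s3 r hr)) (s4 _ (inv_mem (hψ'.mem_LJ P)) _ m1) (by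
        have := (hc.map F).map (MulAut.conj (ψ' P)⁻¹)
        simpa [e7, mul_assoc] using this))).trans F.map_one.symm)
  refine ⟨fun hp => ?_, k8 _ ((cD4.ideal_radm _).mono fun _ h => Or.inl h.1)
    (cD4.isNil_neg.mono fun _ h => h.1) (fun _ h => h.2) fun _ hg _ => LJ_conj_mem_VJ hg,
    k8 _ (cD4.closed_rad _) (cD4.isNil_rad _) (fun _ h => h.2) fun _ hg _ => LJ_conj_mem_UJ hg⟩
  have := Fintype.ofFinite (AdjoinRoot f)
  have : CharP (AdjoinRoot f) p := charP_of_injective_ringHom i.injective p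
  have k9 : ![a, x, b, c] ^ Nat.card (AdjoinRoot f)ˣ = 1 := funext fun i => by simp
  have k10 := (CharP.cast_eq_zero_iff (AdjoinRoot f) p _).2 (hp.trans (orderOf_dvd_of_pow_eq_one
    (n := Nat.card (AdjoinRoot f)ˣ) (hF (by
      rw [map_pow, e7, conj_pow, ← map_pow, k9]; simp))))
  rw [Nat.card_units, Nat.cast_pred Nat.card_pos, Nat.card_eq_fintype_card,
    FiniteField.cast_card_eq_zero] at k10
  simp at k10

variable (h : T.IsGr pD4 φ) (hφ : ∀ t, φ t = t ^ q) (h3 : ∀ t, φ (φ (φ t)) = t)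
include h hφ h3

theorem psi_mem {Λ : GL (Fin 2) (kF φ)} {s : Kˣ} (hd : ((nm φ s : Kˣ) : K) = Λ.1.det) :
    ψ Λ * zD hr φ s ∈ ρ.LJ {1} ⊓ gD4 ρ q := by
  refine im (mul_mem (psi_LJ hψ Λ) (H_mem_LJ (tor_H hr _))) ?_
  obtain ⟨S, δ, rfl⟩ := exists_eq_mul Λ
  rw [map_mul, mul_assoc, psi_dg hr hψ (hd.trans (by
    rw [Units.val_mul, det_mul, show (SpecialLinearGroup.toGL S).1.det = 1 from S.2, val_dgl]
    simp))]
  exact mul_mem (LG_le_G1 (LG_eq h hφ h3 ▸ psi_S hψ S)) (aD_mem hφ h3 hr s)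

variable [Fintype K] (hq : 1 < q) (hK : Fintype.card K = q ^ 3)
include hq hK

theorem exists_psi_conj (P : GL (Fin 2) (kF φ)) : ∃ p ∈ ρ.LJ {1} ⊓ gD4 ρ q, ∀ y ∈ ρ.LJ {1},
    ψ P * y * (ψ P)⁻¹ = p * y * p⁻¹ := by
  have hr := ρ.r3_of_finite
  obtain ⟨s, hs⟩ := exists_norm hφ hq hK (d := Units.map ((kF φ).subtype : kF φ →* K)
    (GeneralLinearGroup.det P)) (Units.ext (GeneralLinearGroup.det P).1.2)
  refine ⟨_, psi_mem hr hψ h hφ h3 (Λ := P) (congrArg Units.val hs), fun y hy => ?_⟩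
  rw [mul_assoc (ψ P) (zD hr φ s), (zD_commute hr s hy).eq]; group

theorem realD {A : GL (Fin 2) (kF φ)} (hA : Ell A.1) {s : Kˣ}
    (hd : ((nm φ s : Kˣ) : K) = A.1.det) :
    ∃ n ∈ gD4 ρ q, (ψ A * zD hr φ s)⁻¹ = n * (ψ A * zD hr φ s) * n⁻¹ := by
  have F := formD4 h hφ h3
  have D := dataD4 h.p_eq
  obtain ⟨n1, hn1, hw1⟩ := F.exists_n_s 1
  obtain ⟨n0, hn0, hw0⟩ := F.exists_n_s 0
  have hw := hw0.mul hw1
  rw [D.s_eq, D.s_eq, ← cD4.wp_append] at hw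
  have hm := mul_mem hn0 hn1
  generalize n0 * n1 = m at hm hw
  obtain ⟨S, δ, e⟩ := exists_eq_mul A
  have e0 : (SpecialLinearGroup.toGL S).1.det = 1 := S.2
  have e1 : A.1.det = δ := by rw [e, Units.val_mul, det_mul, e0, val_dgl]; simp
  obtain ⟨P, hP⟩ := isConj_iff.1 ((CF.Cls.isConj_units_iff _
    (SpecialLinearGroup.toGL S * dgl ![δ⁻¹, 1])).2 (hA.inv.isConj (by
      rw [trace_inv, e1, e]
      simp [val_dgl, trace_fin_two, mul_apply]
      field_simp) (by rw [det_inv, e1, Units.val_mul, det_mul, e0, val_dgl]; simp)))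
  obtain ⟨p, hp, e2⟩ := exists_psi_conj hψ h hφ h3 hq hK P
  have hx := psi_mem hr hψ h hφ h3 hd
  have e3 := e2 _ (inv_mem hx.1)
  have e4 := perp_commute (perp_mem hw nD_mem_U) (ρ.comap_U_le _ _ (psi_S hψ S))
  have e5 := perp_aD (φ := φ) hr (nW_perp hw) s
  have hn := mul_mem (mul_mem hm (nD_mem hφ)) (inv_mem hm)
  generalize m * nD ρ * m⁻¹ = n at e4 e5 hn
  refine ⟨p⁻¹ * n, mul_mem (inv_mem hp.2) hn, ?_⟩
  have e6 : n * (ψ A * zD hr φ s) * n⁻¹ = ψ (P * A⁻¹ * P⁻¹) * zD hr φ s⁻¹ := by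
    have e7 : Units.map ((kF φ).subtype : kF φ →* K) δ⁻¹ = (nm φ s)⁻¹ := by
      rw [map_inv]; congr 1; exact Units.ext (hd.trans (congrArg _ e1)).symm
    rw [hP, e, map_mul, map_mul, mul_assoc (ψ _), psi_dg hr hψ (hd.trans (congrArg _ e1)),
      ← conj_mul, e5, e4.mul_inv_cancel, hψ.dgl_eq, mul_one, comap_h, comap_h, mul_assoc (ψ _), zD,
      h_cen, e7]
    congr 3
    ext; simp only [nm, map_inv, Units.val_mul, Units.val_inv_eq_inv_val]; field_simp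
  calc _ = p⁻¹ * (p * (ψ A * zD hr φ s)⁻¹ * p⁻¹) * p := by group
    _ = p⁻¹ * (n * (ψ A * zD hr φ s) * n⁻¹) * p := by
      rw [← e3, e6, ← (zD_commute hr s (psi_LJ hψ A)).eq, _root_.mul_inv_rev, ← zD_inv, map_mul,
        map_mul, map_inv, map_inv, mul_assoc (ψ P * _) _ (zD hr φ s⁻¹),
        ← (zD_commute hr s⁻¹ (inv_mem (psi_LJ hψ P))).eq]
      group
    _ = _ := by group

end CF.BN.TG
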