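import Cfsg.Agent.BN.CsD2

/-!
# The square of a semisimple class of `³D₄(q)`
-/

set_option autoImplicit false

namespace CF.BN.TG

open CF.Chev CF.Chev.StRep CF.Chev.Gl2 Cfsg.Lie Matrix

/-- `g` is a product of two conjugates of `x` in `G1`. -/
def PQ {G : Type*} [Group G] (G1 : Subgroup G) (x g : G) : Prop :=
  ∃ u ∈ G1, ∃ v ∈ G1, g = u * x * u⁻¹ * (v * x * v⁻¹)

theorem PQ.of_conj {G : Type*} [Group G] {G1 : Subgroup G} {x g y : G} (hy : y ∈ G1)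
    (h : PQ G1 x (y * g * y⁻¹)) : PQ G1 x g := by
  obtain ⟨u, hu, v, hv, e⟩ := h
  exact ⟨_, mul_mem (inv_mem hy) hu, _, mul_mem (inv_mem hy) hv, by
    calc g = y⁻¹ * (y * g * y⁻¹) * y := by group
      _ = _ := by rw [e]; group⟩

theorem PQ.congr {G : Type*} [Group G] {G1 : Subgroup G} {x g g' : G} (h : PQ G1 x g)
    (e : g' = g) : PQ G1 x g' := e ▸ h

theorem PQ.sub {G : Type*} [Group G] {G1 : Subgroup G} {x : G} (hx : x ∈ G1)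
    (h : ∀ g ∈ G1, g ≠ 1 → PQ G1 x g) {X : Type*} [Group X] (e : X ≃* G1) :
    ∃ y : X, orderOf y = orderOf x ∧ ∀ g : X, g ≠ 1 → ∃ u v : X,
      g = u * y * u⁻¹ * (v * y * v⁻¹) := by
  refine ⟨e.symm ⟨x, hx⟩, by rw [MulEquiv.orderOf_eq, ← Subgroup.orderOf_coe], fun g hg => ?_⟩
  obtain ⟨u, hu, v, hv, e1⟩ := h _ (e g).2 fun h => hg (e.injective (Subtype.ext (by simpa using h)))
  exact ⟨e.symm ⟨u, hu⟩, e.symm ⟨v, hv⟩, e.injective (Subtype.ext (by simpa using e1))⟩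

theorem exists_good {k : Type*} [Field k] (h2 : (2 : k) = 0) {Λ : GL (Fin 2) k}
    (hΛ : Λ.1.det = 1) : ∃ c, Λ * tU c = 1 ∨ (Λ * tU c).1.trace ≠ 0 := by
  have key : ∀ c, (Λ * tU c).1.trace = Λ.1.trace + Λ.1 1 0 * c := fun c => by
    simp [val_tU, trace_fin_two, mul_apply]; ring
  by_cases h0 : Λ.1.trace = 0
  swap
  · exact ⟨0, .inr (by rw [key]; simpa using h0)⟩
  by_cases h1 : Λ.1 1 0 = 0
  swap
  · exact ⟨1, .inr (by rw [key]; simpa [h0] using h1)⟩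
  rw [trace_fin_two] at h0
  rw [det_fin_two, h1] at hΛ
  have : CharP k 2 := CharTwo.of_one_ne_zero_of_two_eq_zero one_ne_zero h2
  have h4 : Λ.1 0 0 = 1 := by
    simpa [CharTwo.neg_eq] using mul_self_eq_one_iff.1 (show Λ.1 0 0 * Λ.1 0 0 = 1 by
      linear_combination hΛ + Λ.1 0 0 * h0 - Λ.1 0 0 * Λ.1 1 1 * h2)
  have h5 : Λ.1 1 1 = 1 := by simpa [h4] using hΛ
  refine ⟨-Λ.1 0 1, .inl (Units.ext ?_)⟩
  ext i j
  fin_cases i <;> fin_cases j <;> simp [val_tU, mul_apply, h1, h4, h5]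

theorem conj_tU {k : Type*} [Field k] (h2 : (2 : k) = 0) {Λ : GL (Fin 2) k}
    (hΛ : Λ.1.det = 1) (h1 : Λ ≠ 1) (e5 : Λ.1.trace = 0) (c2 : Λ.1 0 1 = 0) :
    (tU 1 * Λ * (tU 1)⁻¹).1.det = 1 ∧ (tU 1 * Λ * (tU 1)⁻¹).1 0 1 ≠ 0 ∧
      (tU 1 * Λ * (tU 1)⁻¹).1.trace = 0 := by
  refine ⟨(det_units_conj _ _).trans hΛ, fun e4 => h1 ?_, (trace_units_conj _ _).trans e5⟩
  have e3 : (tU 1 * Λ * (tU 1)⁻¹).1 = !![1, 1; 0, 1] * Λ.1 * !![1, -1; 0, 1] := by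
    rw [Units.val_mul, Units.val_mul, val_inv_eq, val_tU]; simp
  rw [trace_fin_two] at e5
  rw [det_fin_two, c2] at hΛ
  rw [e3] at e4
  simp [mul_apply, vecMul, dotProduct, c2] at e4
  have : CharP k 2 := CharTwo.of_one_ne_zero_of_two_eq_zero one_ne_zero h2
  have h4 : Λ.1 0 0 = 1 := by
    simpa [CharTwo.neg_eq] using mul_self_eq_one_iff.1 (show Λ.1 0 0 * Λ.1 0 0 = 1 by
      linear_combination hΛ + Λ.1 0 0 * e5 - Λ.1 0 0 * Λ.1 1 1 * h2)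
  have h5 : Λ.1 1 1 = 1 := by simpa [h4] using hΛ
  have h6 : Λ.1 1 0 = 0 := by linear_combination h5 - h4 - e4
  ext i j
  fin_cases i <;> fin_cases j <;> simp [c2, h4, h5, h6]

variable {K : Type*} [Field K] {G : Type*} [Group G] {ρ : StRep cD4 K G} {T : Tw ρ}
  {φ : K →+* K} {q : ℕ} {ψ : GL (Fin 2) (kF φ) →* G}

theorem conj_perp (a b c d e f : K) (g : G) : ∃ v ∈ ρ.VJ {1}, ∃ t,
    t = d * b * c - e * a * c - f * a * b ∧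
    ρ.x 18 a * (ρ.x 13 b * (ρ.x 12 c * (ρ.x 6 d * (ρ.x 3 e * (ρ.x 2 f * g))))) =
      v * (ρ.x 9 t * (ρ.x 18 a * (ρ.x 13 b * (ρ.x 12 c * g)))) := by
  simp (disch := decide +kernel) only [mul_assoc, x_x, id_eq, swD [6, 3, 2, 8, 7, 4, 9, 18, 13, 12],
    swD₁ 6 12 7 1 (by decide +kernel), swD₁ 3 12 4 1 (by decide +kernel),
    swD₁ 6 13 8 1 (by decide +kernel), swD₁ 7 13 9 1 (by decide +kernel),
    swD₁ 2 13 4 1 (by decide +kernel), swD₁ 3 18 8 (-1) (by decide +kernel),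
    swD₁ 4 18 9 (-1) (by decide +kernel), swD₁ 2 18 7 (-1) (by decide +kernel)]
  simp only [← mul_assoc]
  refine ⟨_, ?_, _, ?_, rfl⟩
  · have : ∀ r ∈ ([6, 3, 2, 8, 7, 4] : List (Fin 24)), ∀ t, ρ.x r t ∈ ρ.VJ {1} := fun r hr t =>
      ρ.x_mem_U (And.intro (by revert r; decide +kernel) (by rw [inSub1]; revert r; decide)) t
    repeat' refine mul_mem ?_ ?_
    all_goals exact this _ (by decide) _
  · push_cast; ring

theorem exists_Q_ne [Fintype K] (hφ : ∀ t, φ t = t ^ q) (h3 : ∀ t, φ (φ (φ t)) = t) (hq : 1 < q)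
    (hK : Fintype.card K = q ^ 3) {d : K} (hd : d ≠ 0) (e f : K) :
    ∃ s, d * φ s * φ (φ s) - e * s * φ (φ s) - f * s * φ s ≠ 0 := by
  obtain ⟨l, hl⟩ : ∃ l, φ l ≠ l := by
    by_contra! h
    have h1 := card_fix hq hK
    rw [Nat.card_congr (Equiv.subtypeUnivEquiv fun t => (hφ t).symm.trans (h t)),
      Nat.card_eq_fintype_card, hK] at h1
    exact absurd h1 (Nat.ne_of_gt (by simpa using Nat.pow_lt_pow_right hq (show 1 < 3 by omega)))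
  by_contra! h0
  have h4 : φ (φ l) ≠ l := fun e => hl (by rw [← e, h3, e])
  have h5 : φ l ≠ 0 := fun e => hl (by rw [(_root_.map_eq_zero φ).1 e, map_zero])
  have : d * (φ l * φ (φ l)) * (l - φ l) * (l - φ (φ l)) = 0 := by
    have a0 := h0 1
    have a1 := h0 l
    have a2 := h0 (l * l)
    simp only [map_mul, map_one] at a0 a2
    linear_combination a2 - l * (φ l + φ (φ l)) * a1 + l * l * φ l * φ (φ l) * a0
  simp [sub_eq_zero, hl.symm, h4.symm, hd, h5] at this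

theorem exists_tau [Finite K] (h2 : (2 : K) = 0) (hN : ∀ s, pu φ (nm φ s) = nm φ s) (s : Kˣ) :
    ∃ τ : Kˣ, pu φ τ * pu φ (pu φ τ) * s = 1 := by
  have : CharP K 2 := CharTwo.of_one_ne_zero_of_two_eq_zero one_ne_zero h2
  obtain ⟨d, hd⟩ := FiniteField.isSquare_of_char_two (ringChar.eq_iff.2 this) ((nm φ s : Kˣ) : K)
  have h0 : d ≠ 0 := fun e => (nm φ s).ne_zero (by rw [hd, e, mul_zero])
  have h4 : φ d = d := by
    have := congrArg Units.val (hN s)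
    rw [Units.coe_map, hd] at this
    simpa [CharTwo.neg_eq] using mul_self_eq_mul_self_iff.1 ((map_mul φ d d).symm.trans this)
  refine ⟨s / Units.mk0 d h0, Units.ext ?_⟩
  simp only [nm, Units.val_mul, Units.coe_map, MonoidHom.coe_coe] at hd
  simp only [Units.val_mul, Units.coe_map, MonoidHom.coe_coe, Units.val_div_eq_div_val,
    Units.val_mk0, map_div₀, h4, Units.val_one]
  field_simp
  linear_combination hd

variable (hr : ρ.R3) (hψ : (rk ρ φ).IsG 0 1 ψ)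
  (h : T.IsGr pD4 φ) (hφ : ∀ t, φ t = t ^ q) (h3 : ∀ t, φ (φ (φ t)) = t)

include h in
theorem stab1 : T.S.Stab {1} := fun i => by
  rw [h.p_eq]; simp only [Set.mem_singleton_iff]; revert i; decide

include hψ in
theorem psi_tU (t : kF φ) : ψ (tU t) = ρ.x 14 t := (hψ.tU t).trans (by rw [sim1]; rfl)

include hψ in
theorem psi_tL (t : kF φ) : ψ (tL t) = ρ.x 9 t := (hψ.tL t).trans (by rw [nsim1]; rfl)

include hψ in
theorem psi_GJ {Λ : GL (Fin 2) (kF φ)} (hΛ : Λ.1.det = 1) : ψ Λ ∈ (rk ρ φ).GJ {1} :=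
  (Units.ext rfl : SpecialLinearGroup.toGL ⟨Λ.1, hΛ⟩ = Λ) ▸ psi_S hψ ⟨Λ.1, hΛ⟩

include hψ h hφ h3

theorem psi_mem₁ {Λ : GL (Fin 2) (kF φ)} (hΛ : Λ.1.det = 1) : ψ Λ ∈ ρ.LJ {1} ⊓ gD4 ρ q :=
  im (psi_LJ hψ Λ) (LG_le_G1 (LG_eq h hφ h3 ▸ psi_GJ hψ hΛ))

variable [Fintype K] [Finite G] (hq : 1 < q) (hK : Fintype.card K = q ^ 3)
  (hZ : Subgroup.center G = ⊥)

include hZ in
theorem stepD {w : Equiv.Perm (Fin 24)} (hw : w ∈ T.S.Wf) (hw' : w ∉ cD4.WJ {1}) {n p : G}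
    (hn : n ∈ gD4 ρ q) (hn' : ρ.NW n w) (hp : p ∈ ρ.PJ {1} ⊓ gD4 ρ q) :
    ∃ x ∈ gD4 ρ q, ∃ v ∈ ρ.VJ {1} ⊓ gD4 ρ q, ∃ Λ : GL (Fin 2) (kF φ), Λ.1.det = 1 ∧
      ∀ y ∈ ρ.UJ {1} ⊓ gD4 ρ q, ∀ c : kF φ, ∃ u ∈ ρ.UJ {1} ⊓ gD4 ρ q,
        x * (n * y * p * (ρ.x 14 c)⁻¹) * x⁻¹ = v * ψ (Λ * tU (-c)) * u := by
  have F := formD4 h hφ h3
  have D := dataD4 h.p_eq
  have hr := ρ.r3_of_finite
  have k1 : ∀ t, xD ρ φ t ∈ ρ.UL (T.S.orb 0) ⊓ gD4 ρ q := fun t => im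
    (by rw [UL, D.set_eq]; exact ((memD4₃ h h3).2 ⟨t, rfl⟩).1) (mem_gD4₃ (Or.inl rfl) hφ t)
  obtain ⟨x, hx, v, hv, l, hl, u, hu, e⟩ := step F (stab1 h) (a := 0) (by simp)
    (fun i hi => (D.mem_orb _ _).2 (by revert i; simp only [Set.mem_singleton_iff]; decide))
    (nD_mem hφ) (D.s_eq 0 ▸ nW_nD) (fun z hz => by
      obtain ⟨s, a, ha, rfl⟩ := exists_tor h hφ h3 hr hZ hz
      have k2 : ∀ r ∈ rlD4 0, ∀ t, ρ.x (cD4.neg r) t ∈ ρ.VL (T.S.orb 0) := fun r hr t =>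
        ρ.x_mem_U (D.neg_mem hr) t
      refine ⟨_, k1 _, _, im ?_ (mem_gD4₃ (Or.inr rfl) hφ _), _, _, k1 _, x_nD hr (-s⁻¹), ?_⟩
      · exact mul_mem (negD.1 ▸ k2 18 (by decide) _) (mul_mem (negD.2.1 ▸ k2 13 (by decide) _)
          (negD.2.2 ▸ k2 12 (by decide) _))
      · convert tor_mem_LG h hφ h3 hr ha using 1
        rw [aD, ← map_mul hr.tor]
        congr 1
        ext i
        fin_cases i <;> simp) hw hw' (one_mem _) hn hn' hp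
  obtain ⟨a, ha, b, hb, e1⟩ := split_U F (stab1 h) (inv_mem hx)
  obtain ⟨t, rfl⟩ := exists_x14 h hφ h3 ha
  obtain ⟨Λ, hΛ, rfl⟩ := hψ.exists_eq (LG_eq h hφ h3 ▸ hl)
  refine ⟨x, hx.2, v, hv, Λ * tU t, by simp [hΛ, val_tU], fun y hy c => ?_⟩
  have k3 := mul_mem hu (cj' hp.2 hy.2 (by simpa using PJ_conj_mem_UJ (inv_mem hp.1) hy.1))
  have k4 := mul_mem (inv_mem (x14_mem (ρ := ρ) hφ c)) ha
  refine ⟨_, mul_mem (cj' k4.2 k3.2 (LJ_conj_mem_UJ' (ρ.UL_le_LJ _ k4.1) k3.1)) hb, ?_⟩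
  rw [map_mul, map_mul, psi_tU hψ, psi_tU hψ, mul_assoc (ψ Λ), (ρ.x_comm_self 14 _ _).eq,
    show ((-c : kF φ) : K) = -c from rfl, ρ.x_neg, e1]
  calc _ = x * (1 * n * p) * (p⁻¹ * y * p) * (ρ.x 14 c)⁻¹ * (ρ.x 14 t * b) := by group
    _ = _ := by rw [e]; group

include hq hK in
theorem pq_of_pr {A A' Λ : GL (Fin 2) (kF φ)} {s t : Kˣ} (hst : s * t = 1) (hP : Pr A A' Λ)
    (hx : ψ A * zD hr φ s ∈ ρ.LJ {1} ⊓ gD4 ρ q) (hx' : ψ A' * zD hr φ t ∈ ρ.LJ {1} ⊓ gD4 ρ q)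
    (h1 : ∀ y ∈ ρ.VJ {1}, Commute (ψ A * zD hr φ s) y → y = 1)
    (h2 : ∀ y ∈ ρ.UJ {1}, Commute (ψ A' * zD hr φ t) y → y = 1) {v u : G}
    (hv : v ∈ ρ.VJ {1} ⊓ gD4 ρ q) (hu : u ∈ ρ.UJ {1} ⊓ gD4 ρ q) :
    ∃ a ∈ gD4 ρ q, ∃ b ∈ gD4 ρ q, v * ψ Λ * u =
      a * (ψ A * zD hr φ s) * a⁻¹ * (b * (ψ A' * zD hr φ t) * b⁻¹) := by
  obtain ⟨P, R, rfl⟩ := hP
  obtain ⟨p, hp, e1⟩ := exists_psi_conj hψ h hφ h3 hq hK P
  obtain ⟨r, hr', e2⟩ := exists_psi_conj hψ h hφ h3 hq hK R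
  refine exists_conj_mul' hx hx' h1 h2 hp hr' ?_ hv hu
  have k : ∀ (P A : GL (Fin 2) (kF φ)) s, ψ P * (ψ A * zD hr φ s) * (ψ P)⁻¹ =
      ψ (P * A * P⁻¹) * zD hr φ s := fun P A s => by
    rw [map_mul, map_mul, map_inv, mul_assoc _ _ (zD hr φ s),
      ← (zD_commute hr s (inv_mem (psi_LJ hψ P))).eq]; group
  rw [← e1 _ hx.1, ← e2 _ hx'.1, k, k, mul_assoc (ψ _) (zD hr φ s), ← mul_assoc (zD hr φ s),
    (zD_commute hr s (psi_LJ hψ _)).eq, mul_assoc _ (zD hr φ s), ← zD_mul, hst, zD_one, mul_one,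
    map_mul ψ]

omit [Finite G] in
include hq hK in
theorem keyC {x : G} (hb : ∀ v ∈ ρ.VJ {1} ⊓ gD4 ρ q, ∀ u ∈ ρ.UJ {1} ⊓ gD4 ρ q,
      ∀ Λ : GL (Fin 2) (kF φ), Λ.1.det = 1 → Λ = 1 ∨ Λ.1.trace ≠ 0 →
        PQ (gD4 ρ q) x (v * ψ Λ * u)) {d e f : K} (hd : d ≠ 0)
    (hY : ρ.x 6 d * (ρ.x 3 e * ρ.x 2 f) ∈ gD4 ρ q) (Λ : GL (Fin 2) (kF φ)) (hΛ : Λ.1.det = 1)
    (h0 : Λ.1 0 1 ≠ 0) (u : G) (hu : u ∈ ρ.UJ {1} ⊓ gD4 ρ q) (ht : Λ.1.trace = 0) :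
    PQ (gD4 ρ q) x (ρ.x 6 d * (ρ.x 3 e * ρ.x 2 f) * ψ Λ * u) := by
  have F := formD4 h hφ h3
  obtain ⟨σ, hσ⟩ := exists_Q_ne hφ h3 hq hK hd e f
  obtain ⟨v, hv, t, ht', e2⟩ := conj_perp (ρ := ρ) σ (φ σ) (φ (φ σ)) d e f 1
  have k4 := mem_gD4₃ (ρ := ρ) (Or.inl rfl) hφ σ
  have k5 : xD ρ φ σ ∈ ρ.UJ {1} := by
    have : ∀ r ∈ ([18, 13, 12] : List (Fin 24)), ∀ t, ρ.x r t ∈ ρ.UJ {1} := fun r hr t =>
      ρ.x_mem_U (And.intro (by revert r; decide +kernel) (by rw [inSub1]; revert r; decide)) t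
    exact mul_mem (this _ (by decide) _) (mul_mem (this _ (by decide) _) (this _ (by decide) _))
  have e3 : xD ρ φ σ * (ρ.x 6 d * (ρ.x 3 e * ρ.x 2 f)) * (xD ρ φ σ)⁻¹ = v * ρ.x 9 t := by
    rw [mul_inv_eq_iff_eq_mul]; simpa only [xD, mul_one, mul_assoc] using e2
  have k6 : ρ.x 9 t ∈ ρ.VL {1} :=
    ρ.x_mem_U (And.intro (by decide +kernel) (inSub1.2 (Or.inr rfl))) _
  obtain ⟨v', hv', b, hb', e4⟩ := split_V F (stab1 h) (im (mul_mem (VJ_le_Um hv) (VL_le_Um k6))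
    (e3 ▸ mul_mem (mul_mem k4 hY) (inv_mem k4)))
  obtain ⟨t', rfl⟩ := exists_x9 h hφ h3 hb'
  obtain rfl : t = t' := by
    have c1 : ρ.Cm 1 (ρ.x 9 t) t := nsim1 ▸ cm_x
    have c2 : ρ.Cm 1 (ρ.x 9 t') t' := nsim1 ▸ cm_x
    exact (c1.Vi_mul (VJ_le_Vi (J := {1}) rfl hv)).unique T.faith
      (e4 ▸ c2.Vi_mul (VJ_le_Vi (J := {1}) rfl hv'.1))
  have k7 := psi_mem₁ hψ h hφ h3 hΛ
  refine PQ.of_conj k4 ?_
  convert hb v' hv' _ (mul_mem (mul_mem (cj' k7.2 k4 (LJ_conj_mem_UJ' k7.1 k5)) hu)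
    (inv_mem (im k5 k4))) (tL t' * Λ) (by rw [Units.val_mul, det_mul, hΛ]; simp [val_tL]) (.inr fun e5 => ?_) using 1
  · rw [map_mul, psi_tL hψ, ← mul_assoc v', ← e4, ← e3, xD]; group
  · rw [trace_fin_two] at ht
    simp [val_tL, trace_fin_two, vecMul, dotProduct] at e5
    refine mul_ne_zero (fun e => hσ (ht' ▸ congrArg Subtype.val e)) h0 (?_ : t' * _ = 0)
    linear_combination e5 - ht


include hq hK hZ in
theorem caseC (h2 : (2 : K) = 0) {x : G} (hb : ∀ v ∈ ρ.VJ {1} ⊓ gD4 ρ q, ∀ u ∈ ρ.UJ {1} ⊓ gD4 ρ q,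
      ∀ Λ : GL (Fin 2) (kF φ), Λ.1.det = 1 → Λ = 1 ∨ Λ.1.trace ≠ 0 →
        PQ (gD4 ρ q) x (v * ψ Λ * u)) {m p : G} (hm : m ∈ gD4 ρ q)
    (hw : ρ.NW m (cD4.wp [0, 2, 3, 1])) (hp : p ∈ ρ.PJ {1} ⊓ gD4 ρ q) :
    PQ (gD4 ρ q) x (m * nD ρ * m⁻¹ * p) := by
  have F := formD4 h hφ h3
  have hr := ρ.r3_of_finite
  obtain ⟨z, hz, l, hl, u, hu, rfl⟩ := exists_PJ F (stab1 h) hp
  obtain ⟨s, a, ha, rfl⟩ := exists_tor h hφ h3 hr hZ hz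
  have hψ3 : ∀ s, pu φ (pu φ (pu φ s)) = s := fun s => Units.ext (h3 s)
  have hN : ∀ s, pu φ (nm φ s) = nm φ s := fun s => by
    rw [map_mul, map_mul, hψ3, ← mul_assoc, mul_comm]
  obtain ⟨τ, hτ⟩ := exists_tau h2 hN s
  have k0 : ∀ r ∈ ([17, 20, 21] : List (Fin 24)), ∀ t, ρ.x r t ∈ ρ.UJ {1} := fun r hr t =>
    ρ.x_mem_U (And.intro (by revert r; decide +kernel) (by rw [inSub1]; revert r; decide)) t
  have k1 : ∀ t, m * xD ρ φ t * m⁻¹ ∈ ρ.UJ {1} ⊓ gD4 ρ q := fun t => by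
    refine cj hm (mem_gD4₃ (Or.inl rfl) hφ t) ?_
    obtain ⟨d, hd⟩ := hw.acts.exists_conj_x 18
    obtain ⟨e, he⟩ := hw.acts.exists_conj_x 13
    obtain ⟨f, hf⟩ := hw.acts.exists_conj_x 12
    rw [xD, ← conj_mul, ← conj_mul, hd, he, hf, wpD _ 18 17 (by decide +kernel),
      wpD _ 13 20 (by decide +kernel), wpD _ 12 21 (by decide +kernel)]
    exact mul_mem (k0 _ (by decide) _) (mul_mem (k0 _ (by decide) _) (k0 _ (by decide) _))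
  obtain ⟨d, e, f, hd, k2⟩ : ∃ d e f, d ≠ 0 ∧ m * yD ρ φ ((-τ)⁻¹ : Kˣ) * m⁻¹ =
      ρ.x 6 d * (ρ.x 3 e * ρ.x 2 f) := by
    obtain ⟨d, hd⟩ := hw.acts.exists_conj_x 5
    obtain ⟨e, he⟩ := hw.acts.exists_conj_x 10
    obtain ⟨f, hf⟩ := hw.acts.exists_conj_x 11
    rw [yD, ← conj_mul, ← conj_mul, hd, he, hf, wpD _ 5 6 (by decide +kernel),
      wpD _ 10 3 (by decide +kernel), wpD _ 11 2 (by decide +kernel)]
    exact ⟨_, _, _, mul_ne_zero d.ne_zero (Units.ne_zero _), rfl⟩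
  have k3 : m * aD hr φ τ * m⁻¹ * hr.tor ![s, a, pu φ s, pu φ (pu φ s)] ∈ LG ρ (gD4 ρ q) {1} := by
    rw [aD, ← h_tor, ← conj_mul, ← conj_mul, hr.conj_h hw.acts, hr.conj_h hw.acts,
      hr.conj_h hw.acts, wpD _ 18 17 (by decide +kernel), wpD _ 13 20 (by decide +kernel),
      wpD _ 12 21 (by decide +kernel), h_tor' hr, ← map_mul hr.tor]
    convert tor_mem_LG h hφ h3 hr (a := nm φ τ * a) (by rw [map_mul, hN, ha]) using 2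
    have e1 := congrArg (pu φ) hτ
    have e2 := congrArg (pu φ) e1
    simp only [map_mul, hψ3, map_one] at e1 e2
    funext i
    fin_cases i
    exacts [hτ, by simp [mul_assoc], (mul_comm τ _ ▸ e1 :), e2]
  obtain ⟨Λ, hΛ, e1⟩ := hψ.exists_eq (LG_eq h hφ h3 ▸ mul_mem k3 hl)
  have hY : ρ.x 6 d * (ρ.x 3 e * ρ.x 2 f) ∈ gD4 ρ q :=
    k2 ▸ mul_mem (mul_mem hm (mem_gD4₃ (Or.inr rfl) hφ _)) (inv_mem hm)
  have hY' : ρ.x 6 d * (ρ.x 3 e * ρ.x 2 f) ∈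
      ρ.U {r | r ∈ ([17, 20, 21, 6, 3, 2] : List (Fin 24))} := mul_mem (ρ.x_mem_U (by decide) _)
    (mul_mem (ρ.x_mem_U (by decide) _) (ρ.x_mem_U (by decide) _))
  have key := keyC hψ h hφ h3 hq hK hb hd hY
  have k8 := mul_mem (im (H_mem_LJ (J := {1}) hz.1) hz.2) (im (LG_le_LJ hl) (LG_le_G1 hl))
  have k9 := mul_mem (mul_mem (cj' k8.2 (k1 (-1 / (-τ : Kˣ))).2
    (LJ_conj_mem_UJ' k8.1 (k1 _).1)) hu) (inv_mem (k1 (-τ : Kˣ)))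
  refine PQ.of_conj (k1 (-τ : Kˣ)).2 ?_
  have e2 := congrArg (fun g => m * g * m⁻¹) (x_nD (φ := φ) hr (-τ))
  simp only [← conj_mul, k2, neg_neg] at e2
  generalize m * xD ρ φ (-τ : Kˣ) * m⁻¹ = X at e2 k9
  generalize m * nD ρ * m⁻¹ = n at e2
  rw [show ∀ z, X * (n * (z * l * u)) * X⁻¹ = X * n * z * l * u * X⁻¹ by intro; group, e2]
  generalize m * xD ρ φ _ * m⁻¹ = X' at k9
  generalize hr.tor _ = z at k9 e1
  rw [show ∀ Y b, Y * b * X' * z * l * u * X⁻¹ = Y * (b * z * l) *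
    ((z * l)⁻¹ * X' * (z * l) * u * X⁻¹) by intros; group, ← e1]
  generalize (z * l)⁻¹ * X' * (z * l) * u * X⁻¹ = u' at k9
  have hV : ρ.x 6 d * (ρ.x 3 e * ρ.x 2 f) ∈ ρ.VJ {1} := by
    have : ∀ r ∈ ([6, 3, 2] : List (Fin 24)), ∀ t, ρ.x r t ∈ ρ.VJ {1} := fun r hr t =>
      ρ.x_mem_U (And.intro (by revert r; decide +kernel) (by rw [inSub1]; revert r; decide)) t
    exact mul_mem (this _ (by decide) _) (mul_mem (this _ (by decide) _) (this _ (by decide) _))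
  by_cases c1 : Λ = 1 ∨ Λ.1.trace ≠ 0
  · exact hb _ (im hV hY) _ k9 Λ hΛ c1
  push Not at c1
  by_cases c2 : Λ.1 0 1 = 0
  swap
  · exact key Λ hΛ c2 _ k9 c1.2
  have hT := psi_mem₁ hψ h hφ h3 (Λ := tU 1) (by simp [val_tU])
  refine PQ.of_conj hT.2 ?_
  obtain ⟨e3, e4, e5⟩ := conj_tU (k := kF φ) (Subtype.ext h2) hΛ c1.1 c1.2 c2
  refine (key _ e3 e4 _ (cj hT.2 k9.2 (LJ_conj_mem_UJ hT.1 k9.1)) e5).congr ?_
  rw [map_mul, map_mul, map_inv, ← conj_mul, ← conj_mul, (perp_commute hY' (ρ.comap_U_le _ _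
    (psi_GJ hψ (Λ := tU 1) (by simp [val_tU])))).symm.mul_inv_cancel]

omit hψ h hφ h3 [Fintype K] [Finite G] in
theorem perp_pos (r : Fin 24) (h1 : ¬ cD4.Pos r) (h2 : r ≠ 9) :
    cD4.Pos ((cD4.wp [0, 2, 3, 1, 0, 2, 3, 1, 3, 2, 0])⁻¹ r) := by
  obtain ⟨s, h3, h4⟩ := (by decide +kernel : ∀ r : Fin 24, ¬ cD4.Pos r → r ≠ 9 → ∃ s : Fin 24,
    cD4.Pos s ∧ ([0, 2, 3, 1, 0, 2, 3, 1, 3, 2, 0] : List (Fin 4)).reverse.foldr
      (fun (i : Fin 4) (s : ℕ) => chevD4.reflectRoot i s) r = s) r h1 h2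
  rwa [← cD4.wp_reverse, wpD _ r s h4]

include hq hK hZ in
theorem evenD (h2 : (2 : K) = 0) {x : G} (hb : ∀ v ∈ ρ.VJ {1} ⊓ gD4 ρ q, ∀ u ∈ ρ.UJ {1} ⊓ gD4 ρ q,
      ∀ Λ : GL (Fin 2) (kF φ), Λ.1.det = 1 → Λ = 1 ∨ Λ.1.trace ≠ 0 →
        PQ (gD4 ρ q) x (v * ψ Λ * u)) {w : Equiv.Perm (Fin 24)} (hw : w ∈ T.S.Wf)
    (hw' : w ∉ cD4.WJ {1}) {n p : G} (hn : n ∈ gD4 ρ q) (hn' : ρ.NW n w)
    (hp : p ∈ ρ.PJ {1} ⊓ gD4 ρ q) : PQ (gD4 ρ q) x (n * p) := by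
  have F := formD4 h hφ h3
  have D := dataD4 h.p_eq
  obtain ⟨n1, hn1, hw1⟩ := F.exists_n_s 1
  have hs : T.S.s 1 ∈ cD4.WJ {1} := cD4.WJ_mono ((stab1 h).orb_subset rfl) (lg_mem _)
  wlog h0 : cD4.Pos (w⁻¹ 14) generalizing w n p
  · refine PQ.of_conj (inv_mem hn1) ?_
    convert this (mul_mem (T.S.s_mem_Wf 1) hw) (fun e => hw' ((mul_mem_cancel_left hs).1 e))
      (mul_mem (inv_mem hn1) hn) ((nW_s_inv' hw1).mul hn') (mul_mem hp (im (hw1.mem_PJ hs) hn1))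
      (by rw [_root_.mul_inv_rev, lg_inv, ← sim1]
          exact (Sym.pos_mul_s_iff (inv_mem hw) 1).2 (sim1 ▸ h0)) using 1
    group
  by_cases h1 : w⁻¹ 14 = 14
  · obtain ⟨n0, hn0, hw0⟩ := F.exists_n_s 0
    have hm := hw0.mul hw1
    rw [D.s_eq, D.s_eq, ← cD4.wp_append] at hm
    have k1 := (nW_perp hm).inv.mul hn'
    have k2 := mul_mem (mul_mem (mul_mem hn0 hn1) (nD_mem hφ)) (inv_mem (mul_mem hn0 hn1))
    have h4 : w 14 = 14 := (Equiv.Perm.inv_eq_iff_eq.1 h1).symm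
    obtain ⟨i, hi⟩ := cD4.exists_descent (Sym.Wf_le_W hw) fun e => hw' (e ▸ one_mem _)
    have h5 : i ≠ 1 := by rintro rfl; exact hi (by rw [sim1, h4]; decide +kernel)
    have k3 : (cD4.wp [0, 2, 3, 1, 0, 2, 3, 1, 3, 2, 0])⁻¹ * w = 1 := by
      by_contra e
      obtain ⟨j, hj⟩ := cD4.exists_descent k1.mem_W e
      refine hj ?_
      rw [Equiv.Perm.mul_apply]
      by_cases h6 : j = 1
      · rw [h6, sim1, h4, ← cD4.wp_reverse, wpD _ 14 14 (by decide +kernel)]; decide +kernel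
      refine perp_pos _ (fun e => hi ((Sym.pos_simple_iff hw ((D.mem_orb i j).2 ?_)).1 e)) fun e => ?_
      · exact (by decide : ∀ i j : Fin 4, i ≠ 1 → j ≠ 1 → j ∈ swD4 i) i j h5 h6
      · rw [← nsim1, sim1, ← h4, ← RootSys.neg_aut (Sym.mem_Aut hw)] at e
        exact (by decide +kernel : ∀ j, cD4.simple j ≠ cD4.neg 14) j (w.injective e)
    convert caseC hψ h hφ h3 hq hK hZ h2 hb (mul_mem hn0 hn1) hm
      (mul_mem (im (k1.mem_PJ (k3 ▸ one_mem _)) (mul_mem (inv_mem k2) hn)) hp) using 1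
    group
  obtain ⟨y, hy, v, hv, Λ, hΛ, k1⟩ := stepD hψ h hφ h3 hZ hw hw' hn hn' hp
  obtain ⟨c, hc⟩ := exists_good (k := kF φ) (Subtype.ext h2) hΛ
  have k2 := x14_mem (ρ := ρ) hφ (-c)
  obtain ⟨u, hu, e⟩ := k1 _ (cj' hn k2.2 (by
    obtain ⟨d, hd⟩ := hn'.acts.inv.exists_conj_x 14
    rw [inv_inv] at hd
    rw [hd]
    exact ρ.x_mem_U (And.intro h0 fun e => (inSub1.1 e).elim h1 fun e =>
      absurd (e ▸ h0) (by decide +kernel)) _)) (-c)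
  refine PQ.of_conj k2.2 (PQ.of_conj hy ?_)
  rw [neg_neg] at e
  convert hb v hv u hu _ (by rw [Units.val_mul, det_mul, hΛ]; simp [val_tU]) hc using 1
  rw [← e]; group

omit hψ in
include hq hK in
theorem classD4 [IsSimpleGroup (gD4 ρ q)] (hρ : ρ.IsAdj) (p : ℕ) [Fact p.Prime] [CharP K p] :
    ∃ x ∈ gD4 ρ q, ¬ p ∣ orderOf x ∧ ∀ g ∈ gD4 ρ q, g ≠ 1 → PQ (gD4 ρ q) x g := by
  have F := formD4 h hφ h3
  have D := dataD4 h.p_eq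
  have hr := ρ.r3_of_finite
  obtain ⟨ψ, hψ⟩ := (rk ρ φ).r3_of_finite.exists_isG (a := 0) (b := 1) (by decide +kernel)
  obtain ⟨s, d, h1, h2, h4, h5⟩ : ∃ (s : Kˣ) (d : (kF φ)ˣ), ((nm φ s : Kˣ) : K) = (d : kF φ) ∧
      (s : K) ^ 2 ≠ (d : kF φ) ∧ ((2 : K) = 0 → d = 1) ∧ ((2 : K) ≠ 0 → d = -1 ∧ s * s = 1) := by
    by_cases h2 : (2 : K) = 0
    · have : CharP K 2 := CharTwo.of_one_ne_zero_of_two_eq_zero one_ne_zero h2
      obtain ⟨l, hl⟩ := exists_Q_ne hφ h3 hq hK one_ne_zero 1 0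
      have h0 : l ≠ 0 := by rintro rfl; simp at hl
      have h1 := (_root_.map_ne_zero φ).2 h0
      have h4 := (_root_.map_ne_zero φ).2 h1
      refine ⟨Units.mk0 _ (div_ne_zero h1 h0), 1, ?_, fun e => hl ?_, fun _ => rfl, absurd h2⟩
      · simp [h3]; field_simp
      · have : φ l / l = 1 := by
          simpa [CharTwo.neg_eq] using mul_self_eq_one_iff.1 (show φ l / l * (φ l / l) = 1 by
            simpa [sq] using e)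
        rw [div_eq_one_iff_eq h0] at this
        simp [this]
    · refine ⟨-1, -1, by simp, fun e => h2 ?_, fun e => absurd e h2, fun _ => ⟨rfl, by simp⟩⟩
      simp at e
      linear_combination e
  obtain ⟨A, hA, hd⟩ := exists_ell d
  have h2' : (2 : kF φ) = 0 ↔ (2 : K) = 0 := Subtype.ext_iff
  obtain ⟨k1, k2, k3⟩ := fpfD hr hψ h3 hρ hA (fun e => by
    by_cases h2 : (2 : K) = 0
    · exact hA 1 (by rw [e, hd, h4 h2]; simpa [one_add_one_eq_two] using h2'.2 h2)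
    · exact hA 1 (by simp [e, hd, (h5 h2).1])) (hd ▸ h1) (hd ▸ h2) p
  obtain ⟨m, hm, e1⟩ := realD hr hψ h hφ h3 hq hK hA (hd ▸ h1)
  have hx := psi_mem hr hψ h hφ h3 (Λ := A) (hd ▸ h1)
  have e2 : (ψ A * zD hr φ s)⁻¹ = ψ A⁻¹ * zD hr φ s⁻¹ := by
    rw [← (zD_commute hr s (psi_LJ hψ A)).eq, _root_.mul_inv_rev, map_inv, zD_inv]
  have hb : ∀ v ∈ ρ.VJ {1} ⊓ gD4 ρ q, ∀ u ∈ ρ.UJ {1} ⊓ gD4 ρ q, ∀ Λ, Pr A A⁻¹ Λ →
      PQ (gD4 ρ q) (ψ A * zD hr φ s) (v * ψ Λ * u) := fun v hv u hu Λ hP => by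
    obtain ⟨a, ha, b, hb, e⟩ := pq_of_pr hr hψ h hφ h3 hq hK (mul_inv_cancel s) hP hx
      (e2 ▸ inv_mem hx) k2 (fun y hy hc => k3 y hy (by rw [← e2] at hc; exact inv_inv (ψ A * zD hr φ s) ▸ hc.inv_left)) hv hu
    exact ⟨a, ha, _, mul_mem hb hm, by rw [e, ← e2, e1]; group⟩
  refine ⟨_, hx.2, k1, fun g hg hg1 => ?_⟩
  obtain ⟨y, hy, k4⟩ := exists_conj_not_mem (ρ := ρ) (J := {1}) (nD_mem hφ) (fun e => by
    refine absurd (cD4.mem_of_descent ((nW_nD.mem_PJ_iff T.faith).1 e) (i := 0) ?_) (by simp)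
    rw [show cD4.simple 0 = 18 by decide +kernel, wpD _ 18 5 (by decide +kernel)]
    decide +kernel) hg hg1
  obtain ⟨y', hy', w, hw, hw', n, hn, hn', u, hu, e⟩ := exists_cell_not_mem F
    (mul_mem (mul_mem hy hg) (inv_mem hy)) k4
  refine PQ.of_conj hy (PQ.of_conj hy' (e ▸ ?_))
  have hp := im (ρ.Bo_le_PJ {1} (ρ.Up_le_Bo hu.1)) hu.2
  by_cases h2 : (2 : K) = 0
  · refine evenD hψ h hφ h3 hq hK hρ.center h2 (fun v hv u hu Λ hΛ H => hb v hv u hu Λ ?_)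
      hw hw' hn hn' hp
    refine H.elim (fun e => ⟨1, 1, by simp [e]⟩) fun H =>
      (pr_even (h2'.2 h2) hA (.inl hΛ) H).elim ?_ id
    rintro ⟨P, Q, rfl⟩
    obtain ⟨R, hR⟩ := isConj_iff.1 ((CF.Cls.isConj_units_iff _ A).2 (hA.inv.isConj
      (by rw [trace_inv, hd, h4 h2]; simp) (by rw [det_inv, hd, h4 h2]; simp)))
    exact ⟨P, Q * R, by rw [_root_.mul_inv_rev, mul_assoc Q R, mul_assoc Q (R * _),
      ← mul_assoc (R * _), hR, mul_assoc Q A]⟩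
  obtain ⟨x, hx', v, hv, Λ, hΛ, k5⟩ := stepD hψ h hφ h3 hρ.center hw hw' hn hn' hp
  obtain ⟨u', hu', e'⟩ := k5 1 (one_mem _) 0
  refine PQ.of_conj hx' ?_
  simp only [mul_one, ZeroMemClass.coe_zero, ρ.x_zero, inv_one] at e'
  rw [e']
  refine (pr_odd (mt h2'.1 h2) hA (by simp [hd, (h5 h2).1]) (Λ := Λ * tU (-0))
    (by rw [Units.val_mul, det_mul, hΛ]; simp [val_tU])).elim (fun hP => ?_) (hb v hv u' hu' _)
  exact pq_of_pr hr hψ h hφ h3 hq hK (h5 h2).2 hP hx hx k2 k3 hv hu'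

end CF.BN.TG
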