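import Cfsg.Agent.BN.G2b
import Cfsg.Agent.BN.TwF4
import Cfsg.Agent.Chev.K2

/-!
# Two-generation of `²F₄(q)`
-/

set_option autoImplicit false

namespace CF.BN.TG

open CF.Chev Cfsg.Lie

variable {K : Type*} [Field K] {G : Type*} [Group G] {ρ : StRep cF4 K G} {T : Tw ρ}
  {θ : K →+* K} {e : ℕ}

theorem swF (O : List (Fin 48)) {r s : Fin 48}
    (h : O.idxOf r < O.idxOf s ∧ s ≠ r ∧ s ≠ cF4.neg r ∧ chevF4.commTerms r s = []) (t u : K)
    (g : G) : ρ.x s u * (ρ.x r t * g) = ρ.x r t * id (ρ.x s u * g) :=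
  swap linkF4 ρ.toPreSt O h t u g

theorem swF₁ (r s v : Fin 48) (c : ℤ)
    (h : s ≠ r ∧ s ≠ cF4.neg r ∧ chevF4.commTerms r s = [(v.1, c, 1, 1)]) (t u : K) (g : G) :
    ρ.x s u * (ρ.x r t * g) = ρ.x r t * (ρ.x s u * (ρ.x v (-(c * t * u)) * g)) :=
  swap₁ linkF4 ρ.toPreSt r s v c h t u g

theorem wpF (l : List (Fin 4)) (r s : Fin 48)
    (h : l.foldr (fun (i : Fin 4) (s : ℕ) => chevF4.reflectRoot i s) r = s) : cF4.wp l r = s :=
  wp_apply_eq linkF4 h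

theorem hasF {Y : Subgroup G} (hY : Y ≤ T.Fix) {n : G} (hn : n ∈ Y)
    (hw : ρ.NW n (cF4.wp [1, 2, 1, 2, 0, 3])) (j : ℕ) {S : List (Fin 48)} (hL : Has T Y S)
    (S' : List (Fin 48)) (h : ∀ r ∈ S', ∃ s ∈ S,
      (List.replicate j ([1, 2, 1, 2, 0, 3] : List (Fin 4))).flatten.foldr
        (fun (i : Fin 4) (s : ℕ) => chevF4.reflectRoot i s) s = r) : Has T Y S' :=
  Has.pow linkF4 hY hn hw j h hL

theorem commF (a b c d e f : K) : (ρ.x 34 d * (ρ.x 26 e * ρ.x 36 f)) *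
    (ρ.x 20 a * (ρ.x 22 b * ρ.x 19 c)) = (ρ.x 20 a * (ρ.x 22 b * ρ.x 19 c)) *
      (ρ.x 34 d * (ρ.x 26 e * ρ.x 36 f)) * (ρ.x 33 (-(a * d)) * ρ.x 24 (b * e)) := by
  refine mul_right_cancel (b := 1) ?_
  simp (disch := decide +kernel) only [mul_assoc, id_eq, swF [20, 22, 19, 34, 26, 36, 33, 24],
    swF₁ 20 34 33 1 (by decide +kernel), swF₁ 22 26 24 (-1) (by decide +kernel)]
  simp

/-- A product of root elements of type `B₂`. -/
def bF (ρ : StRep cF4 K G) (α β γ δ : K) : G := ρ.x 27 α * (ρ.x 25 β * (ρ.x 28 γ * ρ.x 30 δ))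

variable [CharP K 2]

theorem bF_mul (α β γ δ α' β' γ' δ' : K) : bF ρ α β γ δ * bF ρ α' β' γ' δ' =
    bF ρ (α + α') (β + β') (γ + γ' + α' * β) (δ + δ' + α' ^ 2 * β) := by
  have h1 : ∀ t u g, ρ.x 25 u * (ρ.x 27 t * g) =
      ρ.x 27 t * (ρ.x 25 u * (ρ.x 28 (t * u) * (ρ.x 30 (t ^ 2 * u) * g))) := fun t u g => by
    rw [← mul_assoc, commB2 f4L₄_pos]; simp only [mul_assoc]
  have h2 : ∀ t u g, ρ.x 28 u * (ρ.x 27 t * g) = ρ.x 27 t * id (ρ.x 28 u * g) := fun t u g => by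
    have : ((2 : ℤ) : K) = 0 := by simp [CharTwo.two_eq_zero]
    rw [swF₁ 27 28 30 2 (by decide +kernel), this]; simp [ρ.x_zero]
  refine mul_right_cancel (b := 1) ?_
  simp (disch := decide +kernel) only [bF, mul_assoc, id_eq, x_x, swF [27, 25, 28, 30], h1, h2]
  ring_nf

omit [CharP K 2] in
theorem bF_conj {g : G} {χ : Char (Fin 4) K} (hχ : ρ.ActsT g χ) (α β γ δ : K) :
    g * bF ρ α β γ δ * g⁻¹ = bF ρ (χ.ev (cF4.vec 27) * α) (χ.ev (cF4.vec 25) * β)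
      (χ.ev (cF4.vec 28) * γ) (χ.ev (cF4.vec 30) * δ) := by
  simp only [bF, ← conj_mul, hχ _]

omit [CharP K 2] in
theorem bF_zero : bF ρ 0 0 0 0 = 1 := by simp [bF, ρ.x_zero]

theorem bF_inv (α β γ δ : K) : (bF ρ α β γ δ)⁻¹ = bF ρ α β (γ + α * β) (δ + α ^ 2 * β) := by
  refine inv_eq_of_mul_eq_one_right ?_
  rw [bF_mul, ← bF_zero (ρ := ρ)]
  congr 1
  · exact CharTwo.add_self_eq_zero _
  · exact CharTwo.add_self_eq_zero _
  · linear_combination CharTwo.add_self_eq_zero (γ + α * β)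
  · linear_combination CharTwo.add_self_eq_zero (δ + α ^ 2 * β)

variable (h : T.IsIs iF4 θ) (h2 : ∀ t, θ (θ t) ^ 2 = t)
include h h2

theorem has_sz [Finite K] {Y : Subgroup G} (hY : Y ≤ T.Fix) {a : G} (ha : a ∈ Y)
    {χ : Char (Fin 4) K} (hχ : ρ.ActsT a χ) {k : Kˣ} (hk : ∀ u, u ∈ Subgroup.zpowers k)
    (h1 : χ.ev (cF4.vec 25) = k) {α β γ δ : K} (hβ : β ≠ 0) (hb : bF ρ α β γ δ ∈ Y) :
    Has T Y [27, 25, 28, 30] := by
  have hf : ∀ {α β γ δ}, bF ρ α β γ δ ∈ Y → α = θ β ∧ γ = θ β * β + θ δ := fun hb =>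
    (fixF4₄ h h2 f4L₄_pos).1 (hY hb)
  have h3 : ∀ j : ℕ, ∃ α γ δ, bF ρ α (k ^ j * β) γ δ ∈ Y := fun j => by
    induction j with
    | zero => exact ⟨α, γ, δ, by simpa⟩
    | succ j ih =>
      obtain ⟨α, γ, δ, ih⟩ := ih
      have := mul_mem (mul_mem ha ih) (inv_mem ha)
      rw [bF_conj hχ, h1, ← mul_assoc, ← pow_succ'] at this
      exact ⟨_, _, _, this⟩
  have h4 : ∀ b : K, b ≠ 0 → ∃ γ δ, bF ρ (θ b) b γ δ ∈ Y := fun b hb => by
    obtain ⟨j, hj⟩ := (mem_powers_iff_mem_zpowers.2 (hk (Units.mk0 (b / β) (div_ne_zero hb hβ))) :)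
    obtain ⟨α, γ, δ, h5⟩ := h3 j
    rw [show (k : K) ^ j = b / β by simpa using congrArg Units.val hj, div_mul_cancel₀ _ hβ] at h5
    exact ⟨γ, δ, (hf h5).1 ▸ h5⟩
  have h5 : ∀ d, bF ρ 0 0 (θ d) d ∈ Y := fun d => by
    obtain rfl | hd := eq_or_ne d 0
    · rw [map_zero, bF_zero]; exact one_mem _
    have h0 : θ d ≠ 0 := (_root_.map_ne_zero θ).2 hd
    obtain ⟨γ, δ, h6⟩ := h4 (θ d ^ 2 / d) (div_ne_zero (pow_ne_zero _ h0) hd)
    have h7 := mul_mem h6 h6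
    rw [bF_mul] at h7
    simp only [CharTwo.add_self_eq_zero, zero_add] at h7
    have e1 : θ (θ d ^ 2 / d) ^ 2 * (θ d ^ 2 / d) = d := by
      rw [map_div₀, map_pow, h2]; field_simp
    rw [e1] at h7
    have := (hf h7).2
    rwa [this, mul_zero, zero_add] at h7
  intro g hg
  obtain ⟨⟨t, u⟩, rfl⟩ := (memF4₄ h h2).1 hg
  change bF ρ _ _ _ _ ∈ Y
  obtain rfl | ht := eq_or_ne t 0
  · have := h5 (θ u ^ 2)
    rw [map_pow, h2] at this
    simpa using this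
  obtain ⟨γ, δ, h6⟩ := h4 t ht
  have := mul_mem h6 (h5 (δ + θ u ^ 2))
  rw [bF_mul, (hf h6).2] at this
  convert this using 2
  · simp
  · simp
  · rw [map_add, map_pow, h2]; linear_combination -CharTwo.add_self_eq_zero (θ δ)
  · linear_combination -CharTwo.add_self_eq_zero δ

variable (hθ : ∀ t, θ t = t ^ e)
include hθ

theorem two_genF4 [Finite K] {k : Kˣ} (hk : ∀ u, u ∈ Subgroup.zpowers k) (hk1 : k ≠ 1) :
    ∃ a b : gF4 ρ e, Subgroup.closure ({a, b} : Set (gF4 ρ e)) = ⊤ := by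
  have F := formF4 h h2 hθ
  have D := dataF4 (pF4_eq h)
  have hr := ρ.r3_of_finite
  let ψ := Units.map (θ : K →* K)
  have hh := tor_memF4 h h2 hθ hr ((mem_TF_F4 h h2).2 ⟨(1, k⁻¹), rfl⟩)
  have hχ := hr.actsT_tor ![ψ k⁻¹, ψ 1, 1, k⁻¹]
  have hH : hr.tor ![ψ k⁻¹, ψ 1, 1, k⁻¹] ∈ ρ.H := hr.range_tor.le ⟨_, rfl⟩
  change hr.tor ![ψ k⁻¹, ψ 1, 1, k⁻¹] ∈ _ at hh
  generalize hr.tor _ = a at hh hχ hH
  obtain ⟨n1, hn1, hw1⟩ := F.exists_n_s 1
  obtain ⟨n0, hn0, hw0⟩ := F.exists_n_s 0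
  have hw := hw1.mul hw0
  rw [D.s_eq, D.s_eq, ← cF4.wp_append] at hw
  rw [D.s_eq] at hw0
  have hn := mul_mem hn1 hn0
  generalize n1 * n0 = n at hn hw
  have hx : bF ρ 1 1 1 0 ∈ gF4 ρ e := by simpa [bF] using mem_gF4₄ (ρ := ρ) f4L₄_pos hθ 1 0
  refine two_gen_of hh (mul_mem hx hn) (gF4_le_Gen h h2 hθ) ?_
  have hY : Subgroup.closure {a, bF ρ 1 1 1 0 * n} ≤ T.Fix := ((Subgroup.closure_le _).2 (by
    rintro _ (rfl | rfl); exacts [hh, mul_mem hx hn])).trans F.fix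
  have ha : a ∈ Subgroup.closure {a, bF ρ 1 1 1 0 * n} := Subgroup.subset_closure (by simp)
  have hb : bF ρ 1 1 1 0 * n ∈ Subgroup.closure {a, bF ρ 1 1 1 0 * n} :=
    Subgroup.subset_closure (by simp)
  generalize Subgroup.closure {a, bF ρ 1 1 1 0 * n} = Y at hY ha hb
  obtain ⟨χ', h1, h3⟩ := exists_actsT_conj T.faith hw.acts hH hχ
  have e1 : ∀ i, cF4.sp i (cF4.vec 25) = ![0, -2, 2, -1] i ∧
      cF4.sp i (cF4.vec 21) = ![0, 2, -1, -1] i := by decide +kernel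
  have e2 : (cF4.torChar ![ψ k⁻¹, ψ 1, 1, k⁻¹]).ev (cF4.vec 25) = k := by
    rw [cF4.torChar_ev]; simp [e1, Fin.prod_univ_four]
  have e3 : χ'.ev (cF4.vec 25) = k := by
    have := h3 21
    rw [wpF (swF4 1 ++ swF4 0) 21 25 (by decide +kernel)] at this
    rw [this, cF4.torChar_ev]; simp [e1, Fin.prod_univ_four]
  have hS : Has T Y [27, 25, 28, 30] := by
    have h4 := stein_aux (x := bF ρ 1 1 1 0) (hr.commute_H hH (hw.acts.conj_mem_H hH)) ha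
      (by convert mul_mem (mul_mem hb ha) (inv_mem hb) using 1; group)
    rw [bF_conj hχ, bF_inv, bF_inv, bF_mul, bF_conj h1, bF_mul, bF_mul, e2, e3] at h4
    refine has_sz h h2 hY ha hχ hk e2 (fun e => hk1 (Units.ext ?_)) h4
    have : ((k : K) - 1) ^ 2 = 0 := by
      linear_combination e - 2 * CharTwo.add_self_eq_zero (k : K)
    simpa [sub_eq_zero] using this
  replace hn : n ∈ Y := (mul_mem_cancel_left (hS (im (mul_mem (ρ.x_mem_U (by decide) _)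
    (mul_mem (ρ.x_mem_U (by decide) _) (mul_mem (ρ.x_mem_U (by decide) _)
      (ρ.x_mem_U (by decide) _)))) (F.fix hx)))).1 hb
  have hS' := hasF hY hn hw 4 hS [20, 22, 19, 17] (by decide +kernel)
  have hS'' := hasF hY hn hw 3 hS [34, 26, 36, 42] (by decide +kernel)
  have hL : Has T Y [33, 24] := by
    obtain ⟨c, hc⟩ := hw0.acts.exists_conj_x 27
    obtain ⟨d, hd⟩ := hw0.acts.exists_conj_x 25
    obtain ⟨f, hf⟩ := hw0.acts.exists_conj_x 28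
    rw [wpF (swF4 0) 27 34 (by decide +kernel)] at hc
    rw [wpF (swF4 0) 25 26 (by decide +kernel)] at hd
    rw [wpF (swF4 0) 28 36 (by decide +kernel)] at hf
    have hb : ρ.x 34 c * (ρ.x 26 d * ρ.x 36 f) ∈ Y := hS'' (im (mul_mem (ρ.x_mem_U (by decide) _)
      (mul_mem (ρ.x_mem_U (by decide) _) (ρ.x_mem_U (by decide) _))) (by
        have := F.fix (mul_mem (mul_mem hn0 hx) (inv_mem hn0))
        simpa only [bF, ρ.x_zero, ← conj_mul, hc, hd, hf, mul_one] using this))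
    intro g hg
    obtain ⟨t, rfl⟩ := (memF4₂ h h2).1 hg
    have ha : ρ.x 20 (θ (t / d)) * (ρ.x 22 (t / d) * ρ.x 19 (θ (t / d) * (t / d))) ∈ Y :=
      hS' (im (mul_mem (ρ.x_mem_U (by decide) _) (mul_mem (ρ.x_mem_U (by decide) _)
        (ρ.x_mem_U (by decide) _))) (by
          simpa [ρ.x_zero] using F.fix (mem_gF4₄ (ρ := ρ) f4L₄_neg hθ (t / d) 0)))
    have := mul_mem hb ha
    rw [commF, mul_mem_cancel_left (mul_mem ha hb), div_mul_cancel₀ _ d.ne_zero] at this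
    rwa [(fixF4₂ h h2 f4L₂_pos).1 (hY this)] at this
  refine form_of_has D F hY (fun i => ?_) fun i => ?_ <;> rcases rlF4_cases i with e | e <;> rw [e]
  exacts [hL, hS, hasF hY hn hw 4 hL _ (by decide +kernel), hasF hY hn hw 4 hS _ (by decide +kernel)]

omit h h2 hθ [CharP K 2]

theorem two_gen_F4 [Fintype K] {m : ℕ} (hm : 1 ≤ m) (hK : Fintype.card K = 2 ^ (2 * m + 1)) :
    ∃ a b : twistedF4 K (2 ^ m), Subgroup.closure ({a, b} : Set (twistedF4 K (2 ^ m))) = ⊤ := by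
  obtain ⟨_, θ, hθ, h2⟩ := exists_theta Nat.prime_two hK
  obtain ⟨k, hk⟩ := IsCyclic.exists_generator (α := Kˣ)
  obtain ⟨u, hu⟩ := exists_ne_one_F4 hK hm
  refine two_gen_equiv (packF4 hθ h2).e (two_genF4 (isIs_twF4 θ) h2 hθ hk fun e => hu ?_)
  simpa [e] using hk u

end CF.BN.TG
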