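import Cfsg.Agent.BN.SzTable

/-!
# Squares of conjugacy classes in the Suzuki groups
-/

set_option autoImplicit false
set_option linter.unusedSectionVars false

namespace CF.BN.Suz

open MulAction Subgroup Cfsg CF.Char ComplexConjugate

/-- The term attached to a character in the estimate of a structure constant. -/
noncomputable def phi {G : Type*} [Group G] (x g : G) (c : ℝ) (e : ℂ) (χ : G → ℂ) : ℝ :=
  (χ x * χ x * conj (χ g) / χ 1 + e * (χ x * conj (χ g))).re + c * ‖χ x‖ ^ 2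

theorem phi_of_real {G : Type*} [Group G] {x g : G} {χ : G → ℂ} (c : ℝ) {n : ℝ} (h1 : χ 1 = n)
    (hx : (χ x).im = 0) : phi x g c 0 χ = (χ x).re ^ 2 * ((χ g).re / n + c) := by
  obtain ⟨a, ha⟩ : ∃ a : ℝ, χ x = a := ⟨(χ x).re, Complex.ext (by simp) (by simpa)⟩
  simp only [phi, h1, ha, zero_mul, add_zero, Complex.div_ofReal_re, Complex.mul_re,
    Complex.ofReal_re, Complex.ofReal_im, Complex.conj_re, Complex.mul_im, Complex.norm_real,
    Real.norm_eq_abs, sq_abs]
  ring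

theorem phi_nonneg {G : Type*} [Group G] {x g : G} {χ : G → ℂ} {c n : ℝ} (h1 : χ 1 = n) (hn : 0 < n)
    (hx : (χ x).im = 0) (h : -(c * n) ≤ (χ g).re) : 0 ≤ phi x g c 0 χ := by
  rw [phi_of_real c h1 hx]
  refine mul_nonneg (sq_nonneg _) ?_
  rw [div_add' _ _ _ hn.ne']
  exact div_nonneg (by linarith) hn.le

theorem phi_eq_zero {G : Type*} [Group G] {x g : G} {χ : G → ℂ} {c : ℝ} {e : ℂ} (h : χ x = 0) :
    phi x g c e χ = 0 := by simp [phi, h]

variable {F : Type*} [Field F]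

namespace SzData

variable {T : Tits F} {G : Type*} [Group G] {D : SzData T G} [Finite F] [Fintype G]

namespace Table

variable {r : ℕ} (P : D.Table r)

theorem exists_mul_of_phi {x g : G} (c : ℝ) (e : ℂ) (he : e = 0 ∨ ¬ IsConj x g)
    (hX : ∀ lam, lam ≠ 1 → 0 ≤ phi x g c e (X (D := D) lam))
    (hY : ∀ lam, lam ≠ 1 → 0 ≤ phi x g c e (P.Y lam))
    (hZ : ∀ lam, lam ≠ 1 → 0 ≤ phi x g c e (P.Z lam))
    (h : c * Nat.card (centralizer ({x} : Set G)) <
      phi x g c e (fun _ => 1) + phi x g c e D.St + phi x g c e P.W + phi x g c e P.W') :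
    ∃ u v : G, g = (u * x * u⁻¹) * (v * x * v⁻¹) := by
  classical
  by_contra h0
  have h1 := card_class_mul_eq x x g
  have : IsEmpty {p : G × G // IsConj x p.1 ∧ IsConj x p.2 ∧ p.1 * p.2 = g} := ⟨fun ⟨p, a, b, c⟩ => by
    obtain ⟨u, hu⟩ := isConj_iff.1 a
    obtain ⟨v, hv⟩ := isConj_iff.1 b
    exact h0 ⟨u, v, by rw [hu, hv, c]⟩⟩
  have h2 : (Nat.card {y : G // IsConj x y} : ℂ) ≠ 0 := by
    have : Nonempty {y : G // IsConj x y} := ⟨⟨x, IsConj.refl x⟩⟩
    exact_mod_cast Nat.card_pos.ne'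
  rw [Nat.card_of_isEmpty, Nat.cast_zero, eq_comm, mul_eq_zero] at h1
  replace h1 := h1.resolve_left (div_ne_zero (mul_ne_zero h2 h2) card_ne_zero_complex)
  have h3 : ∑ χ : IrrCharacter G, phi x g c e χ = c * Nat.card (centralizer ({x} : Set G)) := by
    simp only [phi]
    rw [Finset.sum_add_distrib, ← Complex.re_sum, Finset.sum_add_distrib, h1, ← Finset.mul_sum,
      ← Finset.mul_sum, sum_irr_norm_sq]
    rcases he with rfl | he
    · simp
    · simp [sum_irr_mul_conj_of_not_isConj he]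
  have o4 := D.orderOf_u one_ne_zero (0 : F)
  have s4 := D.St_two (pow_four_of_orderOf o4) (ne_one_of_four o4)
  obtain ⟨w1, w2⟩ := P.W_four _ o4
  have hd : (P.d : ℂ) ≠ 0 := by have := P.two_le; exact_mod_cast (by omega : P.d ≠ 0)
  have w0 : P.W (D.u 1 0) ≠ 0 := fun h => hd (by rw [h] at w1; simpa using w1)
  have w3 : P.W (D.u 1 0) ≠ 1 := fun h => by rw [h] at w2; norm_num at w2
  have w4 : P.W (D.u 1 0) ≠ -1 := fun h => by rw [h] at w2; norm_num at w2
  have w5 : P.W' (D.u 1 0) = -P.W (D.u 1 0) := w2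
  have key : ∀ {χ ψ : IrrCharacter G}, (χ : G → ℂ) (D.u 1 0) ≠ (ψ : G → ℂ) (D.u 1 0) → χ ≠ ψ :=
    fun h h' => h (h' ▸ rfl)
  have h4 := Finset.sum_le_sum_of_subset_of_nonneg (f := fun χ : IrrCharacter G => phi x g c e χ)
    (Finset.subset_univ ({oneIrr G, ⟨_, D.irr_St⟩, ⟨_, P.irr_W⟩, ⟨_, P.irr_W'⟩} : Finset _)) (by
      rintro ⟨χ, hχ⟩ - hn
      rcases P.irr_cases hχ with rfl | rfl | rfl | rfl | ⟨_, h, rfl⟩ | ⟨_, h, rfl⟩ | ⟨_, h, rfl⟩
      · exact absurd (Finset.mem_insert_self _ _) hn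
      · simp at hn
      · simp at hn
      · simp at hn
      exacts [hX _ h, hY _ h, hZ _ h])
  rw [h3, Finset.sum_insert, Finset.sum_insert, Finset.sum_pair] at h4
  · exact absurd h (not_lt.2 (by simpa only [add_assoc, coe_oneIrr] using h4))
  · exact key (by simp only [w5]; exact fun h => w0 (by linear_combination h / 2))
  · simp only [Finset.mem_insert, Finset.mem_singleton, not_or]
    exact ⟨key (by simp only [s4]; exact w0.symm), key (by simpa [s4, w5] using w0)⟩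
  · simp only [Finset.mem_insert, Finset.mem_singleton, not_or]
    exact ⟨key (by simp [s4]), key (by simpa using w3.symm),
      key (by simp only [w5, oneIrr_apply]; exact fun h => w4 (by linear_combination h))⟩

include P in
theorem im_eq_zero {χ : G → ℂ} (hχ : IsIrrCharacter G χ) {x : G} (hx : orderOf x ≠ 4) :
    (χ x).im = 0 := by
  refine gen_im_eq_zero_of_isConj_inv (gen_of_irr hχ) ?_
  have key : ∀ A : Subgroup G, (∃ t, ∀ c ∈ A, t * c * t⁻¹ = c⁻¹) → x ∈ conjSet A → IsConj x x⁻¹ := by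
    rintro A ⟨t, ht⟩ ⟨-, g, hg⟩
    refine isConj_iff.2 ⟨g * t * g⁻¹, ?_⟩
    have := congrArg (fun y => g * y * g⁻¹) (ht _ hg)
    simpa [mul_assoc] using this
  rcases P.cases x with rfl | h | h | h | h | h
  · simp
  · rw [inv_eq_of_mul_eq_one_right h.1]
  · exact absurd h hx
  · exact key _ ⟨D.w, by rintro _ ⟨t, rfl⟩; exact D.w_conj_h t⟩ h
  · exact key _ (P.ha.exists_inverting P.hr P.h8) h
  · exact key _ (P.hb.exists_inverting P.hr P.h8) h

include P in
theorem X_ge (lam : D.H →* ℂˣ) {g : G} (h1 : g ≠ 1) : -2 ≤ (X lam g).re := by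
  rcases P.cases g with h | h | h | h | h | h
  · exact absurd h h1
  · rw [P.X_two lam (pow_four_of_sq h.1) h1]; norm_num
  · rw [P.X_two lam (pow_four_of_orderOf h) h1]; norm_num
  · rw [P.X_H lam h]
    exact (neg_le_of_abs_le ((Complex.abs_re_le_norm _).trans
      ((D.tor_H P.h8).norm_indFun_le lam h1))).trans_eq' (by norm_num)
  · rw [P.X_A lam h]; norm_num
  · rw [P.X_B lam h]; norm_num

theorem Y_ge (lam : P.A →* ℂˣ) {g : G} (h1 : g ≠ 1) (hg : g ∉ conjSet P.A) :
    -1 ≤ (P.Y lam g).re := by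
  rcases P.cases g with h | h | h | h | h | h
  · exact absurd h h1
  · rw [P.Y_two lam h.1 h1]; simp
  · rw [P.Y_four lam h]; norm_num
  · rw [P.Y_H lam h]; norm_num
  · exact absurd h hg
  · rw [P.Y_B lam h]; norm_num

theorem Y_ge' (lam : P.A →* ℂˣ) {g : G} (hg : g ∈ conjSet P.A) : -4 ≤ (P.Y lam g).re := by
  rw [P.Y_A lam hg, Complex.neg_re, neg_le_neg_iff]
  exact (Complex.re_le_norm _).trans (((P.ha.tor P.hr P.h8).norm_indFun_le lam hg.1).trans_eq
    (by norm_num))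

theorem Z_ge (lam : P.B →* ℂˣ) {g : G} (h1 : g ≠ 1) : -(r + 1 : ℝ) ≤ (P.Z lam g).re := by
  have : (4 : ℝ) ≤ r := by exact_mod_cast P.four_le
  rcases P.cases g with h | h | h | h | h | h
  · exact absurd h h1
  · rw [P.Z_two lam h.1 h1]; simp; linarith
  · rw [P.Z_four lam h]; simp
  · rw [P.Z_H lam h]; simp; linarith
  · rw [P.Z_A lam h]; simp; linarith
  · rw [P.Z_B lam h, Complex.neg_re, neg_le_neg_iff]
    exact (Complex.re_le_norm _).trans (((P.hb.tor P.hr P.h8).norm_indFun_le lam h1).trans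
      (by push_cast; linarith))

theorem St_ge (g : G) : -1 ≤ (D.St g).re := by
  simp [St]

theorem W_ge {g : G} (h1 : g ≠ 1) :
    -(P.d : ℝ) ≤ (P.W g).re ∧ (g ∉ conjSet P.A → (P.W g).re ≤ 0) := by
  have : (2 : ℝ) ≤ P.d := by exact_mod_cast P.two_le
  rcases P.cases g with h | h | h | h | h | h
  · exact absurd h h1
  · rw [P.W_two g h.1 h1]; simp
  · have := congrArg Complex.re (P.W_four g h).2
    simp only [Complex.conj_re, Complex.neg_re] at this
    exact ⟨by linarith, fun _ => by linarith⟩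
  · rw [P.W_H g h]; simp
  · rw [P.W_A g h]; exact ⟨by simp; linarith, fun h' => absurd h h'⟩
  · rw [P.W_B g h]; exact ⟨by simp only [Complex.neg_re, Complex.one_re]; linarith, by simp⟩

include P in
theorem exists_mul {x g : G} (hx : 2 < orderOf x) (h1 : g ≠ 1) :
    ∃ u v : G, g = (u * x * u⁻¹) * (v * x * v⁻¹) := by
  obtain ⟨t, ht⟩ : ∃ t : ℝ, 0 ≤ t ∧ (P.d : ℝ) = t + 2 :=
    ⟨P.d - 2, by have : (2 : ℝ) ≤ P.d := by exact_mod_cast P.two_le
                 linarith, by ring⟩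
  obtain ⟨ht, hd⟩ := ht
  have hq : (Nat.card F : ℝ) = 2 * (t + 2) ^ 2 := by rw [← hd]; exact_mod_cast P.q_eq
  have hr : (r : ℝ) = 2 * (t + 2) := by rw [← hd]; exact_mod_cast P.hrd
  have hq' : (Nat.card F : ℂ) = 2 * (t + 2) ^ 2 := by exact_mod_cast hq
  have hr' : (r : ℂ) = 2 * (t + 2) := by exact_mod_cast hr
  have hd' : (P.d : ℂ) = t + 2 := by exact_mod_cast hd
  have n1 : D.St 1 = ((2 * t ^ 2 + 8 * t + 8) ^ 2 : ℝ) := by rw [St_one, hq']; push_cast; ring
  have n2 : P.W 1 = ((2 * t ^ 2 + 8 * t + 7) * (t + 2) : ℝ) := by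
    rw [P.W_one, hq', hd']; push_cast; ring
  have n3 : P.W' 1 = ((2 * t ^ 2 + 8 * t + 7) * (t + 2) : ℝ) := by
    rw [P.W'_one, hq', hd']; push_cast; ring
  have n4 : ∀ lam, X (D := D) lam 1 = ((2 * t ^ 2 + 8 * t + 8) ^ 2 + 1 : ℝ) := fun lam => by
    rw [X_one, hq']; push_cast; ring
  have n5 : ∀ lam, P.Y lam 1 = ((2 * t ^ 2 + 8 * t + 7) * (2 * t ^ 2 + 6 * t + 5) : ℝ) :=
    fun lam => by rw [P.Y_one, hq', hr']; push_cast; ring
  have n6 : ∀ lam, P.Z lam 1 = ((2 * t ^ 2 + 8 * t + 7) * (2 * t ^ 2 + 10 * t + 13) : ℝ) :=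
    fun lam => by rw [P.Z_one, hq', hr']; push_cast; ring
  have n0 : ∀ c, phi x g c 0 (fun _ => 1) = 1 + c := fun c => by simp [phi]
  have s1 := St_ge (D := D) g
  obtain ⟨w1, w2⟩ := P.W_ge h1
  rw [hd] at w1
  have w3 : (P.W' g).re = (P.W g).re := Complex.conj_re _
  have p1 : 0 < 2 * t ^ 2 + 8 * t + 7 := by positivity
  have s2 : -(1 / 64) ≤ (D.St g).re / (2 * t ^ 2 + 8 * t + 8) ^ 2 := by
    rw [le_div_iff₀ (by positivity)]; nlinarith [sq_nonneg t, sq_nonneg (t ^ 2), pow_nonneg ht 3]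
  have w4 : -(1 / (2 * t ^ 2 + 8 * t + 7)) ≤ (P.W g).re / ((2 * t ^ 2 + 8 * t + 7) * (t + 2)) := by
    rw [le_div_iff₀ (by positivity)]; field_simp; linarith
  have od : Odd (orderOf x) → orderOf x ≠ 4 := fun ⟨k, hk⟩ => by omega
  rcases P.cases x with rfl | h | h | h | h | h
  · simp at hx
  · have := orderOf_le_of_pow_eq_one two_pos ((sq x).trans h.1); omega
  · have h4 := pow_four_of_orderOf h
    have hx1 := ne_one_of_four h
    obtain ⟨a1, a2⟩ := P.W_four x h
    have a3 : P.W' x = -P.W x := a2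
    have a4 : P.W x * P.W x = (-(t + 2) ^ 2 : ℝ) := by rw [← sq, a1, hd']; simp
    have a5 : ‖P.W x‖ ^ 2 = (t + 2) ^ 2 := by
      rw [← norm_pow, sq, a4, Complex.norm_real, norm_neg, Real.norm_of_nonneg (by positivity)]
    by_cases hg : g ∈ conjSet P.A
    · refine P.exists_mul_of_phi 0
        ((1 / ((2 * t ^ 2 + 8 * t + 7) * (2 * t ^ 2 + 6 * t + 5)) : ℝ) : ℂ)
        (Or.inr fun h' => P.not_A h4 ?_) (fun lam _ => by simp [phi, P.X_A lam hg])
        (fun lam _ => ?_) (fun lam _ => by simp [phi, P.Z_A lam hg]) ?_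
      · obtain ⟨c, rfl⟩ := isConj_iff.1 h'
        exact (mem_conjSet_conj c).1 hg
      · simp only [phi, P.Y_four lam h, n5]
        rw [Complex.ofReal_div]
        simp [div_eq_mul_inv, mul_comm]
      · have a6 := congrArg Complex.re a2
        have a7 : P.W' g = 1 := by rw [W', P.W_A g hg, map_one]
        simp only [Complex.conj_re, Complex.neg_re] at a6
        simp only [phi, D.St_two h4 hx1, a3, a7, P.W_A g hg, neg_mul_neg, a4, n2, n3, map_one,
          mul_one, Complex.add_re, Complex.div_ofReal_re, Complex.re_ofReal_mul, Complex.ofReal_re,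
          Complex.neg_re, zero_mul, zero_div, mul_zero, div_one, Complex.one_re, Complex.zero_re,
          add_zero]
        have : (t + 2) ^ 2 / ((2 * t ^ 2 + 8 * t + 7) * (t + 2)) < 1 / 2 := by
          rw [div_lt_iff₀ (by positivity)]; nlinarith [sq_nonneg t, pow_nonneg ht 3]
        have : 0 < 1 / ((2 * t ^ 2 + 8 * t + 7) * (2 * t ^ 2 + 6 * t + 5)) := by positivity
        rw [neg_div]
        linarith
    · refine P.exists_mul_of_phi (1 / (2 * (2 * t ^ 2 + 8 * t + 7))) 0 (Or.inl rfl)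
        (fun lam _ => phi_nonneg (n4 lam) (by positivity) (by simp [P.X_two lam h4 hx1])
          (le_trans ?_ (P.X_ge lam h1)))
        (fun lam _ => phi_nonneg (n5 lam) (by positivity) (by simp [P.Y_four lam h])
          (le_trans ?_ (P.Y_ge lam h1 hg)))
        (fun lam _ => phi_nonneg (n6 lam) (by positivity) (by simp [P.Z_four lam h])
          (le_trans ?_ (P.Z_ge lam h1))) ?_
      · rw [neg_le_neg_iff]; field_simp; nlinarith [sq_nonneg t, sq_nonneg (t ^ 2), pow_nonneg ht 3]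
      · rw [neg_le_neg_iff]; field_simp; nlinarith [sq_nonneg t]
      · rw [neg_le_neg_iff, hr]; field_simp; nlinarith [sq_nonneg t]
      · rw [n0, phi_eq_zero (D.St_two h4 hx1), D.card_centralizer_of_orderOf_four h]
        simp only [phi, a3, neg_mul_neg, a4, n2, n3, zero_mul, add_zero, Complex.div_ofReal_re,
          Complex.re_ofReal_mul, Complex.conj_re, w3, norm_neg, a5, Nat.cast_mul, hq]
        have : 0 ≤ -(t + 2) ^ 2 * (P.W g).re / ((2 * t ^ 2 + 8 * t + 7) * (t + 2)) :=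
          div_nonneg (mul_nonneg_of_nonpos_of_nonpos (neg_nonpos.2 (by positivity)) (w2 hg))
            (by positivity)
        have : 1 / (2 * (2 * t ^ 2 + 8 * t + 7)) * (2 * (t + 2) ^ 2 - 1) = 1 / 2 := by
          field_simp; ring
        push_cast
        linarith
  · have h4 := od (D.odd_of_mem_conjSet_H h)
    refine P.exists_mul_of_phi (2 / ((2 * t ^ 2 + 8 * t + 8) ^ 2 + 1)) 0 (Or.inl rfl)
      (fun lam hl => phi_nonneg (n4 lam) (by positivity) (P.im_eq_zero (P.irr_X lam hl) h4)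
        (le_trans (le_of_eq ?_) (P.X_ge lam h1)))
      (fun lam _ => (phi_eq_zero (P.Y_H lam h)).ge) (fun lam _ => (phi_eq_zero (P.Z_H lam h)).ge) ?_
    · field_simp
    · rw [n0, phi_eq_zero (P.W_H x h), phi_eq_zero (χ := P.W') (by simp [W', P.W_H x h]),
        phi_of_real _ n1 (P.im_eq_zero D.irr_St h4), D.St_H h,
        D.card_centralizer_of_mem_conjSet_H h, Nat.cast_pred Nat.card_pos, hq]
      have : 2 / ((2 * t ^ 2 + 8 * t + 8) ^ 2 + 1) * (2 * (t + 2) ^ 2 - 3) < 1 / 2 := by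
        rw [div_mul_eq_mul_div, div_lt_iff₀ (by positivity)]
        nlinarith [sq_nonneg t, sq_nonneg (t ^ 2), pow_nonneg ht 3]
      simp only [Complex.one_re]
      linarith
  · have h4 := od (Reg.odd (P.ha.conjSet_subset h))
    have key : ∀ c : ℝ, -(c * ((2 * t ^ 2 + 8 * t + 7) * (2 * t ^ 2 + 6 * t + 5))) ≤ -1 →
        (g ∈ conjSet P.A → -(c * ((2 * t ^ 2 + 8 * t + 7) * (2 * t ^ 2 + 6 * t + 5))) ≤ -4) →
        c * (2 * t ^ 2 + 10 * t + 9) <
          63 / 64 + 2 * ((P.W g).re / ((2 * t ^ 2 + 8 * t + 7) * (t + 2))) →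
        ∃ u v : G, g = (u * x * u⁻¹) * (v * x * v⁻¹) := fun c c1 c2 c3 => by
      refine P.exists_mul_of_phi c 0 (Or.inl rfl) (fun lam _ => (phi_eq_zero (P.X_A lam h)).ge)
        (fun lam hl => phi_nonneg (n5 lam) (by positivity) (P.im_eq_zero (P.irr_Y lam hl) h4) ?_)
        (fun lam _ => (phi_eq_zero (P.Z_A lam h)).ge) ?_
      · by_cases hg : g ∈ conjSet P.A
        · exact (c2 hg).trans (P.Y_ge' lam hg)
        · exact c1.trans (P.Y_ge lam h1 hg)
      · rw [n0, phi_of_real _ n1 (P.im_eq_zero D.irr_St h4),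
          phi_of_real _ n2 (P.im_eq_zero P.irr_W h4), phi_of_real _ n3 (P.im_eq_zero P.irr_W' h4),
          P.St_A h, w3, W', P.W_A x h, P.card_A h]
        push_cast
        simp only [hq, hr, Complex.one_re, Complex.neg_re, map_one]
        linarith
    by_cases hg : g ∈ conjSet P.A
    · have e : -(4 / ((2 * t ^ 2 + 8 * t + 7) * (2 * t ^ 2 + 6 * t + 5)) *
          ((2 * t ^ 2 + 8 * t + 7) * (2 * t ^ 2 + 6 * t + 5))) = -4 := by field_simp
      refine key (4 / ((2 * t ^ 2 + 8 * t + 7) * (2 * t ^ 2 + 6 * t + 5))) (by linarith)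
        (fun _ => e.le) ?_
      rw [P.W_A g hg, Complex.one_re, ← sub_pos]
      field_simp
      ring_nf
      positivity
    · refine key (1 / ((2 * t ^ 2 + 8 * t + 7) * (2 * t ^ 2 + 6 * t + 5)))
        (le_of_eq (by field_simp)) (fun h => absurd h hg) (lt_of_lt_of_le
          (b := 63 / 64 + 2 * -(1 / (2 * t ^ 2 + 8 * t + 7))) ?_ (by linarith))
      rw [← sub_pos]
      field_simp
      ring_nf
      positivity
  · have h4 := od (Reg.odd (P.hb.conjSet_subset h))
    refine P.exists_mul_of_phi ((2 * t + 5) / ((2 * t ^ 2 + 8 * t + 7) * (2 * t ^ 2 + 10 * t + 13)))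
      0 (Or.inl rfl) (fun lam _ => (phi_eq_zero (P.X_B lam h)).ge)
      (fun lam _ => (phi_eq_zero (P.Y_B lam h)).ge)
      (fun lam hl => phi_nonneg (n6 lam) (by positivity) (P.im_eq_zero (P.irr_Z lam hl) h4)
        (le_trans (le_of_eq ?_) (P.Z_ge lam h1))) ?_
    · rw [hr]; field_simp; ring
    · rw [n0, phi_of_real _ n1 (P.im_eq_zero D.irr_St h4),
        phi_of_real _ n2 (P.im_eq_zero P.irr_W h4), phi_of_real _ n3 (P.im_eq_zero P.irr_W' h4),
        P.St_B h, w3, W', P.W_B x h, P.card_B h, Nat.cast_add,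
        Nat.cast_sub (by have := P.r_le; omega)]
      have : 0 < 63 / 64 - 2 * (1 / (2 * t ^ 2 + 8 * t + 7)) - (2 * t + 5) /
          ((2 * t ^ 2 + 8 * t + 7) * (2 * t ^ 2 + 10 * t + 13)) * (2 * t ^ 2 + 6 * t + 1) := by
        field_simp
        ring_nf
        positivity
      simp only [hq, hr, Complex.one_re, Complex.neg_re, map_one, map_neg, Nat.cast_one]
      linarith

end Table

end SzData

end CF.BN.Suz
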