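import Cfsg.Agent.BN.CsD3
import Cfsg.Agent.BN.G2e
import Cfsg.Agent.BN.TGr3
import Cfsg.Agent.BN.SzCover

/-!
# The square of a semisimple class of `²F₄(q)`
-/

set_option autoImplicit false

namespace CF.BN.TG

open CF.Chev CF.Chev.StRep Cfsg.Lie Matrix

section

variable {B ι : Type} [Fintype B] [DecidableEq B] [Fintype ι] [DecidableEq ι]
  {C : ChevBasis B ι} {K : Type*} [Field K] {G : Type*} [Group G] {ρ : StRep C K G} {T : Tw ρ}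
  {G1 : Subgroup G} {J : Set B}

theorem exists_big [IsSimpleGroup G1] (F : T.Form G1) (hJ : T.S.Stab J) {a : B} (ha : a ∉ J)
    (hall : ∀ i ∉ J, i ∈ T.S.orb a) {na : G} (h1 : na ∈ G1) (h2 : ρ.NW na (T.S.s a))
    (hx : ∀ z ∈ ρ.H ⊓ G1, ∃ x ∈ ρ.UL (T.S.orb a) ⊓ G1, ∃ y ∈ ρ.VL (T.S.orb a) ⊓ G1, ∃ h,
      ∃ y' ∈ ρ.UL (T.S.orb a) ⊓ G1, x * na = y * h * y' ∧ h * z ∈ LG ρ G1 J) {g : G}
    (hg : g ∈ G1) (hg1 : g ≠ 1) : ∃ y ∈ G1, ∃ v ∈ ρ.VJ J ⊓ G1, ∃ l ∈ LG ρ G1 J,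
      ∃ u ∈ ρ.UJ J ⊓ G1, y * g * y⁻¹ = v * l * u := by
  obtain ⟨y, hy, k4⟩ := exists_conj_not_mem (ρ := ρ) (J := J) h1 (fun e => ha
    (C.mem_of_descent ((h2.mem_PJ_iff T.faith).1 e) fun h => (pos_lg_of_inSub
      (C.inSub_simple.2 (T.S.mem_orb_self a))).1 h (C.pos_simple a))) hg hg1
  obtain ⟨y', hy', w, hw, hw', n, hn, hn', u, hu, e⟩ := exists_cell_not_mem F
    (mul_mem (mul_mem hy hg) (inv_mem hy)) k4
  obtain ⟨x, hx, v, hv, l, hl, u', hu', e1⟩ := step F hJ ha hall h1 h2 hx hw hw' (one_mem _) hn hn'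
    (im (ρ.Bo_le_PJ J (ρ.Up_le_Bo hu.1)) hu.2)
  obtain ⟨a, ha, b, hb, e2⟩ := split_U F hJ (inv_mem hx)
  refine ⟨_, mul_mem hx.2 (mul_mem hy' hy), v, hv, _, mul_mem hl (UL_mem_LG ha), _,
    mul_mem (cj' ha.2 hu'.2 (LJ_conj_mem_UJ' (ρ.UL_le_LJ _ ha.1) hu'.1)) hb, ?_⟩
  calc _ = x * (y' * (y * g * y⁻¹) * y'⁻¹) * x⁻¹ := by group
    _ = x * (1 * n * u) * x⁻¹ := by rw [e, one_mul]
    _ = _ := by rw [e1, e2]; group

omit [DecidableEq ι] [Fintype ι] in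
theorem ev_eq_prod (χ : Char B K) (v : B → ℤ) : χ.ev v = ∏ i, χ.ev (Pi.single i 1) ^ v i := by
  conv_lhs => rw [← Finset.univ_sum_single v]
  induction (Finset.univ : Finset B) using Finset.induction_on with
  | empty => simp
  | insert i s hi ih =>
    rw [Finset.sum_insert hi, Finset.prod_insert hi, Char.ev_add, ih, ← Char.ev_smul,
      ← Pi.single_smul, smul_eq_mul, mul_one]

end

theorem exists_five {F : Type*} [Field F] {T : Suz.Tits F} {G : Type*} [Group G]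
    (D : Suz.SzData T G) (h2 : (2 : F) = 0) :
    ∃ A : G, A ^ 5 = 1 ∧ 2 < orderOf A ∧ ∃ m, A⁻¹ = m * A * m⁻¹ := by
  have : CharP F 2 := CharTwo.of_one_ne_zero_of_two_eq_zero one_ne_zero h2
  have e : D.ρ (D.w * D.u 0 1) = !![0, 0, 0, 1; 0, 0, 1, 0; 0, 1, 0, 1; 1, 0, 1, 1] := by
    rw [map_mul, D.ρ_w, D.ρ_u]
    simp [Suz.wM, Suz.Tits.uM, Suz.Tits.f]
  have h5 : (D.w * D.u 0 1) ^ 5 = 1 := D.inj (by
    rw [map_pow, e, map_one]
    simp [pow_succ, CharTwo.add_self_eq_zero]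
    ext i j; fin_cases i <;> fin_cases j <;> simp)
  refine ⟨_, h5, ?_, D.w, ?_⟩
  · have := Fact.mk Nat.prime_five
    rw [orderOf_eq_prime h5 fun h => ?_]
    · norm_num
    · rw [h, map_one] at e
      simpa using congrFun₂ e 0 0
  · rw [_root_.mul_inv_rev, D.w_inv, inv_eq_of_mul_eq_one_right (D.u_zero_sq 1), ← mul_assoc,
      D.w_mul_w, one_mul]

variable {K : Type*} [Field K] {G : Type*} [Group G] {ρ : StRep cF4 K G} {T : Tw ρ}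
  {θ : K →+* K} {e : ℕ}

/-- The coordinates of the centre of the Suzuki Levi subgroup. -/
def zcF (θ : K →+* K) : Kˣ →* (Fin 4 → Kˣ) :=
  MonoidHom.mk' (fun a => ![pu θ (a ^ 2 / pu θ a ^ 2), pu θ a, a, a ^ 2 / pu θ a ^ 2])
    fun a b => funext fun i => by
      fin_cases i <;> simp [mul_pow, mul_div_mul_comm]

theorem x_nF (hr : ρ.R3) (t : Kˣ) : ρ.x 33 (θ t) * ρ.x 24 t * (ρ.n 33 1 * ρ.n 24 1) =
    ρ.x 14 (θ (t⁻¹ : Kˣ)) * ρ.x 23 (t⁻¹ : Kˣ) * hr.tor ![pu θ (-t), 1, 1, -t] *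
      (ρ.x 33 (θ (-1 / t)) * ρ.x 24 (-1 / t)) := by
  have key : ∀ r (t : Kˣ), ρ.x r t * ρ.n r 1 =
      ρ.x (cF4.neg r) (t⁻¹ : Kˣ) * ρ.h r (-t) * ρ.x r (-1 / t) := fun r t => by
    simpa [ρ.x_zero] using hr.x_mul_x_neg_mul_n r 0 t
  have e0 : cF4.simple 0 = 33 ∧ cF4.simple 3 = 24 ∧ cF4.neg 33 = 14 ∧ cF4.neg 24 = 23 := by
    decide +kernel
  have e1 : ρ.h 33 (pu θ (-t)) * ρ.h 24 (-t) = hr.tor ![pu θ (-t), 1, 1, -t] := by
    rw [← e0.1, ← e0.2.1, ← hr.tor_single, ← hr.tor_single, ← map_mul]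
    congr 1
    ext i
    fin_cases i <;> simp
  have m : ∀ {a b a' b' : G}, b ∈ ρ.U {24, cF4.neg 24} → a' ∈ ρ.U {33, cF4.neg 33} →
      a * b * (a' * b') = a * a' * (b * b') := fun hb ha => by
    rw [mul_assoc, (SO.commute_U (by decide +kernel) hb ha).left_comm, mul_assoc]
  have x1 : ∀ r t, ρ.x r t ∈ ρ.U {r, cF4.neg r} := fun r t => ρ.x_mem_U (by simp) t
  have x2 : ∀ r t, ρ.x (cF4.neg r) t ∈ ρ.U {r, cF4.neg r} := fun r t => ρ.x_mem_U (by simp) t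
  have hh : ∀ r (t : Kˣ), ρ.h r t ∈ ρ.U {r, cF4.neg r} := fun r t =>
    ρ.h_mem_U (by simp) (by simp) t
  rw [← e1, ← e0.2.2.1, ← e0.2.2.2, m (x1 _ _) (ρ.n_mem_U (by simp) (by simp) _),
    m (x2 _ _) (hh _ _), m (mul_mem (x2 _ _) (hh _ _)) (x1 _ _), key]
  have h1 := key 33 (pu θ t)
  simp only [Units.coe_map, MonoidHom.coe_coe] at h1
  rw [h1]
  have : ∀ t : Kˣ, pu θ (-t) = -pu θ t := fun t => Units.ext (by simp)
  simp [this]

theorem nF_eq : ρ.n 33 1 * ρ.n 24 1 = ρ.x 33 (θ 1) * ρ.x 24 1 * (ρ.x 14 (θ (-1)) * ρ.x 23 (-1)) *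
    (ρ.x 33 (θ 1) * ρ.x 24 1) := by
  have e0 : cF4.neg 33 = 14 ∧ cF4.neg 24 = 23 := by decide +kernel
  have m : ∀ {a b a' b' : G}, b ∈ ρ.U {24, cF4.neg 24} → a' ∈ ρ.U {33, cF4.neg 33} →
      a * b * (a' * b') = a * a' * (b * b') := fun hb ha => by
    rw [mul_assoc, (SO.commute_U (by decide +kernel) hb ha).left_comm, mul_assoc]
  have x1 : ∀ r t, ρ.x r t ∈ ρ.U {r, cF4.neg r} := fun r t => ρ.x_mem_U (by simp) t
  have x2 : ∀ r t, ρ.x (cF4.neg r) t ∈ ρ.U {r, cF4.neg r} := fun r t => ρ.x_mem_U (by simp) t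
  rw [← e0.1, ← e0.2, m (x1 _ _) (x2 _ _), m (mul_mem (x1 _ _) (x2 _ _)) (x1 _ _)]
  simp [PreSt.n]

theorem nW_nF : ρ.NW (ρ.n 33 1 * ρ.n 24 1) (cF4.wp [0, 3]) := by
  have e : 33 = cF4.simple 0 ∧ 24 = cF4.simple 3 := by decide +kernel
  convert (ρ.nW_n 33 1).mul (ρ.nW_n 24 1) using 1
  rw [e.1, e.2]
  simp [RootSys.wp_cons]

variable [CharP K 2] (h2 : ∀ t, θ (θ t) ^ 2 = t)
include h2

omit [CharP K 2] in
theorem theta_ne {s : K} (h0 : s ≠ 0) (h1 : s ≠ 1) : θ s * s ≠ 1 ∧ θ s ^ 2 * s ≠ 1 := by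
  have key : θ s * s ≠ 1 := fun e => h1 (mul_left_cancel₀ h0 (by
    have e1 := congrArg θ e
    rw [map_mul, map_one] at e1
    have : θ (θ s) = s := by linear_combination (-θ (θ s)) * e + s * e1
    rw [mul_one, ← sq, ← this, h2, this]))
  refine ⟨key, fun e => key ?_⟩
  simpa [h2, mul_comm] using congrArg θ e

omit [CharP K 2] in
theorem zc_ev (a : Kˣ) : ∃ s : Kˣ, (a ≠ 1 → s ≠ 1) ∧ ∀ r, (cF4.torChar (zcF θ a)).ev (cF4.vec r) =
    pu θ s ^ cF4.vec r 0 * s ^ cF4.vec r 3 := by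
  have h3 : pu θ (pu θ a) ^ 2 = a := Units.ext (h2 _)
  refine ⟨a ^ 3 / pu θ a ^ 4, fun h e => h ?_, fun r => ?_⟩
  · rw [div_eq_one] at e
    have e1 := congrArg (pu θ) e
    rw [map_pow, map_pow, show 4 = 2 * 2 from rfl, pow_mul, h3] at e1
    have : a ^ 8 * a = a ^ 8 * 1 := by
      calc _ = (a ^ 3) ^ 3 := by group
        _ = (pu θ a ^ 3) ^ 4 := by rw [e]; group
        _ = _ := by rw [e1]; group
    exact mul_left_cancel this
  have e : ∀ i, (cF4.torChar (zcF θ a)).ev (Pi.single i 1) =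
      ![pu θ (a ^ 3 / pu θ a ^ 4), 1, 1, a ^ 3 / pu θ a ^ 4] i := fun i => by
    have h0 := a.ne_zero
    have h1 := (_root_.map_ne_zero θ).2 h0
    have h4 : θ (θ a) ^ 4 = a ^ 2 := by rw [← h2 a]; ring_nf; rw [h2]
    rw [← cF4.vec_simple, torChar_simple]
    fin_cases i <;> ext <;> simp [zcF, Fin.prod_univ_four, carF4', cmF4, zpow_ofNat, h2, h4] <;>
      field_simp
  rw [ev_eq_prod, Fin.prod_univ_four]
  simp [e]

theorem zc_fpf {a : Kˣ} (ha : a ≠ 1) {r : Fin 48} (hr : ¬ (cF4.vec r 0 = 0 ∧ cF4.vec r 3 = 0)) :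
    (cF4.torChar (zcF θ a)).ev (cF4.vec r) ≠ 1 := by
  obtain ⟨s, h0, h1⟩ := zc_ev h2 a
  have k0 : (s : K) ≠ 1 := fun e => h0 ha (Units.ext e)
  have k1 := theta_ne h2 s.ne_zero k0
  have key : ∀ r : Fin 48, (cF4.vec r 0 = 0 ∧ cF4.vec r 3 = 0) ∨ ∃ e ∈ ([1, -1] : List ℤ),
      (e * cF4.vec r 0, e * cF4.vec r 3) ∈ ([(1, 0), (0, 1), (1, 1), (2, 0), (2, 1), (2, 2)] :
        List (ℤ × ℤ)) := by decide +kernel
  obtain ⟨ε, -, h4⟩ := (key r).resolve_left hr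
  intro e
  rw [h1] at e
  replace e := congrArg (fun u : Kˣ => ((u ^ ε : Kˣ) : K)) e
  simp only [mul_zpow, ← _root_.zpow_mul, _root_.one_zpow, mul_comm _ ε] at e
  generalize ε * cF4.vec r 0 = m at e h4
  generalize ε * _ = n at e h4
  simp only [List.mem_cons, Prod.mk.injEq, List.not_mem_nil, or_false] at h4
  rcases h4 with ⟨rfl, rfl⟩ | ⟨rfl, rfl⟩ | ⟨rfl, rfl⟩ | ⟨rfl, rfl⟩ | ⟨rfl, rfl⟩ | ⟨rfl, rfl⟩ <;>
    simp [zpow_ofNat, -sq_eq_one_iff, -Units.val_eq_one] at e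
  · exact k0 (θ.injective (by simpa using e))
  · exact k0 e
  · exact k1.1 e
  · exact k0 (θ.injective (by simpa [CharTwo.neg_eq] using e))
  · exact k1.2 e
  · exact k1.1 (by simpa [CharTwo.neg_eq, ← mul_pow] using e)

theorem exists_div [Finite K] (c : Kˣ) : ∃ a : Kˣ, a ^ 2 / pu θ a ^ 2 = c := by
  refine Finite.surjective_of_injective (f := fun a : Kˣ => a ^ 2 / pu θ a ^ 2) (fun a b e => ?_) c
  have e1 : (a / b) ^ 2 = pu θ (a / b) ^ 2 := by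
    rw [map_div, div_pow, div_pow, div_eq_div_iff_mul_eq_mul, mul_comm (pu θ a ^ 2),
      ← div_eq_div_iff_mul_eq_mul]
    exact e
  rw [← div_eq_one]
  generalize a / b = d at e1
  have e2 : θ d = d := by
    simpa [sq_eq_sq_iff_eq_or_eq_neg, CharTwo.neg_eq] using (congrArg Units.val e1).symm
  have := h2 d
  rw [e2, e2, sq] at this
  exact Units.ext (mul_left_cancel₀ d.ne_zero (by simpa using this))

variable [Finite K]

omit h2 in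
theorem orb1 {j : Fin 4} : j ∈ (twF4 θ).S.orb 1 ↔ j = 1 ∨ j = 2 := by
  rw [(dataF4 (pF4_eq (isIs_twF4 θ))).mem_orb]; revert j; decide

omit h2 in
theorem inSubF {r : Fin 48} : cF4.InSub ((twF4 θ).S.orb 1) r ↔ cF4.vec r 0 = 0 ∧ cF4.vec r 3 = 0 := by
  simp [RootSys.InSub, orb1, Fin.forall_fin_succ]

theorem exists_szEmb (hθ : ∀ t, θ t = t ^ e) (hK : 2 < Nat.card K) :
    ∃ f : chevB2.group K →* chevF4.group K, Function.Injective f ∧
    (∀ j t, f ((repB2 K).x (cB2.simple j) t) = (repF4 K).x (![27, 25] j) t ∧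
      f ((repB2 K).x (cB2.neg (cB2.simple j)) t) = (repF4 K).x (cF4.neg (![27, 25] j)) t) ∧
    LG (repF4 K) (gF4 (repF4 K) e) ((twF4 θ).S.orb 1) = (twB2 θ).Fix.map f ∧
    (repF4 K).GJ ((twF4 θ).S.orb 1) ⊓ (twF4 θ).Fix ≤ (twB2 θ).Fix.map f := by
  have h := isIs_twF4 θ
  have h' := isIs_twB2 θ
  have F := formF4 h h2 hθ
  obtain ⟨E, hE⟩ := Emb.exists_of_diagram (C := cB2) (C' := cF4) ![1, 2] (by decide +kernel)
  obtain ⟨f, h5, h6⟩ := (univ_repB2 K).exists_inj (r3_repF4.pull E)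
    (R3.pull_tor_injective E r3_repF4 tor_injective_F4 hE)
    (faithful_pull_res E (twF4 θ).faith goodB2.conn hE)
  have p1 : ∀ j, (twF4 θ).p (![1, 2] j) = ![1, 2] ((twB2 θ).p j) := fun j =>
    (h.p_eq _).trans (Eq.trans (by revert j; decide) (congrArg _ (h'.p_eq j).symm))
  have p2 : ∀ j t, (twF4 θ).φ (cF4.simple (![1, 2] j)) t = (twB2 θ).φ (cB2.simple j) t :=
    fun j t => by rw [h.φ_eq, h'.φ_eq]; congr 1; revert j; decide +kernel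
  generalize twF4 θ = T at *
  generalize hT' : twB2 θ = T' at *
  have h7 : f.comp T'.σ = T.σ.comp f := hom_ext_simple (univ_repB2 K).top
    (fun j t => by
      simp [T'.σ_x, T.σ_x, h6, T'.π_simple, T.π_simple, pull_x_simple, hE, p1, p2, h.c_eq, h'.c_eq])
    fun j t => by
      simp [T'.σ_x, T.σ_x, h6, T'.π_simple, T.π_simple, pull_x_neg_simple, hE, p1, p2, h.c_eq,
        h'.c_eq, T.π_neg, T'.π_neg, T.φ_neg, T'.φ_neg]
  have h8 : ∀ g, f (T'.σ g) = T.σ (f g) := DFunLike.congr_fun h7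
  have h1 : Set.range ![1, 2] = T.S.orb 1 := Set.ext fun j => by
    rw [(dataF4 (pF4_eq h)).mem_orb]; revert j; decide
  have h9 : (repF4 K).GJ (T.S.orb 1) ⊓ T.Fix ≤ T'.Fix.map f := fun g hg => by
    obtain ⟨g, rfl⟩ : g ∈ f.range := ((repF4 K).U_le_iff.2 fun r hr t => by
      obtain ⟨s, rfl⟩ := (E.mem_range_iff hE).2 (h1 ▸ hr)
      exact ⟨(repB2 K).x s (E.eU K s * t), by rw [h6, pull_x, ← mul_assoc, ← Units.val_mul,
        E.eU_mul_self, Units.val_one, one_mul]⟩) (il hg)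
    exact ⟨g, T'.mem_Fix.2 (h5 ((h8 g).trans (T.mem_Fix.1 (ir hg)))), rfl⟩
  have h10 : ∀ S S', (∀ s ∈ S, E.f s ∈ S') → ∀ g ∈ (repB2 K).U S ⊓ T'.Fix,
      f g ∈ (repF4 K).U S' ⊓ T.Fix := fun S S' hS g hg => im
    (((repB2 K).U_le_iff (H := ((repF4 K).U S').comap f)).2 (fun r hr t => by
      rw [Subgroup.mem_comap, h6, pull_x]; exact (repF4 K).x_mem_U (hS r hr) _) hg.1)
    (T.mem_Fix.2 ((h8 g).symm.trans (congrArg f (T'.mem_Fix.1 hg.2))))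
  have h11 : ∀ s, cF4.InSub (T.S.orb 1) (E.f s) := fun s => h1 ▸ (E.mem_range_iff hE).1 ⟨s, rfl⟩
  refine ⟨f, h5, fun j t => ?_, le_antisymm (sup_le (fun g hg => h9 (im (UL_le_GJ hg.1) (F.fix hg.2)))
    fun g hg => h9 (im (VL_le_GJ hg.1) (F.fix hg.2))) (Subgroup.map_le_iff_le_comap.2
      ((hT' ▸ (ltB2 h2 hK).gen).trans (sup_le (fun g hg => ?_) fun g hg => ?_))), h9⟩
  · have : cF4.simple (![1, 2] j) = ![27, 25] j := by revert j; decide +kernel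
    rw [h6, h6, pull_x_simple, pull_x_neg_simple, hE, this]
    exact ⟨rfl, rfl⟩
  · have := h10 _ {r | cF4.Pos r ∧ cF4.InSub (T.S.orb 1) r}
      (fun s hs => ⟨(RootEmb.pos_iff hE).2 hs, h11 s⟩) g hg
    exact UL_mem_LG (im this.1 (F.pos 1 this))
  · have := h10 _ {r | ¬ cF4.Pos r ∧ cF4.InSub (T.S.orb 1) r}
      (fun s hs => ⟨mt (RootEmb.pos_iff hE).1 hs, h11 s⟩) g hg
    exact VL_mem_LG (im this.1 (F.Um_le (im (VL_le_Um this.1) this.2)))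

theorem classF4 [IsSimpleGroup (gF4 (repF4 K) e)] (hθ : ∀ t, θ t = t ^ e) {r : ℕ}
    (hr2 : r ^ 2 = 2 * Nat.card K) (h8 : 8 ≤ Nat.card K) : ∃ x ∈ gF4 (repF4 K) e,
      Odd (orderOf x) ∧ ∀ g ∈ gF4 (repF4 K) e, g ≠ 1 → PQ (gF4 (repF4 K) e) x g := by
  have h := isIs_twF4 θ
  have F := formF4 h h2 hθ
  have D := dataF4 (pF4_eq h)
  have hr := r3_repF4 (K := K)
  have := hr.finite (twF4 θ).faith (twF4 θ).top
  have := (univ_repB2 K).r3.finite (univ_repB2 K).faith (univ_repB2 K).top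
  have := Fintype.ofFinite (twB2 θ).Fix
  have := Fintype.ofFinite K
  obtain ⟨f, f1, f2, f3, f4⟩ := exists_szEmb h2 hθ (by omega)
  obtain ⟨S⟩ := nonempty_szData h2
  obtain ⟨P⟩ := S.nonempty_table hr2 h8
  obtain ⟨A, a1, a2, m, a3⟩ := exists_five S CharTwo.two_eq_zero
  obtain ⟨a, ha⟩ : ∃ a : Kˣ, a ^ 5 ≠ 1 := by
    by_contra! h1
    have := Nat.le_of_dvd (by norm_num) ((FiniteField.forall_pow_eq_one_iff K 5).1 h1)
    rw [Nat.card_eq_fintype_card] at h8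
    omega
  have hJ := (twF4 θ).S.stab_orb 1
  have hH : ∀ c, hr.tor c ∈ (repF4 K).H := fun c => hr.range_tor.le ⟨c, rfl⟩
  have hz : ∀ a, hr.tor (zcF θ a) ∈ gF4 (repF4 K) e := fun a =>
    tor_memF4 h h2 hθ hr ((mem_TF_F4 h h2).2 ⟨(a, _), rfl⟩)
  have hc : ∀ a, ∀ l ∈ (repF4 K).LJ ((twF4 θ).S.orb 1), Commute (hr.tor (zcF θ a)) l :=
    fun a l hl => commute_LJ hr (hH _) (hr.actsT_tor _) (fun r hr => by
      obtain ⟨s, -, h1⟩ := zc_ev h2 a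
      simp [h1, inSubF.1 hr]) hl
  have hf : ∀ g : (twB2 θ).Fix, f g ∈ LG (repF4 K) (gF4 (repF4 K) e) ((twF4 θ).S.orb 1) :=
    fun g => f3 ▸ ⟨g, g.2, rfl⟩
  have hf' : ∀ g : (twB2 θ).Fix, f g ∈ (repF4 K).LJ ((twF4 θ).S.orb 1) ⊓ gF4 (repF4 K) e :=
    fun g => im (LG_le_LJ (hf g)) (LG_le_G1 (hf g))
  have hT : ∀ a : Kˣ, hr.tor ![1, pu θ a, a, 1] ∈
      LG (repF4 K) (gF4 (repF4 K) e) ((twF4 θ).S.orb 1) := fun a => by
    refine f3 ▸ f4 (im ?_ ((twF4 θ).tor_mem_Fix hr ((mem_TF_F4 h h2).2 ⟨(a, 1), by simp⟩)))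
    convert mul_mem (h_mem_GJ (ρ := repF4 K) (orb1.2 (.inl rfl)) (pu θ a))
      (h_mem_GJ (orb1.2 (.inr rfl)) a) using 1
    rw [← hr.tor_single, ← hr.tor_single, ← map_mul]
    congr 1
    ext i
    fin_cases i <;> simp
  have hx : ∀ a, f A * hr.tor (zcF θ a) ∈ (repF4 K).LJ ((twF4 θ).S.orb 1) ⊓ gF4 (repF4 K) e :=
    fun a => mul_mem (hf' A) (im (H_mem_LJ (hH _)) (hz a))
  have h5 : ∀ a, (f A * hr.tor (zcF θ a)) ^ 5 = hr.tor (zcF θ (a ^ 5)) := fun a => by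
    rw [(hc a _ (hf' A).1).symm.mul_pow, ← map_pow, ← Subgroup.coe_pow, a1, map_pow, map_pow]
    simp
  have fpf : ∀ a : Kˣ, a ^ 5 ≠ 1 → ∀ S, cF4.Closed S → cF4.IsNil S →
      (∀ r ∈ S, ¬ cF4.InSub ((twF4 θ).S.orb 1) r) → ∀ y ∈ (repF4 K).U S,
        Commute (f A * hr.tor (zcF θ a)) y → y = 1 := fun a ha S s1 s2 s3 y hy hc =>
    (hr.actsT_tor _).eq_one_of_commute (twF4 θ).faith s1 s2
      (fun r hr => zc_fpf h2 ha (mt inSubF.2 (s3 r hr))) hy (h5 a ▸ hc.pow_left 5)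
  obtain ⟨n, hn, e1⟩ : ∃ n ∈ gF4 (repF4 K) e, f A * hr.tor (zcF θ a⁻¹) =
      n * (f A * hr.tor (zcF θ a)) * n⁻¹ := by
    obtain ⟨n0, k1, k2⟩ := F.exists_n (Sym.Stab.lg_mem_Wf (twF4 θ).S.stab_univ)
    obtain ⟨n1, k3, k4⟩ := exists_n_LG F hJ ((twF4 θ).S.s_mem_Wf 1) (lg_mem _)
    rw [lgF4] at k2
    rw [D.s_eq] at k4
    obtain ⟨-, c, c1, c2⟩ := k2.acts.mul k4.acts
    have w1 : ∀ r ∈ ([27, 25, 28, 30, 20, 22] : List (Fin 48)),
        (cF4.negPerm * cF4.wp (swF4 1)) r = r := fun r hr => by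
      rw [Equiv.Perm.mul_apply, wpF _ r (cF4.neg r) (by revert r; decide +kernel)]
      exact cF4.neg_neg r
    have k5 := mul_mem k1 (LG_le_G1 k3)
    have c3 : (c 27 : K) = θ (c 25) := by
      have := F.fix (mul_mem (mul_mem k5 (mem_gF4₄ f4L₄_pos hθ 1 0)) (inv_mem k5))
      rw [← conj_mul, ← conj_mul, ← conj_mul, c2, c2, c2, c2, w1 _ (by decide), w1 _ (by decide),
        w1 _ (by decide), w1 _ (by decide)] at this
      simpa using ((fixF4₄ h h2 f4L₄_pos).1 this).1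
    obtain ⟨b, hb⟩ := exists_div h2 (c 25)
    have t1 := hr.actsT_tor ![1, pu θ b, b, 1]
    have t2 : ∀ j : Fin 2, (cF4.torChar ![1, pu θ b, b, 1]).ev (cF4.vec (![27, 25] j)) =
        c (![27, 25] j) := fun j => by
      have e : ∀ k, cF4.sp k (cF4.vec 27) = ![-1, 2, -1, 0] k ∧
        cF4.sp k (cF4.vec 25) = ![0, -2, 2, -1] k := by decide +kernel
      have e2 := congrArg Units.val hb
      fin_cases j <;> ext <;> simp [cF4.torChar_ev, e, Fin.prod_univ_four, zpow_ofNat, c3, ← e2, h2,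
        div_eq_mul_inv, mul_comm]
    have t3 : ∀ j : Fin 2, ![27, 25] j ∈ ([27, 25, 28, 30, 20, 22] : List (Fin 48)) ∧
        cF4.neg (![27, 25] j) ∈ ([27, 25, 28, 30, 20, 22] : List (Fin 48)) := by decide +kernel
    have t4 := DFunLike.congr_fun (hom_ext_simple (univ_repB2 K).top
      (f := (MulAut.conj (n0 * n1)).toMonoidHom.comp f)
      (g := (MulAut.conj (hr.tor ![1, pu θ b, b, 1])).toMonoidHom.comp f) (fun j t => by
        simp only [MonoidHom.comp_apply, MulEquiv.coe_toMonoidHom, MulAut.conj_apply, (f2 j t).1]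
        rw [c2, t1, t2, w1 _ (t3 j).1]) fun j t => by
        simp only [MonoidHom.comp_apply, MulEquiv.coe_toMonoidHom, MulAut.conj_apply, (f2 j t).2]
        rw [c2, t1, cF4.vec_neg, Char.ev_neg, t2, w1 _ (t3 j).2, c1]) A.1
    simp only [MonoidHom.comp_apply, MulEquiv.coe_toMonoidHom, MulAut.conj_apply] at t4
    have t5 := R3_conj_of_neg hr k2.acts (hH (zcF θ a))
    have t6 := hT b
    refine ⟨_, mul_mem (inv_mem (LG_le_G1 t6)) k5, ?_⟩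
    generalize hr.tor ![1, pu θ b, b, 1] = t at t4 t6
    calc _ = t⁻¹ * (t * f A * t⁻¹ * (t * (hr.tor (zcF θ a))⁻¹ * t⁻¹)) * t := by
          rw [map_inv, map_inv]; group
      _ = t⁻¹ * (n0 * n1 * f A * (n0 * n1)⁻¹ * (n0 * (n1 * hr.tor (zcF θ a) * n1⁻¹) * n0⁻¹)) * t := by
          rw [t4, (hc a _ (LG_le_LJ k3)).symm.mul_inv_cancel, t5,
            (hc a _ (LG_le_LJ t6)).symm.inv_right.mul_inv_cancel]
      _ = _ := by group
  refine ⟨_, (hx a).2, ?_, fun g hg hg1 => ?_⟩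
  · refine Odd.of_dvd_nat (n := 5 * Nat.card Kˣ) (Odd.mul (by decide) ?_)
      (orderOf_dvd_of_pow_eq_one (by rw [pow_mul, h5, ← map_pow, ← map_pow]; simp))
    rw [Nat.card_units]
    refine Nat.Even.sub_odd Nat.card_pos ?_ odd_one
    rw [Nat.card_eq_fintype_card]
    exact (FiniteField.even_card_iff_char_two.1 (ringChar.eq K 2) |> Nat.even_iff.2)
  have k1 : ∀ t, (repF4 K).x 33 (θ t) * (repF4 K).x 24 t ∈
      (repF4 K).UL ((twF4 θ).S.orb 0) ⊓ gF4 (repF4 K) e := fun t => im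
    (by rw [UL, D.set_eq]; exact ((memF4₂ h h2).2 ⟨t, rfl⟩).1) (mem_gF4₂ f4L₂_pos hθ t)
  obtain ⟨y, hy, v, hv, l, hl, u, hu, e2⟩ := exists_big F hJ (a := 0) (by simp [orb1])
    (fun i hi => (D.mem_orb _ _).2 (by rw [orb1] at hi; revert i; decide))
    (by
      rw [nF_eq (θ := θ)]
      exact mul_mem (mul_mem (k1 _).2 (mem_gF4₂ f4L₂_neg hθ _)) (k1 _).2)
    (D.s_eq 0 ▸ nW_nF) (fun z hz => by
      obtain ⟨c, hc, rfl⟩ := (H_inf_gF4 hθ h2).le hz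
      obtain ⟨b, rfl⟩ := (mem_TF_F4 h h2).1 hc
      have e0 : cF4.neg 33 = 14 ∧ cF4.neg 24 = 23 := by decide +kernel
      have k2 : ∀ r ∈ rlF4 0, ∀ t, (repF4 K).x (cF4.neg r) t ∈ (repF4 K).VL ((twF4 θ).S.orb 0) :=
        fun r hr t => (repF4 K).x_mem_U (D.neg_mem hr) t
      refine ⟨_, k1 _, _, im (mul_mem (e0.1 ▸ k2 33 (by decide) _) (e0.2 ▸ k2 24 (by decide) _))
        (mem_gF4₂ f4L₂_neg hθ _), _, _, k1 _, x_nF hr (-b.2⁻¹), ?_⟩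
      convert hT b.1 using 1
      rw [← map_mul hr.tor]
      congr 1
      ext i
      fin_cases i <;> simp) hg hg1
  refine PQ.of_conj hy (e2 ▸ ?_)
  obtain ⟨L, hL, rfl⟩ := f3.le hl
  lift L to (twB2 θ).Fix using hL
  obtain ⟨p, q, e3⟩ : ∃ p q, L = p * A * p⁻¹ * (q * A * q⁻¹) := by
    by_cases h1 : L = 1
    · exact ⟨1, m, by rw [← a3, h1]; simp⟩
    · exact P.exists_mul a2 h1
  obtain ⟨b, hb, c, hc', e4⟩ := exists_conj_mul' (hx a) (hx a⁻¹)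
    (fpf a ha _ ((cF4.ideal_radm _).mono fun _ h => Or.inl h.1) (cF4.isNil_neg.mono fun _ h => h.1)
      fun _ h => h.2) (fpf a⁻¹ (by simpa using ha) _ (cF4.closed_rad _) (cF4.isNil_rad _)
      fun _ h => h.2) (hf' p) (hf' q) (l := f L) (by
        have k : ∀ (p : (twB2 θ).Fix) a, f p * (f A * hr.tor (zcF θ a)) * (f p)⁻¹ =
            f (p * A * p⁻¹ :) * hr.tor (zcF θ a) := fun p a => by
          simp only [Subgroup.coe_mul, Subgroup.coe_inv, map_mul, map_inv, mul_assoc]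
          rw [(hc a _ (inv_mem (hf' p).1)).eq]
        rw [k, k, mul_assoc, ← mul_assoc (hr.tor _), (hc a _ (hf' _).1).eq, e3, Subgroup.coe_mul,
          map_mul, map_inv, map_inv, mul_inv_cancel_right]) hv hu
  exact ⟨b, hb, _, mul_mem hc' hn, by rw [e4, e1]; group⟩

omit h2 [Finite K] [CharP K 2] in
theorem class_F4 {K : Type*} [Field K] [Fintype K] {m : ℕ} (hm : 1 ≤ m)
    (hK : Fintype.card K = 2 ^ (2 * m + 1)) : ∃ x : twistedF4 K (2 ^ m), Odd (orderOf x) ∧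
      ∀ g ≠ 1, ∃ u v, g = u * x * u⁻¹ * (v * x * v⁻¹) := by
  obtain ⟨_, θ, hθ, h2⟩ := exists_theta Nat.prime_two hK
  have := (F4_simple hK hm).1
  have : IsSimpleGroup (gF4 (repF4 K) (2 ^ m)) := (packF4 hθ h2).e.symm.isSimpleGroup
  obtain ⟨x, hx, h1, h3⟩ := classF4 h2 hθ (Suz.sq_two_pow (Nat.card_eq_fintype_card.trans hK))
    (Nat.card_eq_fintype_card (α := K) ▸ Suz.eight_le_card hm hK)
  obtain ⟨y, h4, h5⟩ := PQ.sub hx h3 (packF4 hθ h2).e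
  exact ⟨y, h4 ▸ h1, h5⟩

end CF.BN.TG
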