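import Cfsg.Agent.BN.TwD4

/-!
# Two-generation of twisted groups: general tools
-/

set_option autoImplicit false

namespace CF.BN.TG

open CF.Chev Cfsg.Lie

/-- An additive subgroup containing all `a ^ 2 * c` is everything. -/
theorem mem_of_sq {K : Type*} [Field K] [Finite K] {A : AddSubgroup K} {t : K} (ht : t ≠ 0)
    (h : ∀ a : K, a ^ 2 * t ∈ A) (c : K) : c ∈ A := by
  by_cases h7 : (2 : K) = 0
  · obtain ⟨a, e⟩ := FiniteField.isSquare_of_char_two
      (ringChar.eq_iff.2 (CharTwo.of_one_ne_zero_of_two_eq_zero one_ne_zero h7)) (c / t)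
    convert h a using 1
    rw [sq, ← e, div_mul_cancel₀ _ ht]
  · convert sub_mem (h ((c / t + 1) / 2)) (h ((c / t - 1) / 2)) using 1
    field_simp; ring

/-- Steinberg's trick. -/
theorem stein_aux {G : Type*} [Group G] {Y : Subgroup G} {h z x : G} (hc : Commute h z)
    (hY : h ∈ Y) (hz : x * z * x⁻¹ ∈ Y) :
    h * x * h⁻¹ * (z * ((h * x * h⁻¹)⁻¹ * x) * z⁻¹) * x⁻¹ ∈ Y := by
  have h7 := mul_mem (mul_mem (mul_mem hY hz) (inv_mem hY)) (inv_mem hz)
  rwa [← conj_mul, ← conj_mul, hc.mul_inv_cancel, ← conj_inv, show ∀ x y z : G,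
    y * z * y⁻¹ * (x * z * x⁻¹)⁻¹ = y * (z * (y⁻¹ * x) * z⁻¹) * x⁻¹ by intros; group] at h7

theorem stein {K : Type*} [Field K] [Finite K] {G : Type*} [Group G] {Y : Subgroup G}
    (x : K → G) (hx : ∀ t u, x (t + u) = x t * x u) {h z : G} {k : Kˣ} {κ : K}
    (hk : ∀ u, u ∈ Subgroup.zpowers k) (hk1 : (k : K) ^ 2 ≠ 1) (hκ : κ ≠ 1) (hc : Commute h z)
    (h1 : ∀ t, h * x t * h⁻¹ = x (k ^ 2 * t)) (h2 : ∀ t, z * x t * z⁻¹ = x (κ * t))
    (hY : h ∈ Y) (hz : x 1 * z * (x 1)⁻¹ ∈ Y) (t : K) : x t ∈ Y := by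
  have h0 : x 0 = 1 := by simpa using hx 0 0
  have hn : ∀ t, (x t)⁻¹ = x (-t) := fun t =>
    inv_eq_of_mul_eq_one_right (by rw [← hx, add_neg_cancel, h0])
  let A : AddSubgroup K :=
    { carrier := {t | x t ∈ Y}
      add_mem' := fun ha hb => show x _ ∈ Y from hx _ _ ▸ mul_mem ha hb
      zero_mem' := show x _ ∈ Y from h0 ▸ one_mem _
      neg_mem' := fun ha => show x _ ∈ Y from hn _ ▸ inv_mem ha }
  have h7 := stein_aux hc hY hz
  rw [h1, hn, hn, ← hx, h2, ← hx, ← hx] at h7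
  generalize hc : _ + (-1 : K) = c at h7
  have hc0 : c ≠ 0 := fun e => by
    have : ((k : K) ^ 2 - 1) * (1 - κ) = 0 := by linear_combination hc + e
    exact (mul_eq_zero.1 this).elim (fun e => hk1 (sub_eq_zero.1 e)) fun e =>
      hκ (sub_eq_zero.1 e).symm
  have h8 : ∀ j : ℕ, x (((k : K) ^ j) ^ 2 * c) ∈ Y := fun j => by
    induction j with
    | zero => simpa
    | succ j ih =>
      have := mul_mem (mul_mem hY ih) (inv_mem hY)
      rw [h1] at this
      convert this using 2; ring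
  refine mem_of_sq (A := A) hc0 (fun b => ?_) t
  obtain rfl | hb := eq_or_ne b 0
  · simp
  obtain ⟨j, hj⟩ := (mem_powers_iff_mem_zpowers.2 (hk (Units.mk0 b hb)) :)
  have := h8 j
  rwa [show (k : K) ^ j = b by simpa using congrArg Units.val hj] at this

section

variable {B ι : Type} [Fintype B] [DecidableEq B] [Fintype ι] [DecidableEq ι]
  {C : ChevBasis B ι} {K : Type*} [Field K] {G : Type*} [Group G] {ρ : StRep C K G} {T : Tw ρ}
  {Y G1 : Subgroup G}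

variable (T) in
/-- `Y` contains the fixed points in the unipotent group of `L`. -/
def Has (Y : Subgroup G) (L : List ι) : Prop := ρ.U {r | r ∈ L} ⊓ T.Fix ≤ Y

theorem Has.conj (hY : Y ≤ T.Fix) {n : G} (hn : n ∈ Y) {w : Equiv.Perm ι} (hw : ρ.Acts n w)
    {L L' : List ι} (h : ∀ r ∈ L', ∃ s ∈ L, w s = r) (hL : Has T Y L) : Has T Y L' := by
  intro g hg
  have h1 : n⁻¹ * g * n⁻¹⁻¹ ∈ Y := hL (im (hw.inv.conj_mem_U (fun r hr => by
    obtain ⟨s, hs, rfl⟩ := h r hr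
    simpa using hs) hg.1)
    (mul_mem (mul_mem (inv_mem (hY hn)) hg.2) (inv_mem (inv_mem (hY hn)))))
  have := mul_mem (mul_mem hn h1) (inv_mem hn)
  convert this using 1; group

theorem nW_pow {n : G} {l : List B} (h : ρ.NW n (C.wp l)) (j : ℕ) :
    ρ.NW (n ^ j) (C.wp (List.replicate j l).flatten) := by
  induction j with
  | zero => simpa using StRep.nW_one
  | succ j ih => rw [pow_succ', List.replicate_succ, List.flatten_cons, C.wp_append]; exact h.mul ih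

theorem form_of_has {sw : B → List B} {rl : B → List ι} (D : T.S.Data sw rl) (F : T.Form G1)
    (hY : Y ≤ T.Fix) (h1 : ∀ i, Has T Y (rl i)) (h2 : ∀ i, Has T Y ((rl i).map C.neg)) :
    T.Form Y := by
  refine ⟨hY, fun i => D.set_eq i ▸ h1 i, fun i => ?_⟩
  obtain ⟨v, hv, h3, h4⟩ := F.neg i
  refine ⟨v, h2 i (im (ρ.U_mono (fun r hr => ?_) h3) (F.fix hv)), h3, h4⟩
  refine List.mem_map.2 ⟨C.neg r, (D.mem_rl i _).2 ⟨?_, C.inSub_neg.2 hr.2⟩, C.neg_neg r⟩
  exact (C.pos_neg_iff r).2 hr.1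

theorem two_gen_of {a b : G} (ha : a ∈ G1) (hb : b ∈ G1) (hG : G1 ≤ T.Gen)
    (F : T.Form (Subgroup.closure {a, b})) :
    ∃ a b : G1, Subgroup.closure ({a, b} : Set G1) = ⊤ := by
  refine ⟨⟨a, ha⟩, ⟨b, hb⟩, ?_⟩
  rw [← Subgroup.map_subtype_inj, MonoidHom.map_closure, ← MonoidHom.range_eq_map,
    Subgroup.range_subtype]
  simp only [Set.image_insert_eq, Set.image_singleton, Subgroup.subtype_apply]
  exact le_antisymm ((Subgroup.closure_le _).2 (by rintro _ (rfl | rfl); exacts [ha, hb]))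
    (hG.trans F.Gen_le)

theorem two_gen_equiv {X X' : Type*} [Group X] [Group X'] (e : X ≃* X')
    (h : ∃ a b : X', Subgroup.closure ({a, b} : Set X') = ⊤) :
    ∃ a b : X, Subgroup.closure ({a, b} : Set X) = ⊤ := by
  obtain ⟨a, b, h⟩ := h
  refine ⟨e.symm a, e.symm b, ?_⟩
  have := congrArg (Subgroup.map e.symm.toMonoidHom) h
  rwa [MonoidHom.map_closure, Set.image_insert_eq, Set.image_singleton, ← MonoidHom.range_eq_map,
    MonoidHom.range_eq_top.2 e.symm.surjective] at this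

theorem exists_actsT_conj (hρ : ρ.Faithful) {m g : G} {w : Equiv.Perm ι} (hm : ρ.Acts m w)
    (hg : g ∈ ρ.H) {χ : Char B K} (h : ρ.ActsT g χ) :
    ∃ χ', ρ.ActsT (m * g * m⁻¹) χ' ∧ ∀ s, χ'.ev (C.vec (w s)) = χ.ev (C.vec s) := by
  obtain ⟨χ', -, h1, -⟩ := StRep.exists_actsT_of_mem_H (hm.conj_mem_H hg)
  refine ⟨χ', h1, fun s => Units.ext ?_⟩
  obtain ⟨c, hc⟩ := hm.exists_conj_x s
  have : m * g * m⁻¹ * ρ.x (w s) (c * 1) * (m * g * m⁻¹)⁻¹ =
      ρ.x (w s) (χ.ev (C.vec s) * (c * 1)) := by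
    rw [mul_left_comm, ← hc, ← hc, ← h]; group
  rw [h1] at this
  simpa using hρ.x_injective _ this

end

section

variable {D : ChevalleyDatum} {C : ChevBasis (Fin D.rank) (Fin D.nroots)}
  (L : IsLink D C.toLieBasis) {K : Type*} [Field K] {G : Type*} [Group G]
include L

theorem Has.pow {ρ : StRep C K G} {T : Tw ρ} {Y : Subgroup G} (hY : Y ≤ T.Fix) {n : G}
    (hn : n ∈ Y) {l : List (Fin D.rank)} (hw : ρ.NW n (C.wp l)) (j : ℕ)
    {S S' : List (Fin D.nroots)} (h : ∀ r ∈ S', ∃ s ∈ S, (List.replicate j l).flatten.foldr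
      (fun (i : Fin D.rank) (s : ℕ) => D.reflectRoot i s) s = r) (hL : Has T Y S) : Has T Y S' :=
  hL.conj hY (pow_mem hn j) (nW_pow hw j).acts fun r hr =>
    (h r hr).imp fun _ hs => ⟨hs.1, wp_apply_eq L hs.2⟩

theorem swap (ρ : PreSt C K G) (O : List (Fin D.nroots)) {r s : Fin D.nroots}
    (h : O.idxOf r < O.idxOf s ∧ s ≠ r ∧ s ≠ C.neg r ∧ D.commTerms r s = []) (t u : K) (g : G) :
    ρ.x s u * (ρ.x r t * g) = ρ.x r t * (ρ.x s u * g) := by
  rw [← mul_assoc, comm_tab L ρ [] h.2 t u]; simp [mul_assoc]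

theorem swap₁ (ρ : PreSt C K G) (r s v : Fin D.nroots) (c : ℤ)
    (h : s ≠ r ∧ s ≠ C.neg r ∧ D.commTerms r s = [(v.1, c, 1, 1)]) (t u : K) (g : G) :
    ρ.x s u * (ρ.x r t * g) = ρ.x r t * (ρ.x s u * (ρ.x v (-(c * t * u)) * g)) := by
  rw [← mul_assoc, comm_tab L ρ [(v, c, 1, 1)] h t u]; simp [mul_assoc, evT]

end

theorem x_x {B ι : Type} [Fintype B] [DecidableEq B] [Fintype ι] [DecidableEq ι]
    {C : ChevBasis B ι} {K : Type*} [Field K] {G : Type*} [Group G] (ρ : PreSt C K G) (r : ι)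
    (t u : K) (g : G) : ρ.x r t * (ρ.x r u * g) = ρ.x r (t + u) * g := by
  rw [ρ.x_add, mul_assoc]

end CF.BN.TG
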