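import Cfsg.Agent.Chev.Thom
import Cfsg.Agent.BN.G2b

/-!
# Conjugation into the big cell of a parabolic subgroup, for twisted groups
-/

set_option autoImplicit false

namespace CF.BN.TG

open CF.Chev CF.Chev.StRep

variable {B ι : Type} [Fintype B] [DecidableEq B] [Fintype ι] [DecidableEq ι]
  {C : ChevBasis B ι} {K : Type*} [Field K] {G : Type*} [Group G] {ρ : StRep C K G} {T : Tw ρ}
  {G1 : Subgroup G} {J : Set B} {g n v u x : G} {i : B}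

theorem cj {A : Subgroup G} (hg : g ∈ G1) (hx : x ∈ G1) (h : g * x * g⁻¹ ∈ A) :
    g * x * g⁻¹ ∈ A ⊓ G1 := im h (mul_mem (mul_mem hg hx) (inv_mem hg))

theorem cj' {A : Subgroup G} (hg : g ∈ G1) (hx : x ∈ G1) (h : g⁻¹ * x * g ∈ A) :
    g⁻¹ * x * g ∈ A ⊓ G1 := im h (mul_mem (mul_mem (inv_mem hg) hx) hg)

theorem LJ_conj_mem_UJ' (hg : g ∈ ρ.LJ J) (hu : u ∈ ρ.UJ J) : g⁻¹ * u * g ∈ ρ.UJ J := by
  simpa using LJ_conj_mem_UJ (inv_mem hg) hu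

variable (ρ G1 J) in
/-- The subgroup of a Levi subgroup generated by its unipotent subgroups. -/
def LG : Subgroup G := (ρ.UL J ⊓ G1) ⊔ (ρ.VL J ⊓ G1)

theorem LG_le_G1 : LG ρ G1 J ≤ G1 := sup_le inf_le_right inf_le_right

theorem LG_le_GJ : LG ρ G1 J ≤ ρ.GJ J :=
  sup_le (inf_le_left.trans UL_le_GJ) (inf_le_left.trans VL_le_GJ)

theorem LG_le_LJ : LG ρ G1 J ≤ ρ.LJ J := LG_le_GJ.trans GJ_le_LJ

theorem UL_mem_LG (h : g ∈ ρ.UL J ⊓ G1) : g ∈ LG ρ G1 J := Subgroup.mem_sup_left h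

theorem VL_mem_LG (h : g ∈ ρ.VL J ⊓ G1) : g ∈ LG ρ G1 J := Subgroup.mem_sup_right h

theorem H_conj_LG {h : G} (hh : h ∈ ρ.H ⊓ G1) (hg : g ∈ LG ρ G1 J) : h * g * h⁻¹ ∈ LG ρ G1 J :=
  (show LG ρ G1 J ≤ (LG ρ G1 J).comap (MulAut.conj h).toMonoidHom from sup_le
    (fun _ hy => UL_mem_LG (cj hh.2 hy.2 (H_conj_mem_U hh.1 hy.1)))
    fun _ hy => VL_mem_LG (cj hh.2 hy.2 (H_conj_mem_U hh.1 hy.1))) hg

theorem s_conj_UL (hn : ρ.NW n (T.S.s i)) (hx : x ∈ ρ.UL (T.S.orb i)) :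
    n * x * n⁻¹ ∈ ρ.VL (T.S.orb i) :=
  hn.acts.conj_mem_U (fun _ hr =>
    And.intro (fun h => (pos_lg_of_inSub hr.2).1 h hr.1) (inSub_lg.2 hr.2)) hx

theorem s_conj_VL (hn : ρ.NW n (T.S.s i)) (hx : x ∈ ρ.VL (T.S.orb i)) :
    n * x * n⁻¹ ∈ ρ.UL (T.S.orb i) :=
  hn.acts.conj_mem_U (fun _ hr => And.intro ((pos_lg_of_inSub hr.2).2 hr.1) (inSub_lg.2 hr.2)) hx

theorem nW_s_inv' (h : ρ.NW n (T.S.s i)) : ρ.NW n⁻¹ (T.S.s i) := by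
  simpa only [lg_inv] using h.inv

variable (F : T.Form G1)
include F

theorem split_V (hJ : T.S.Stab J) (hv : v ∈ ρ.Um ⊓ G1) :
    ∃ a ∈ ρ.VJ J ⊓ G1, ∃ b ∈ ρ.VL J ⊓ G1, v = a * b := by
  have e : {r | ¬ C.Pos r ∧ ¬ C.InSub J r} ∪ {r | ¬ C.Pos r ∧ C.InSub J r} = {r | ¬ C.Pos r} := by
    ext r; simp only [Set.mem_union, Set.mem_ofPred_eq]; tauto
  obtain ⟨a, ha, b, hb, rfl⟩ := Tw.split (T := T) (S' := {r | ¬ C.Pos r ∧ C.InSub J r})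
    ((C.ideal_radm J).mono fun _ h => Or.inl h.1) (C.closed_neg.inter (C.closed_inSub J)) (e ▸ C.closed_neg) (e ▸ C.isNil_neg)
    (Set.disjoint_left.2 fun _ h h' => h.2 h'.2)
    (fun r hr => ⟨mt T.pos_π_iff.1 hr.1, mt hJ.inSub_π.1 hr.2⟩)
    (fun r hr => ⟨mt T.pos_π_iff.1 hr.1, hJ.inSub_π.2 hr.2⟩) (im (e ▸ il hv) (F.fix hv.2))
  exact ⟨a, im ha.1 (F.Um_le (im (VJ_le_Um ha.1) ha.2)), b,
    im hb.1 (F.Um_le (im (VL_le_Um hb.1) hb.2)), rfl⟩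

theorem split_U (hJ : T.S.Stab J) (hu : u ∈ ρ.Up ⊓ G1) :
    ∃ a ∈ ρ.UL J ⊓ G1, ∃ b ∈ ρ.UJ J ⊓ G1, u = a * b := by
  have e : {r | C.Pos r ∧ C.InSub J r} ∪ {r | C.Pos r ∧ ¬ C.InSub J r} = {r | C.Pos r} := by
    ext r; simp only [Set.mem_union, Set.mem_ofPred_eq]; tauto
  obtain ⟨a, ha, b, hb, rfl⟩ := Tw.split (T := T) (S := {r | C.Pos r ∧ C.InSub J r})
    (C.closed_pos.inter (C.closed_inSub J))
    (C.closed_rad J) (e ▸ C.closed_pos) (e ▸ C.isNil_pos)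
    (Set.disjoint_left.2 fun _ h h' => h'.2 h.2)
    (fun r hr => ⟨T.pos_π_iff.2 hr.1, hJ.inSub_π.2 hr.2⟩)
    (fun r hr => ⟨T.pos_π_iff.2 hr.1, mt hJ.inSub_π.1 hr.2⟩) (im (e ▸ il hu) (F.fix hu.2))
  exact ⟨a, im ha.1 (F.Up_le (im (ρ.UL_le_Up J ha.1) ha.2)), b,
    im hb.1 (F.Up_le (im (ρ.UJ_le_Up J hb.1) hb.2)), rfl⟩

theorem rank_one (hv : v ∈ ρ.VL (T.S.orb i) ⊓ G1) (h2 : v ≠ 1) : ∃ b ∈ ρ.UL (T.S.orb i) ⊓ G1,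
    ∃ n, ρ.NW n (T.S.s i) ∧ ∃ b' ∈ ρ.UL (T.S.orb i) ⊓ G1, v = b * n * b' := by
  have h3 : v ∈ ρ.LJ (T.S.orb i) := GJ_le_LJ (VL_le_GJ hv.1)
  obtain ⟨w, hw, hc⟩ := StRep.mem_PJ_iff.1 (ρ.LJ_le_PJ _ h3)
  rcases Sym.eq_one_or_eq_s (Tw.mem_Wf_of_cell (F.fix hv.2) hc) hw with rfl | rfl
  · exact absurd (StRep.eq_one_of_mem_Bo_Um T.faith (StRep.mem_cell_one.1 hc) (VL_le_Um hv.1)) h2
  obtain ⟨u, hu, n, -, hn, u', hu', e⟩ := Tw.bruhat (F.fix hv.2) hc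
  rw [Tw.Uw_lg] at hu'
  have h4 : n ∈ ρ.LJ (T.S.orb i) := by
    obtain ⟨l, hl, e⟩ := C.mem_WJ_iff.1 hw
    have := (StRep.nW_nw l).inv_mul_mem_H (e ▸ hn)
    rw [← mul_inv_cancel_left (ρ.nw l) n]
    exact mul_mem (GJ_le_LJ (nw_mem_U hl)) (H_mem_LJ this)
  have h5 : u ∈ ρ.LJ (T.S.orb i) := by
    rw [show u = v * u'⁻¹ * n⁻¹ by rw [e]; group]
    exact mul_mem (mul_mem h3 (inv_mem (ρ.UL_le_LJ _ hu'.1))) (inv_mem h4)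
  exact ⟨u, im (mem_UL T.faith hu.1 h5) (F.Up_le hu), n, hn, u', im hu'.1 (F.pos i hu'), e⟩

theorem exists_n_LG (hJ : T.S.Stab J) {w : Equiv.Perm ι} (hw : w ∈ T.S.Wf) (hw' : w ∈ C.WJ J) :
    ∃ n ∈ LG ρ G1 J, ρ.NW n w := by
  refine hJ.induction (q := fun w => ∃ n ∈ LG ρ G1 J, ρ.NW n w) ⟨1, one_mem _, nW_one⟩ ?_ hw hw'
  rintro w - - i hi - ⟨n, h1, h2⟩
  obtain ⟨v, hv, h3, h4⟩ := F.neg i
  obtain ⟨b, hb, m, hm, b', hb', e⟩ := rank_one F (im h3 hv) h4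
  have k : ∀ r, C.InSub (T.S.orb i) r → C.InSub J r := fun r hr k hk =>
    hr k fun h => hk (hJ.orb_subset hi h)
  have k1 : ∀ b ∈ ρ.UL (T.S.orb i) ⊓ G1, b ∈ LG ρ G1 J := fun b hb =>
    UL_mem_LG (im (ρ.U_mono (fun r hr => And.intro hr.1 (k r hr.2)) hb.1) hb.2)
  refine ⟨n * m, mul_mem h1 ?_, h2.mul hm⟩
  rw [show m = b⁻¹ * v * b'⁻¹ by rw [e]; group]
  exact mul_mem (mul_mem (inv_mem (k1 b hb)) (VL_mem_LG (im (ρ.U_mono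
    (fun r hr => And.intro hr.1 (k r hr.2)) h3) hv))) (inv_mem (k1 b' hb'))

theorem exists_PJ (hJ : T.S.Stab J) (hg : g ∈ ρ.PJ J ⊓ G1) :
    ∃ z ∈ ρ.H ⊓ G1, ∃ l ∈ LG ρ G1 J, ∃ u ∈ ρ.UJ J ⊓ G1, g = z * l * u := by
  obtain ⟨w, hw, hc⟩ := StRep.mem_PJ_iff.1 hg.1
  obtain ⟨u, hu, n, hn, hn', u', hu', rfl⟩ := F.bruhat hg.2 hc
  obtain ⟨m, hm, hm'⟩ := exists_n_LG F hJ (Tw.mem_Wf_of_cell (F.fix hg.2) hc) hw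
  obtain ⟨a, ha, b, hb, rfl⟩ := split_U F hJ (im hu.1 (F.Up_le hu))
  obtain ⟨a', ha', b', hb', rfl⟩ := split_U F hJ (im (ρ.Uw_le_Up w hu'.1) (F.Uw_le
    (Tw.mem_Wf_of_cell (F.fix hg.2) hc) hu'))
  have hz : n * m⁻¹ ∈ ρ.H ⊓ G1 := im (hn'.mul_inv_mem_H hm') (mul_mem hn (inv_mem (LG_le_G1 hm)))
  have h1 := mul_mem hm (UL_mem_LG ha')
  have h2 := mul_mem (H_mem_LJ (J := J) hz.1) (LG_le_LJ h1)
  refine ⟨_, hz, _, mul_mem (H_conj_LG (inv_mem hz) (UL_mem_LG ha)) h1, _, mul_mem (cj'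
    (mul_mem hz.2 (LG_le_G1 h1)) hb.2 (LJ_conj_mem_UJ' h2 hb.1)) hb', by group⟩

theorem mul_n (hv : v ∈ ρ.Um ⊓ G1) (hn : n ∈ G1) (hn' : ρ.NW n (T.S.s i))
    (hx : x ∈ ρ.UL (T.S.orb i) ⊓ G1) {y h y' : G} (hy : y ∈ ρ.VL (T.S.orb i) ⊓ G1)
    (hy' : y' ∈ ρ.UL (T.S.orb i) ⊓ G1) (e : x * n = y * h * y') :
    ∃ v' ∈ ρ.Um ⊓ G1, ∃ u' ∈ ρ.UL (T.S.orb i) ⊓ G1, x * v * n = v' * h * u' := by
  obtain ⟨a, ha, b, hb, rfl⟩ := split_V F (T.S.stab_orb i) hv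
  have h1 := cj hx.2 ha.2 (VJ_le_Um (LJ_conj_mem_VJ (ρ.UL_le_LJ _ hx.1) ha.1))
  have h2 := cj (inv_mem hn) hb.2 (s_conj_VL (nW_s_inv' hn') hb.1)
  refine ⟨_, mul_mem h1 (im (VL_le_Um hy.1) hy.2), _, mul_mem hy' h2, ?_⟩
  calc _ = x * a * x⁻¹ * (x * n) * (n⁻¹ * b * n⁻¹⁻¹) := by group
    _ = _ := by rw [e]; group

theorem exists_x_n (hn : n ∈ G1) (hn' : ρ.NW n (T.S.s i)) : ∃ x ∈ ρ.UL (T.S.orb i) ⊓ G1,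
    ∃ y ∈ ρ.VL (T.S.orb i) ⊓ G1, ∃ h ∈ ρ.H ⊓ G1, ∃ y' ∈ ρ.UL (T.S.orb i) ⊓ G1,
      x * n = y * h * y' := by
  obtain ⟨v, hv, h3, h4⟩ := F.neg i
  obtain ⟨b, hb, m, hm, b', hb', e⟩ := rank_one F (im h3 hv) h4
  have h5 := hn'.mul hm
  rw [lg_mul_self] at h5
  have h6 : m ∈ G1 := by
    rw [show m = b⁻¹ * v * b'⁻¹ by rw [e]; group]
    exact mul_mem (mul_mem (inv_mem hb.2) hv) (inv_mem hb'.2)
  exact ⟨_, cj hn hv (s_conj_VL hn' h3), _, cj hn hb.2 (s_conj_UL hn' hb.1), _,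
    im h5.mem_H (mul_mem hn h6), b', hb', by rw [e]; group⟩

/-- Left multiplication into the big cell with Levi component in `LG`. -/
theorem step (hJ : T.S.Stab J) {a : B} (ha : a ∉ J) (hall : ∀ i ∉ J, i ∈ T.S.orb a) {na : G}
    (h1 : na ∈ G1) (h2 : ρ.NW na (T.S.s a)) (hx : ∀ z ∈ ρ.H ⊓ G1, ∃ x ∈ ρ.UL (T.S.orb a) ⊓ G1,
      ∃ y ∈ ρ.VL (T.S.orb a) ⊓ G1, ∃ h, ∃ y' ∈ ρ.UL (T.S.orb a) ⊓ G1, x * na = y * h * y' ∧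
        h * z ∈ LG ρ G1 J) {w : Equiv.Perm ι} (hw : w ∈ T.S.Wf) (hw' : w ∉ C.WJ J)
    (hv : v ∈ ρ.Um ⊓ G1) (hn : n ∈ G1) (hn' : ρ.NW n w) {p : G} (hp : p ∈ ρ.PJ J ⊓ G1) :
    ∃ x ∈ ρ.Up ⊓ G1, ∃ v' ∈ ρ.VJ J ⊓ G1, ∃ l ∈ LG ρ G1 J, ∃ u ∈ ρ.UJ J ⊓ G1,
      x * (v * n * p) = v' * l * u := by
  induction hk : C.length w using Nat.strong_induction_on generalizing w v n p with
  | _ k ih =>
  obtain ⟨i, hi⟩ := C.exists_descent (inv_mem (Sym.Wf_le_W hw))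
    (fun h => hw' (by rw [inv_eq_one.1 h]; exact one_mem _))
  have hs := T.S.s_mem_Wf i
  by_cases h3 : T.S.s i * w ∈ C.WJ J
  · have h4 : i ∉ J := fun h => hw' (by
      simpa [← mul_assoc, lg_mul_self] using mul_mem (C.WJ_mono (hJ.orb_subset h) (lg_mem _)) h3)
    have e : T.S.s i = T.S.s a := congrArg (lg _) (T.S.orb_eq_of_mem (hall i h4))
    have h5 := ((nW_s_inv' h2).mul hn').mem_PJ (e ▸ h3)
    obtain ⟨z, hz, l, hl, u, hu, e1⟩ := exists_PJ F hJ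
      (mul_mem (im h5 (mul_mem (inv_mem h1) hn)) hp)
    obtain ⟨x, k1, y, k2, h, y', k3, e2, k4⟩ := hx z hz
    obtain ⟨v', k5, u', k6, e3⟩ := mul_n F hv h1 h2 k1 k2 k3 e2
    obtain ⟨v₁, k7, v₂, k8, rfl⟩ := split_V F hJ k5
    have k9 : ρ.UL (T.S.orb a) ≤ ρ.UJ J := ρ.U_mono fun r hr => ⟨hr.1, fun h =>
      C.not_inSub_empty r fun k _ => (em (k ∈ J)).elim (fun hk => hr.2 k fun h' =>
        ha (T.S.orb_eq_of_mem h' ▸ T.S.mem_orb_self a |> hJ.orb_subset hk)) (h k)⟩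
    have k10 := mul_mem (H_mem_LJ (J := J) hz.1) (LG_le_LJ hl)
    refine ⟨x, im (ρ.UL_le_Up _ k1.1) k1.2, v₁, k7, _, mul_mem (mul_mem (VL_mem_LG k8) k4) hl, _,
      mul_mem (cj' (mul_mem hz.2 (LG_le_G1 hl)) k6.2 (LJ_conj_mem_UJ' k10 (k9 k6.1))) hu, ?_⟩
    calc _ = x * v * na * (na⁻¹ * n * p) := by group
      _ = _ := by rw [e3, e1]; group
  obtain ⟨m, hm, hm'⟩ := F.exists_n_s i
  obtain ⟨x, k1, y, k2, h, k3, y', k4, e⟩ := exists_x_n F hm hm'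
  obtain ⟨v', k5, u', k6, e3⟩ := mul_n F hv hm hm' k1 k2 k4 e
  have k7 := (nW_s_inv' hm').mul hn'
  have k8 := mul_mem (inv_mem hm) hn
  have hw1 := inv_mem (mul_mem hs hw)
  have k9 : C.Pos ((T.S.s i * w)⁻¹ (C.simple i)) := by
    rw [mul_inv_rev, lg_inv]; exact (Sym.pos_mul_s_iff (inv_mem hw) i).2 hi
  have k10 := cj' k8 k6.2 (k7.acts.inv_conj_mem_U (T := {r | C.Pos r})
    (fun r hr => Sym.pos_of_orb hw1 k9 hr.1 hr.2) k6.1)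
  obtain ⟨x', j1, j2⟩ := ih (C.length (T.S.s i * w)) (by
    have := Sym.length_mul_s hw1 k9
    rw [C.length_inv (Sym.mem_Aut (mul_mem hs hw)), mul_inv_rev, lg_inv, mul_assoc, lg_mul_self,
      mul_one, C.length_inv (Sym.mem_Aut hw)] at this
    have : 0 < C.length (T.S.s i) := length_lg_pos (T.S.mem_orb_self i)
    omega) (mul_mem hs hw) h3 k5 (mul_mem k3.2 k8) (by simpa using (nW_of_mem_H k3.1).mul k7)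
    (mul_mem (im (ρ.Bo_le_PJ J (ρ.Up_le_Bo k10.1)) k10.2) hp) rfl
  refine ⟨x' * x, mul_mem j1 (im (ρ.UL_le_Up _ k1.1) k1.2), ?_⟩
  rwa [show x' * x * (v * n * p) = x' * (x * v * m * (m⁻¹ * n * p)) by group, e3,
    show x' * (v' * h * u' * (m⁻¹ * n * p)) = x' * (v' * (h * (m⁻¹ * n)) *
      ((m⁻¹ * n)⁻¹ * u' * (m⁻¹ * n) * p)) by group]

omit F in
theorem exists_conj_not_mem [IsSimpleGroup G1] (hn : n ∈ G1) (hn' : n ∉ ρ.PJ J) (hg : g ∈ G1)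
    (h1 : g ≠ 1) : ∃ y ∈ G1, y * g * y⁻¹ ∉ ρ.PJ J := by
  by_contra! h
  rcases ((ρ.PJ J).subgroupOf G1).normalCore_normal.eq_bot_or_eq_top with e | e
  · have : (⟨g, hg⟩ : G1) ∈ ((ρ.PJ J).subgroupOf G1).normalCore := fun y => h y y.2
    rw [e, Subgroup.mem_bot] at this
    exact h1 (congrArg Subtype.val this)
  · exact hn' (((ρ.PJ J).subgroupOf G1).normalCore_le (e.ge (Subgroup.mem_top (⟨n, hn⟩ : G1))))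

theorem exists_cell_not_mem (hg : g ∈ G1) (h : g ∉ ρ.PJ J) : ∃ y ∈ G1, ∃ w ∈ T.S.Wf, w ∉ C.WJ J ∧
    ∃ n ∈ G1, ρ.NW n w ∧ ∃ u ∈ ρ.Up ⊓ G1, y * g * y⁻¹ = n * u := by
  obtain ⟨w, hw, hc⟩ := F.exists_cell hg
  obtain ⟨u, hu, n, hn, hn', u', hu', rfl⟩ := F.bruhat hg hc
  exact ⟨_, inv_mem (F.Up_le hu), w, hw, fun h' => h (StRep.mem_PJ_iff.2 ⟨w, h', hc⟩), n, hn, hn', _,
    mul_mem (im (ρ.Uw_le_Up w hu'.1) (F.Uw_le hw hu')) (im hu.1 (F.Up_le hu)), by group⟩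

omit F in
/-- Products of two conjugates from fixed point free elements of a Levi subgroup. -/
theorem exists_conj_mul' [Finite G] {x' l : G} (hx : x ∈ ρ.LJ J ⊓ G1) (hx' : x' ∈ ρ.LJ J ⊓ G1)
    (h1 : ∀ y ∈ ρ.VJ J, Commute x y → y = 1) (h2 : ∀ y ∈ ρ.UJ J, Commute x' y → y = 1) {a b : G}
    (ha : a ∈ ρ.LJ J ⊓ G1) (hb : b ∈ ρ.LJ J ⊓ G1) (hl : l = a * x * a⁻¹ * (b * x' * b⁻¹))
    (hv : v ∈ ρ.VJ J ⊓ G1) (hu : u ∈ ρ.UJ J ⊓ G1) :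
    ∃ a ∈ G1, ∃ b ∈ G1, v * l * u = a * x * a⁻¹ * (b * x' * b⁻¹) := by
  obtain ⟨y, hy, e⟩ := exists_conj_of_fpf (Q := ρ.VJ J ⊓ G1)
    (fun _ h => cj hx.2 h.2 (LJ_conj_mem_VJ hx.1 h.1)) (fun y hy => h1 y hy.1)
    (cj (inv_mem ha.2) hv.2 (LJ_conj_mem_VJ (inv_mem ha.1) hv.1))
  have h3 := cj (inv_mem hb.2) hu.2 (LJ_conj_mem_UJ (inv_mem hb.1) hu.1)
  obtain ⟨y', hy', e'⟩ := exists_conj_of_fpf (Q := ρ.UJ J ⊓ G1)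
    (fun _ h => cj hx'.2 h.2 (LJ_conj_mem_UJ hx'.1 h.1)) (fun y hy => h2 y hy.1)
    (cj hx'.2 h3.2 (LJ_conj_mem_UJ hx'.1 h3.1))
  refine ⟨a * y, mul_mem ha.2 hy.2, b * y', mul_mem hb.2 hy'.2, ?_⟩
  calc _ = a * (a⁻¹ * v * a⁻¹⁻¹ * x) * a⁻¹ * (b * (x' * (b⁻¹ * u * b⁻¹⁻¹) * x'⁻¹ * x') * b⁻¹) := by
        rw [hl]; group
    _ = _ := by rw [← e, ← e']; group

end CF.BN.TG
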