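import Cfsg.Agent.BN.MdA

/-!
# Joint eigenspaces of root subgroups
-/

set_option autoImplicit false

namespace CF.BN.Md

open Module Finset

variable {ι : Type*} {k : Type*} [Field k] {Γ : Type*} [Group Γ]
  {V : Type*} [NormedAddCommGroup V] [InnerProductSpace ℂ V]
  (τ : Γ →* End ℂ V) (ψ : AddChar k ℂ) (x : ι → k → Γ)

/-- Joint eigenspaces. -/
def Sp (R : List (ι × k)) (Z : List ι) : Submodule ℂ V :=
  (⨅ p ∈ R, Eg τ ψ (x p.1) p.2) ⊓ ⨅ s ∈ Z, Eg τ ψ (x s) 0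

/-- Dimensions of joint eigenspaces. -/
noncomputable def Dm (R : List (ι × k)) (Z : List ι) : ℕ := finrank ℂ (Sp τ ψ x R Z)

/-- The subgroup generated by a list of one-parameter subgroups. -/
def Ul (L : List ι) : Subgroup Γ := Subgroup.closure {g | ∃ s ∈ L, ∃ t, g = x s t}

/-- Commutation modulo a subgroup. -/
def Kr (r s : ι) (L : List ι) : Prop := ∀ t u, ∃ y ∈ Ul x L, x r t * x s u = x s u * x r t * y

/-- Heisenberg commutation modulo a subgroup. -/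
def Hs (r s γ : ι) (L : List ι) : Prop := ∃ f : k → k, Function.Surjective f ∧
  ∀ t u, ∃ y ∈ Ul x L, x r t * x s u = x s u * x r t * (x γ (f u * t) * y)

/-- Monomial action. -/
def Mon (g : Γ) (w : ι → ι) (e : ι → k) : Prop :=
  (∀ r, e r ≠ 0) ∧ ∀ r t, g * x r t * g⁻¹ = x (w r) (e r * t)

/-- The standing hypotheses. -/
structure Cx (ok : ι → ι → List ι → Prop) : Prop where
  un : Un τ
  ne : ψ ≠ 1
  add : ∀ r t u, x r (t + u) = x r t * x r u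
  kr : ∀ r s L, ok r s L → Kr x r s L

variable {τ ψ x} {R R' : List (ι × k)} {Z Z' L : List ι} {v : V} {g : Γ} {r s β γ δ : ι} {c : k}
  {w : ι → ι} {e : ι → k} {ok : ι → ι → List ι → Prop}

theorem mem_Sp : v ∈ Sp τ ψ x R Z ↔
    (∀ p ∈ R, v ∈ Eg τ ψ (x p.1) p.2) ∧ ∀ s ∈ Z, v ∈ Eg τ ψ (x s) 0 := by
  simp only [Sp, Submodule.mem_inf, Submodule.mem_iInf]

theorem Sp_consR : Sp τ ψ x ((r, c) :: R) Z = Sp τ ψ x R Z ⊓ Eg τ ψ (x r) c := by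
  ext v; simp only [mem_Sp, List.forall_mem_cons, Submodule.mem_inf]; tauto

theorem Sp_consZ (h : ∀ s, s ∈ Z' ↔ s ∈ r :: Z) :
    Sp τ ψ x R Z' = Sp τ ψ x R Z ⊓ Eg τ ψ (x r) 0 := by
  ext v; simp only [mem_Sp, h, List.forall_mem_cons, Submodule.mem_inf]; tauto

theorem Dm_consR : Dm τ ψ x ((r, c) :: R) Z =
    finrank ℂ (Sp τ ψ x R Z ⊓ Eg τ ψ (x r) c : Submodule ℂ V) := by rw [Dm, Sp_consR]

theorem Dm_cons0 (h : ∀ s, s ∈ Z' ↔ s ∈ r :: Z) : Dm τ ψ x ((r, 0) :: R) Z = Dm τ ψ x R Z' := by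
  rw [Dm_consR, ← Sp_consZ h, Dm]

theorem Sp_nil : Sp τ ψ x [] [] = ⊤ := by simp [Sp]

theorem Sp_le (h1 : ∀ p ∈ R', p ∈ R) (h2 : ∀ s ∈ Z', s ∈ Z) : Sp τ ψ x R Z ≤ Sp τ ψ x R' Z' :=
  fun _ hv => mem_Sp.2 ⟨fun p hp => (mem_Sp.1 hv).1 p (h1 p hp), fun p hp => (mem_Sp.1 hv).2 p (h2 p hp)⟩

theorem Dm_Z (h : ∀ s, s ∈ Z ↔ s ∈ Z') : Dm τ ψ x R Z = Dm τ ψ x R Z' := by
  rw [Dm, Dm, le_antisymm (Sp_le (fun _ => id) fun s => (h s).2) (Sp_le (fun _ => id) fun s => (h s).1)]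

theorem Dm_swap (p p' : ι × k) : Dm τ ψ x [p, p'] Z = Dm τ ψ x [p', p] Z := by
  rw [Dm, Dm, le_antisymm (Sp_le (R := [p, p']) (R' := [p', p]) (by simp) fun _ => id)
    (Sp_le (by simp) fun _ => id)]

omit [Field k] in
theorem x_mem_Ul (h : s ∈ L) (t : k) : x s t ∈ Ul x L := Subgroup.subset_closure ⟨s, h, t, rfl⟩

omit [Field k] in
theorem Ul_le {H : Subgroup Γ} (h : ∀ s ∈ L, ∀ t, x s t ∈ H) : Ul x L ≤ H :=
  (Subgroup.closure_le H).2 (by rintro _ ⟨s, hs, t, rfl⟩; exact h s hs t)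

theorem Ul_le_Pt : Ul x Z ≤ Pt τ (Sp τ ψ x R Z) :=
  Ul_le fun s hs t _ hv => mem_Eg_zero.1 ((mem_Sp.1 hv).2 s hs) t

omit [Field k] in
theorem Kr.commute (h : Kr x r s []) (t u : k) : x r t * x s u = x s u * x r t := by
  obtain ⟨y, hy, e⟩ := h t u
  rw [e, Subgroup.mem_bot.1 (Ul_le (H := ⊥) (by simp) hy), mul_one]

theorem Kr.map_mem (h : Kr x s r Z) (hv : v ∈ Sp τ ψ x R Z) (h1 : v ∈ Eg τ ψ (x s) c) (u : k) :
    τ (x r u) v ∈ Eg τ ψ (x s) c := fun t => by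
  obtain ⟨y, hy, e⟩ := h t u
  rw [← ap_mul, e, ap_mul, ap_mul, Ul_le_Pt hy v hv, h1, map_smul]

theorem Mon.mem (h : Mon x g w e) (hv : v ∈ Eg τ ψ (x r) (c * e r)) :
    τ g v ∈ Eg τ ψ (x (w r)) c := by
  have := map_mem_Eg (g := g) (y := x (w r)) (e := (e r)⁻¹) hv fun t => by
    rw [← mul_inv_cancel_left₀ (h.1 r) t, ← h.2, inv_mul_cancel_left₀ (h.1 r)]; group
  rwa [mul_inv_cancel_right₀ (h.1 r)] at this

theorem Mon.mem' (h : Mon x g w e) (hv : v ∈ Eg τ ψ (x (w r)) c) :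
    τ g⁻¹ v ∈ Eg τ ψ (x r) (c * e r) := map_mem_Eg hv fun t => by rw [inv_inv, h.2]

theorem Mon.mem0 (h : Mon x g w e) (hv : v ∈ Eg τ ψ (x r) 0) : τ g v ∈ Eg τ ψ (x (w r)) 0 :=
  h.mem (by rwa [zero_mul])

theorem Mon.mem0' (h : Mon x g w e) (hv : v ∈ Eg τ ψ (x (w r)) 0) : τ g⁻¹ v ∈ Eg τ ψ (x r) 0 := by
  simpa using h.mem' hv

theorem Mon.mem_Sp (h : Mon x g w e) (hv : v ∈ Sp τ ψ x (R.map fun p => (p.1, p.2 * e p.1)) Z) :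
    τ g v ∈ Sp τ ψ x (R.map fun p => (w p.1, p.2)) (Z.map w) := by
  rw [Md.mem_Sp, List.forall_mem_map, List.forall_mem_map] at *
  exact ⟨fun p hp => h.mem (hv.1 p hp), fun s hs => h.mem0 (hv.2 s hs)⟩

theorem Mon.mem_Sp' (h : Mon x g w e) (hv : v ∈ Sp τ ψ x (R.map fun p => (w p.1, p.2)) (Z.map w)) :
    τ g⁻¹ v ∈ Sp τ ψ x (R.map fun p => (p.1, p.2 * e p.1)) Z := by
  rw [Md.mem_Sp, List.forall_mem_map, List.forall_mem_map] at *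
  exact ⟨fun p hp => h.mem' (hv.1 p hp), fun s hs => h.mem0' (hv.2 s hs)⟩

theorem Mon.mul {g' : Γ} {w' : ι → ι} {e' : ι → k} (h : Mon x g w e) (h' : Mon x g' w' e') :
    Mon x (g * g') (w ∘ w') fun r => e (w' r) * e' r :=
  ⟨fun r => mul_ne_zero (h.1 _) (h'.1 _), fun r t => by
    rw [Function.comp, mul_assoc (e _), ← h.2, ← h'.2]; group⟩

theorem Mon.st [Finite Γ] (hM : Mon x g id e) (h0 : ∀ p ∈ R, e p.1 = 1) :
    g ∈ St τ (Sp τ ψ x R Z) := fun v hv => by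
  simpa using hM.mem_Sp (τ := τ) (ψ := ψ) (v := v) (R := R) (Z := Z) (by
    rwa [List.map_congr_left (g := id) fun p hp => by simp [h0 p hp], List.map_id])

variable [FiniteDimensional ℂ V]

theorem Dm_le (h1 : ∀ p ∈ R', p ∈ R) (h2 : ∀ s ∈ Z', s ∈ Z) : Dm τ ψ x R Z ≤ Dm τ ψ x R' Z' :=
  Submodule.finrank_mono (Sp_le h1 h2)

theorem Mon.dm (h : Mon x g w e) (R : List (ι × k)) (Z : List ι) :
    Dm τ ψ x (R.map fun p => (w p.1, p.2)) (Z.map w) =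
      Dm τ ψ x (R.map fun p => (p.1, p.2 * e p.1)) Z :=
  le_antisymm (finrank_le_of_map g⁻¹ fun _ => h.mem_Sp') (finrank_le_of_map g fun _ => h.mem_Sp)

theorem Mon.dm1 (h : Mon x g w e) (r : ι) (c : k) (Z : List ι) (h1 : ∀ s, s ∈ Z' ↔ s ∈ Z.map w) :
    Dm τ ψ x [(w r, c)] Z' = Dm τ ψ x [(r, c * e r)] Z := (Dm_Z h1).trans (h.dm [(r, c)] Z)

theorem Mon.dm2 (h : Mon x g w e) (r s : ι) (c d : k) (Z : List ι) (h1 : ∀ s, s ∈ Z' ↔ s ∈ Z.map w) :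
    Dm τ ψ x [(w r, c), (w s, d)] Z' = Dm τ ψ x [(r, c * e r), (s, d * e s)] Z :=
  (Dm_Z h1).trans (h.dm [(r, c), (s, d)] Z)

theorem tor1 (h : ∀ a ≠ 0, ∃ g e, Mon x g id e ∧ e r = a) (hc : c ≠ 0) (Z : List ι) :
    Dm τ ψ x [(r, c)] Z = Dm τ ψ x [(r, 1)] Z := by
  obtain ⟨g, e, h1, rfl⟩ := h c hc
  simpa using (h1.dm1 (τ := τ) (ψ := ψ) r 1 Z (Z' := Z) (by simp)).symm

theorem tor2 (h : ∀ a ≠ 0, ∀ b ≠ 0, ∃ g e, Mon x g id e ∧ e r = a ∧ e s = b) (hc : c ≠ 0) {d : k}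
    (hd : d ≠ 0) (Z : List ι) : Dm τ ψ x [(r, c), (s, d)] Z = Dm τ ψ x [(r, 1), (s, 1)] Z := by
  obtain ⟨g, e, h1, rfl, rfl⟩ := h c hc d hd
  simpa using (h1.dm2 (τ := τ) (ψ := ψ) r s 1 1 Z (Z' := Z) (by simp)).symm

omit [FiniteDimensional ℂ V] in
theorem Cx.map_mem (H : Cx τ ψ x ok) (h : ∀ s ∈ R.map Prod.fst ++ Z, ok s r Z) (t : k) :
    ∀ v ∈ Sp τ ψ x R Z, τ (x r t) v ∈ Sp τ ψ x R Z := fun _ hv =>
  mem_Sp.2 ⟨fun p hp => (H.kr _ _ _ (h _ (List.mem_append_left _ (List.mem_map_of_mem hp)))).map_mem hv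
    ((mem_Sp.1 hv).1 p hp) t, fun s hs => (H.kr _ _ _ (h _ (List.mem_append_right _ hs))).map_mem hv
    ((mem_Sp.1 hv).2 s hs) t⟩

variable [Fintype k] [DecidableEq k]

omit [DecidableEq k] in
theorem Cx.dec' (H : Cx τ ψ x ok) (r : ι) (h : ∀ s ∈ R.map Prod.fst ++ Z, ok s r Z) :
    Dm τ ψ x R Z = ∑ c, Dm τ ψ x ((r, c) :: R) Z := by
  simp only [Dm_consR]
  exact H.un.finrank_eq_sum H.ne (H.add r) (H.map_mem h)

theorem Cx.dec (H : Cx τ ψ x ok) (r : ι) (Z' : List ι) (h : ∀ s ∈ R.map Prod.fst ++ Z, ok s r Z)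
    (h1 : ∀ s, s ∈ Z' ↔ s ∈ r :: Z) :
    Dm τ ψ x R Z = Dm τ ψ x R Z' + ∑ c ∈ univ.erase 0, Dm τ ψ x ((r, c) :: R) Z := by
  rw [H.dec' r h, ← add_sum_erase _ _ (mem_univ 0), Dm_cons0 h1]

theorem sum_erase_ge {f : k → ℕ} {a : ℕ} (h : ∀ c ≠ 0, a ≤ f c) :
    (Fintype.card k - 1) * a ≤ ∑ c ∈ univ.erase 0, f c := by
  simpa using card_nsmul_le_sum (univ.erase 0) f a fun c hc => h c (ne_of_mem_erase hc)

theorem sum_erase_eq {f : k → ℕ} {a : ℕ} (h : ∀ c ≠ 0, f c = a) :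
    ∑ c ∈ univ.erase 0, f c = (Fintype.card k - 1) * a := by
  rw [sum_congr rfl fun c hc => h c (ne_of_mem_erase hc)]; simp

theorem Cx.dec_eq (H : Cx τ ψ x ok) (r : ι) (Z' : List ι) (h : ∀ s ∈ R.map Prod.fst ++ Z, ok s r Z)
    (h1 : ∀ s, s ∈ Z' ↔ s ∈ r :: Z) {a : ℕ} (h2 : ∀ c ≠ 0, Dm τ ψ x ((r, c) :: R) Z = a) :
    Dm τ ψ x R Z = Dm τ ψ x R Z' + (Fintype.card k - 1) * a := by
  rw [H.dec r Z' h h1, sum_erase_eq h2]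

theorem Cx.dec_ge (H : Cx τ ψ x ok) (r : ι) (Z' : List ι) (h : ∀ s ∈ R.map Prod.fst ++ Z, ok s r Z)
    (h1 : ∀ s, s ∈ Z' ↔ s ∈ r :: Z) {a : ℕ} (h2 : ∀ c ≠ 0, a ≤ Dm τ ψ x ((r, c) :: R) Z) :
    Dm τ ψ x R Z' + (Fintype.card k - 1) * a ≤ Dm τ ψ x R Z := by
  rw [H.dec r Z' h h1]; exact Nat.add_le_add_left (sum_erase_ge h2) _

omit [Fintype k] [DecidableEq k] in
theorem shift {a b : k} (h : ∀ v ∈ Sp τ ψ x R Z, τ g v ∈ Sp τ ψ x R Z)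
    (h1 : ∀ t, ∀ v ∈ Sp τ ψ x R Z, τ (x β t) (τ g v) = ψ (a * t) • τ g (τ (x β t) v)) :
    Dm τ ψ x ((β, b) :: R) Z ≤ Dm τ ψ x ((β, a + b) :: R) Z := by
  simp only [Dm_consR]
  exact finrank_le_of_map g fun v hv => ⟨h v hv.1, fun t => by
    rw [h1 t v hv.1, hv.2, map_smul, smul_smul, ← AddChar.map_add_eq_mul, add_mul]⟩

theorem Cx.heis (H : Cx τ ψ x ok) (h0 : Hs x β δ γ Z) (Z' : List ι) (hc : c ≠ 0) (hR : (γ, c) ∈ R)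
    (h : ∀ r ∈ [β, δ], ∀ s ∈ R.map Prod.fst ++ Z, ok s r Z) (h1 : ∀ s, s ∈ Z' ↔ s ∈ β :: Z) :
    Dm τ ψ x R Z = Fintype.card k * Dm τ ψ x R Z' := by
  obtain ⟨f, hf, e⟩ := h0
  have key : ∀ a b, Dm τ ψ x ((β, a) :: R) Z ≤ Dm τ ψ x ((β, b) :: R) Z := fun a b => by
    obtain ⟨u, hu⟩ := hf ((b - a) / c)
    have := shift (β := β) (a := c * f u) (b := a) (H.map_mem (h δ (by simp)) u) fun t v hv => by
      obtain ⟨y, hy, e⟩ := e t u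
      rw [← ap_mul, e, ap_mul, ap_mul, ap_mul, Ul_le_Pt hy v hv, (mem_Sp.1 hv).1 _ hR, map_smul,
        map_smul, mul_assoc]
    rwa [hu, mul_div_cancel₀ _ hc, sub_add_cancel] at this
  rw [H.dec' β (h β (by simp)), sum_congr rfl fun c _ => le_antisymm (key c 0) (key 0 c)]
  simp [Dm_cons0 h1]

omit [Fintype k] [DecidableEq k] in
theorem Cx.tl [Finite Γ] (H : Cx τ ψ x ok) (hM : Mon x g id e) (h0 : ∀ p ∈ R, e p.1 = 1) (hr : e r ≠ 1)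
    (h : ∀ s ∈ R.map Prod.fst ++ Z, ok s r Z) (hD : Dm τ ψ x R Z ≤ 1) :
    Sp τ ψ x R Z ≤ Eg τ ψ (x r) 0 := fun v hv => mem_Eg_zero.2 fun t => by
  have h2 := comm_mem_Pt hD (hM.st h0) (H.map_mem h (t / (e r - 1))) v hv
  have h3 : x r (e r * (t / (e r - 1))) = x r t * x r (t / (e r - 1)) := by
    rw [← H.add]; congr 1; have := sub_ne_zero.2 hr; field_simp; ring
  rwa [hM.2, id, h3, mul_inv_cancel_right] at h2

end CF.BN.Md
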