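import Cfsg.Agent.BN.MdG
import Cfsg.Agent.BN.TwG2

/-!
# Degrees of representations of `G₂(q)`, `q` prime to three
-/

set_option autoImplicit false
set_option synthInstance.maxSize 1024

namespace CF.BN.Md

open Module Finset CF.Chev Cfsg.Lie

/-- The commutator check. -/
def okG (p : ℤ) (r s : Fin 12) (L : List (Fin 12)) : Prop :=
  (r = s ∨ r ≠ s.rev) ∧ ∀ c ∈ chevG2.commTerms s r, p ∣ c.2.1 ∨ c.1 ∈ L.map Fin.val

instance instDecidableOkG (p : ℤ) (r s : Fin 12) (L : List (Fin 12)) : Decidable (okG p r s L) := by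
  unfold okG; infer_instance

/-- The reflection in `a`. -/
def wa : Fin 12 → Fin 12 := ![0, 5, 3, 2, 7, 1, 10, 4, 9, 8, 6, 11]
/-- The reflection in `b`. -/
def wb : Fin 12 → Fin 12 := ![1, 0, 2, 4, 3, 6, 5, 8, 7, 9, 11, 10]
/-- The reflection in `2a+b`. -/
def wf : Fin 12 → Fin 12 := ![10, 11, 9, 7, 8, 5, 6, 3, 4, 2, 0, 1]
/-- The reflection in `3a+2b`. -/
def wt : Fin 12 → Fin 12 := ![11, 6, 8, 9, 4, 10, 1, 7, 2, 3, 5, 0]

theorem neg_G2 : ∀ r : Fin 12, cG2.neg r = r.rev := by decide +kernel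

variable {K : Type*} [Field K] {G : Type*} [Group G] (ρ : StRep cG2 K G)

theorem krG {p : ℤ} (hp : (p : K) = 0) (r s : Fin 12) (L : List (Fin 12)) (h : okG p r s L) :
    Kr ρ.x r s L := fun t u => by
  by_cases e : r = s
  · subst e; exact ⟨1, one_mem _, by rw [mul_one, (ρ.x_comm_self r t u).eq]⟩
  have h1 : r ≠ cG2.neg s := neg_G2 s ▸ h.1.resolve_left e
  refine ⟨_, ?_, ρ.comm' e h1 u t⟩
  refine Subgroup.list_prod_mem _ fun y hy => ?_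
  simp only [List.mem_map, LieBasis.commWord] at hy
  obtain ⟨_, ⟨c, hc, rfl⟩, rfl⟩ := hy
  rcases h.2 _ ((linkG2.commTerms_eq e h1).symm ▸ List.mem_map_of_mem hc) with ⟨a, h2⟩ | h2
  · simp [show c.2.1 = p * a from h2, hp]
  · obtain ⟨z, hz, e⟩ := List.mem_map.1 h2
    exact x_mem_Ul (Fin.ext e ▸ hz) _

theorem hs_eq (r s γ : Fin 12) (N : ℤ)
    (h : r ≠ s ∧ r ≠ cG2.neg s ∧ chevG2.commTerms s r = [(γ.val, N, 1, 1)]) (t u : K) :
    ρ.x r t * ρ.x s u = ρ.x s u * ρ.x r t * ρ.x γ (-N * u * t) := by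
  simpa [evT] using commG2 ρ.toPreSt s r [(γ, N, 1, 1)] h u t

theorem hsG (r s γ : Fin 12) (N : ℤ) (hN : (N : K) ≠ 0)
    (h : r ≠ s ∧ r ≠ cG2.neg s ∧ chevG2.commTerms s r = [(γ.val, N, 1, 1)]) (L : List (Fin 12)) :
    Hs ρ.x r s γ L :=
  ⟨(-N * ·), mul_left_surjective₀ (neg_ne_zero.2 hN), fun t u =>
    ⟨1, one_mem _, by rw [mul_one, hs_eq ρ r s γ N h]⟩⟩

theorem monH (r : Fin 12) {a : K} (ha : a ≠ 0) :
    Mon ρ.x (ρ.h r (.mk0 a ha)) id fun s => a ^ cG2.A r s :=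
  ⟨fun _ => zpow_ne_zero _ ha, fun s t => by simp [ρ.h_conj_x]⟩

theorem monN (r : Fin 12) (t : Kˣ) (w : Fin 12 → Fin 12)
    (h : ∀ s, cG2.vec (w s) = cG2.vec s - cG2.A r s • cG2.vec r) :
    ∃ e, Mon ρ.x (ρ.n r t) w e := by
  choose c hc using (ρ.acts_n r t).exists_conj_x
  exact ⟨fun s => c s, fun s => (c s).ne_zero, fun s u => by
    rw [hc, cG2.vec_inj ((cG2.vec_refl r s).trans (h s).symm)]⟩

theorem torG (r s : Fin 12) (h : cG2.A r s = 1) (a : K) (ha : a ≠ 0) :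
    ∃ g e, Mon ρ.x g id e ∧ e s = a := ⟨_, _, monH ρ r ha, by simp [h]⟩

theorem vec_wa : ∀ s, cG2.vec (wa s) = cG2.vec s - cG2.A 7 s • cG2.vec 7 := by decide +kernel
theorem vec_wb : ∀ s, cG2.vec (wb s) = cG2.vec s - cG2.A 6 s • cG2.vec 6 := by decide +kernel
theorem vec_wf : ∀ s, cG2.vec (wf s) = cG2.vec s - cG2.A 9 s • cG2.vec 9 := by decide +kernel
theorem vec_wt : ∀ s, cG2.vec (wt s) = cG2.vec s - cG2.A 11 s • cG2.vec 11 := by decide +kernel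

variable {V : Type*} [NormedAddCommGroup V] [InnerProductSpace ℂ V]
  {τ : G →* End ℂ V} {ψ : AddChar K ℂ}

theorem Un.inner_conj (hU : Un τ) {g : G} {v : V} {s : ℂ} (hv : τ g v = s • v) (y : G) :
    inner ℂ v (τ (g⁻¹ * y * g) v) = inner ℂ v (τ y v) := by
  rcases eq_or_ne v 0 with rfl | h0
  · simp
  have h1 := hU g v v
  rw [hv, inner_smul_left, inner_smul_right, ← mul_assoc,
    mul_eq_right₀ (inner_self_ne_zero.2 h0)] at h1
  rw [ap_mul, ap_mul, hU.inner_right, inv_inv, hv, map_smul, inner_smul_left, inner_smul_right,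
    ← mul_assoc, h1, one_mul]

theorem Hs.eq_zero {ι : Type*} {x : ι → K → G} {r s γ : ι} {c : K} (h : Hs x r s γ []) (hψ : ψ ≠ 1)
    (hc : c ≠ 0) {t : K} (ht : t ≠ 0) : ∃ u, ∀ v ∈ Eg τ ψ (x γ) c, τ (x r t) v = v →
      τ (x r t) (τ (x s u) v) = τ (x s u) v → v = 0 := by
  obtain ⟨f, hf, e⟩ := h
  obtain ⟨a, ha⟩ := AddChar.ne_one_iff.1 hψ
  obtain ⟨u, hu⟩ := hf (a / (c * t))
  refine ⟨u, fun v hv h1 h2 => by_contra fun h0 => ha ?_⟩
  obtain ⟨y, hy, e⟩ := e t u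
  rw [← ap_mul, e, Subgroup.mem_bot.1 (Ul_le (H := ⊥) (by simp) hy), mul_one, ap_mul, ap_mul, hv,
    map_smul, h1, map_smul, hu, show c * (a / (c * t) * t) = a by field_simp] at h2
  exact smul_left_injective ℂ (ap_ne_zero _ h0) (h2.trans (one_smul _ _).symm)

variable [FiniteDimensional ℂ V]

theorem codim {A B M : Submodule ℂ V} (hA : A ≤ M) (hB : B ≤ M) :
    finrank ℂ A + finrank ℂ B ≤ finrank ℂ M + finrank ℂ (A ⊓ B : Submodule ℂ V) := by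
  have := Submodule.finrank_sup_add_finrank_inf_eq A B
  have := Submodule.finrank_mono (sup_le hA hB)
  omega

theorem le_comap [Finite G] {P M : Submodule ℂ V} {g : G} (hg : g ∈ St τ M) :
    finrank ℂ (M ⊓ P : Submodule ℂ V) ≤ finrank ℂ (M ⊓ P.comap (τ g) : Submodule ℂ V) :=
  finrank_le_of_map g⁻¹ fun v hv => ⟨inv_mem hg v hv.1, by simpa using hv.2⟩

theorem codim4 {A B C D M : Submodule ℂ V} {n : ℕ} (hA : n ≤ finrank ℂ (M ⊓ A : Submodule ℂ V))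
    (hB : n ≤ finrank ℂ (M ⊓ B : Submodule ℂ V)) (hC : n ≤ finrank ℂ (M ⊓ C : Submodule ℂ V))
    (hD : n ≤ finrank ℂ (M ⊓ D : Submodule ℂ V)) (h : finrank ℂ M ≤ n + 1) (h4 : 4 < finrank ℂ M) :
    ∃ v ∈ M, v ∈ A ∧ v ∈ B ∧ v ∈ C ∧ v ∈ D ∧ v ≠ 0 := by
  have c1 := codim (inf_le_left : M ⊓ A ≤ M) (inf_le_left : M ⊓ B ≤ M)
  have c2 := codim (inf_le_left : M ⊓ C ≤ M) (inf_le_left : M ⊓ D ≤ M)
  have c3 := codim (inf_le_left.trans inf_le_left : M ⊓ A ⊓ (M ⊓ B) ≤ M)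
    (inf_le_left.trans inf_le_left : M ⊓ C ⊓ (M ⊓ D) ≤ M)
  obtain ⟨v, ⟨⟨⟨v1, v2⟩, -, v3⟩, ⟨-, v4⟩, -, v5⟩, v0⟩ :=
    exists_mem_ne_zero (W := M ⊓ A ⊓ (M ⊓ B) ⊓ (M ⊓ C ⊓ (M ⊓ D))) (by omega)
  exact ⟨v, v1, v2, v3, v4, v5, v0⟩

variable {ρ} [Fintype K] [DecidableEq K] [Finite G] (H : Cx τ ψ ρ.x (okG 0)) (h3 : (3 : K) ≠ 0)
  {l : K} (hl : l ≠ 0) (hl3 : l ^ 3 ≠ 1)

local notation "D" => Dm τ ψ (PreSt.x (StRep.toPreSt ρ))
local notation "S" => Sp τ ψ (PreSt.x (StRep.toPreSt ρ))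
local notation "q" => Fintype.card K

omit [Finite G] [Fintype K] [DecidableEq K] in
theorem g2_m1 (c : K) (hc : c ≠ 0) : D [(11, c)] [9, 10] = D [(11, 1)] [9, 10] ∧
    D [(10, c)] [9, 11] = D [(11, 1)] [9, 10] ∧ D [(6, c)] [8, 11] = D [(11, 1)] [9, 10] := by
  obtain ⟨ea, ha⟩ := monN ρ 7 1 wa vec_wa
  obtain ⟨eb, hb⟩ := monN ρ 6 1 wb vec_wb
  have h1 : ∀ c ≠ 0, D [(11, c)] [9, 10] = D [(11, 1)] [9, 10] := fun c hc =>
    tor1 (torG ρ 6 11 (by decide +kernel)) hc _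
  have h2 : ∀ c ≠ 0, D [(10, c)] [9, 11] = D [(11, 1)] [9, 10] := fun c hc =>
    (hb.dm1 11 c [9, 10] (by decide)).trans (h1 _ (mul_ne_zero hc (hb.1 _)))
  exact ⟨h1 c hc, h2 c hc, (ha.dm1 10 c [9, 11] (by decide)).trans (h2 _ (mul_ne_zero hc (ha.1 _)))⟩

include H h3

omit [Finite G] in
theorem g2_m2 (c : K) (hc : c ≠ 0) : D [(11, c)] [] = q * (q * D [(11, 1)] [9, 10]) ∧
    D [(10, c)] [11] = q * D [(11, 1)] [9, 10] ∧ D [(6, c)] [1] = q * D [(11, 1)] [9, 10] := by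
  obtain ⟨ea, ha⟩ := monN ρ 7 1 wa vec_wa
  obtain ⟨eb, hb⟩ := monN ρ 6 1 wb vec_wb
  obtain ⟨ef, hf⟩ := monN ρ 9 1 wf vec_wf
  have h1 : ∀ c ≠ 0, D [(11, c)] [10] = q * D [(11, 1)] [9, 10] := fun c hc => by
    rw [H.heis (hsG ρ 9 8 11 3 (by simpa using h3) (by decide +kernel) _) [9, 10] hc (by simp)
      (by simp only [List.map]; decide +kernel) (by decide), (g2_m1 c hc).1]
  have h2 : ∀ c ≠ 0, D [(10, c)] [11] = q * D [(11, 1)] [9, 10] := fun c hc =>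
    (hb.dm1 11 c [10] (by decide)).trans (h1 _ (mul_ne_zero hc (hb.1 _)))
  refine ⟨?_, h2 c hc, (hf.dm1 6 c [11] (by decide)).trans ((ha.dm1 10 _ [11] (by decide)).trans
    (h2 _ (mul_ne_zero (mul_ne_zero hc (hf.1 _)) (ha.1 _))))⟩
  rw [H.heis (hsG ρ 10 6 11 1 (by simp) (by decide +kernel) _) [10] hc (by simp)
      (by simp only [List.map]; decide +kernel) (by decide), h1 c hc]

omit [Finite G] in
theorem g2_m3 (h : ∃ v, τ (ρ.x 11 1) v ≠ v) : D [(11, 1)] [9, 10] ≠ 0 ∧ finrank ℂ V =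
    D [] [10, 11] + (q - 1) * (q * D [(11, 1)] [9, 10]) +
      (q - 1) * (q * (q * D [(11, 1)] [9, 10])) := by
  have h1 := H.dec_eq (R := []) (Z := []) 11 [11] (by simp) (by simp) fun c hc => (g2_m2 H h3 c hc).1
  have h2 := H.dec_eq (R := []) (Z := [11]) 10 [10, 11] (by simp only [List.map]; decide +kernel) (by simp)
    fun c hc => (g2_m2 H h3 c hc).2.1
  rw [Dm, Sp_nil, finrank_top] at h1
  refine ⟨fun h0 => ?_, by rw [h1, h2]⟩
  obtain ⟨v, hv⟩ := h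
  rw [h0, mul_zero, mul_zero, mul_zero, add_zero] at h1
  have : v ∈ S [] [11] := Submodule.eq_top_of_finrank_eq h1.symm ▸ Submodule.mem_top
  exact hv (mem_Eg_zero.1 ((mem_Sp.1 this).2 11 (by simp)) 1)

omit h3 [DecidableEq K] [Fintype K] in
include hl hl3 in
theorem g2_m4 (hm : D [(11, 1)] [9, 10] = 1) (c : K) (hc : c ≠ 0) :
    S [(6, c)] [8, 11] ≤ S [(6, c)] [10, 11] := fun v hv => by
  have h1 : cG2.A 9 6 = 0 ∧ cG2.A 9 10 = 3 := by decide +kernel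
  have := H.tl (r := 10) (monH ρ 9 hl) (by simp [h1]) (by simpa [h1] using hl3)
    (by simp only [List.map]; decide +kernel) ((g2_m1 c hc).2.2.trans hm).le hv
  rw [Sp_consZ (r := 10) (Z := [11]) (by simp)]
  exact ⟨Sp_le (fun _ => id) (by simp) hv, this⟩

include hl hl3 in
theorem g2_bound (h : ∃ v, τ (ρ.x 11 1) v ≠ v) : 2 * (q - 1) * q * (q + 1) ≤ finrank ℂ V ∨
    D [(11, 1)] [9, 10] = 1 ∧ D [] [6, 10, 11] + (q - 1) * D [(6, 1)] [10, 11] +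
      (q - 1) * q * (q + 1) = finrank ℂ V ∧ 1 ≤ D [(6, 1)] [10, 11] := by
  obtain ⟨h1, h2⟩ := g2_m3 H h3 h
  rcases Nat.lt_or_ge 1 (D [(11, 1)] [9, 10]) with h4 | h4
  · left
    obtain ⟨m, hm⟩ := Nat.exists_eq_add_of_le h4
    rw [h2, hm]
    generalize q - 1 = a
    nlinarith [Nat.zero_le (a * q * m), Nat.zero_le (a * q * q * m)]
  have hm : D [(11, 1)] [9, 10] = 1 := by omega
  refine .inr ⟨hm, ?_, ((g2_m1 1 one_ne_zero).2.2.trans hm).ge.trans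
    (Submodule.finrank_mono (g2_m4 H hl hl3 hm 1 one_ne_zero))⟩
  rw [h2, hm, H.dec_eq (R := []) (Z := [10, 11]) 6 [6, 10, 11] (by simp only [List.map]; decide +kernel) (by simp)
    fun c hc => tor1 (torG ρ 11 6 (by decide +kernel)) hc _]
  ring

omit h3 [DecidableEq K] [Finite G] [FiniteDimensional ℂ V] in
theorem g2_key {y : V} (hy : y ∈ S [] [10, 11]) {t : K} (ht : t ≠ 0) :
    inner ℂ y (τ (ρ.x 0 t) y) =
      inner ℂ (pr τ ψ (ρ.x 5) 0 y) (τ (ρ.x 0 t) (pr τ ψ (ρ.x 5) 0 y)) := by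
  obtain ⟨e, hn⟩ := monN ρ 11 (-(Units.mk0 t ht)⁻¹) wt vec_wt
  have h1 : ∀ y ∈ S [] [10, 11], inner ℂ y (τ (ρ.x 0 t) y) =
      inner ℂ y (τ (ρ.n 11 (-(Units.mk0 t ht)⁻¹)) y) := fun y hy => by
    have h2 := mem_Eg_zero.1 ((mem_Sp.1 hy).2 11 (by simp))
    have := ρ.x_neg_eq 11 (.mk0 t ht)
    rw [neg_G2] at this
    rw [show ρ.x 0 t = _ from this, ap_mul, ap_mul, h2, H.un.inner_right, ← ρ.x_neg, h2]
  have h2 : pr τ ψ (ρ.x 5) 0 y ∈ S [] [10, 11] := pr_mem fun t => H.map_mem (by simp only [List.map]; decide +kernel) t y hy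
  rw [h1 y hy, h1 _ h2, ← H.un.inner_pr' H.ne (H.add 5) (hn.mem0 (r := 10) ((mem_Sp.1 hy).2 10 (by simp))),
    H.un.inner_right, H.un.inner_right, H.un.inner_pr H.ne (H.add 5)
      (hn.mem0' (r := 5) ((mem_Sp.1 h2).2 10 (by simp)))]

omit h3 [DecidableEq K] in
theorem g2_kap (hd : D [] [6, 10, 11] ≤ 1) {a : V} (ha : a ∈ S [(6, 1)] [10, 11]) :
    ∃ κ, ∀ t ≠ 0, ∀ v, inner ℂ a (τ (ρ.x 0 t) (τ (ρ.x 1 v) a)) = κ := by
  obtain ⟨eb, hb⟩ := monN ρ 6 1 wb vec_wb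
  have h1 : a ∈ S [] [10, 11] := Sp_le (by simp) (fun _ => id) ha
  have h2 : pr τ ψ (ρ.x 5) 0 a ∈ S [] [5, 10, 11] := by
    rw [Sp_consZ (r := 5) (Z := [10, 11]) (by simp)]
    exact ⟨pr_mem fun t => H.map_mem (by simp only [List.map]; decide +kernel) t a h1, pr_mem_Eg (H.add 5) _ _⟩
  have h4 : D [] [5, 10, 11] ≤ 1 :=
    ((Dm_Z (by decide)).trans (hb.dm [] [6, 10, 11])).le.trans hd
  refine ⟨inner ℂ (pr τ ψ (ρ.x 5) 0 a) (τ (ρ.x 0 1) (pr τ ψ (ρ.x 5) 0 a)), fun t ht v => ?_⟩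
  have e1 : ρ.x 0 t * ρ.x 1 v = (ρ.x 6 (v / t))⁻¹ * ρ.x 0 t * ρ.x 6 (v / t) := by
    rw [mul_assoc, hs_eq ρ 0 6 1 (-1) (by decide +kernel), ← mul_assoc, ← mul_assoc, inv_mul_cancel,
      one_mul]
    simp [ht]
  have hM := monH ρ 6 (inv_ne_zero ht)
  have e2 := hM.2 0 1
  simp only [show cG2.A 6 0 = -1 by decide +kernel, zpow_neg_one, inv_inv, mul_one] at e2
  obtain ⟨s, hs⟩ := exists_scalar (ρ := τ) (W := S [] [5, 10, 11]) h4 (inv_mem (hM.st (by simp)))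
  rw [← ap_mul, e1, H.un.inner_conj ((mem_Sp.1 ha).1 (6, 1) (by simp) _), g2_key H h1 ht,
    ← H.un.inner_conj (hs _ h2) (ρ.x 0 1), inv_inv, e2, id]

include hl hl3 in
theorem g2_cube (h4 : 4 < q) {ω : K} (h1 : ω ≠ 1) (hω : ω ^ 3 = 1) (hm : D [(11, 1)] [9, 10] = 1)
    (hd : D [] [6, 10, 11] ≤ 1) (hj : D [(6, 1)] [10, 11] ≤ 1) : False := by
  obtain ⟨a, ha, h0⟩ := exists_mem_ne_zero (W := S [(6, 1)] [8, 11])
    (((g2_m1 1 one_ne_zero).2.2.trans hm).ge)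
  have ha' := g2_m4 H hl hl3 hm 1 one_ne_zero ha
  obtain ⟨κ, hκ⟩ := g2_kap H hd ha'
  have hA : cG2.A 9 6 = 0 ∧ cG2.A 9 4 = -1 ∧ cG2.A 7 6 = -3 ∧ cG2.A 7 1 = -3 ∧ cG2.A 7 0 = 0 ∧
    cG2.A 7 8 = -1 := by decide +kernel
  set u := pr τ ψ (ρ.x 1) 0 a with hu
  have u1 : u ∈ S [(6, 1)] [8] := pr_mem fun t => H.map_mem (by simp only [List.map]; decide +kernel) t a (Sp_le (fun _ => id) (by simp) ha)
  have u2 : u ∈ Eg τ ψ (ρ.x 1) 0 := pr_mem_Eg (H.add 1) _ _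
  have u3 : u ∈ S [(6, 1)] [1] := by
    rw [Sp_consZ (r := 1) (Z := []) (by simp)]
    exact ⟨Sp_le (fun _ => id) (by simp) u1, u2⟩
  have u4 : u ≠ 0 := fun e => h0 (by
    have := congrArg (inner ℂ a) e
    rw [hu, pr_apply, inner_smul_right, inner_sum, sum_eq_single 0 (fun t _ ht => ?_) (by simp)] at this
    · simpa [card_ne] using this
    rw [inner_smul_right, H.un.orth_Eg H.ne ((mem_Sp.1 ha).2 11 (by simp)) (c' := t) (fun s => ?_)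
      ht.symm, mul_zero]
    rw [← ap_mul, hs_eq ρ 11 1 6 (-1) (by decide +kernel), ap_mul, ap_mul,
      (mem_Sp.1 ha).1 (6, 1) (by simp), map_smul, mem_Eg_zero.1 ((mem_Sp.1 ha).2 11 (by simp)), map_smul]
    simp)
  have g1 : ∀ t ≠ 0, inner ℂ u (τ (ρ.x 0 t) u) = κ := fun t ht => by
    rw [hu, H.un.inner_pr' H.ne (H.add 1) ((mem_Sp.1 (H.map_mem (by simp only [List.map]; decide +kernel) t u u3)).2 1 (by simp)), hu, pr_apply,
      map_smul, map_sum, inner_smul_right, inner_sum]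
    simp [hκ t ht]
  have hl1 : l ≠ 1 := by rintro rfl; simp at hl3
  have hH := hsG ρ 8 4 6 (-3) (by simpa using h3) (by decide +kernel) []
  by_cases hc : inner ℂ u u = κ
  · obtain ⟨ef, hf⟩ := monN ρ 9 1 wf vec_wf
    have h5 : u ∈ S [(6, 1)] [0, 1] := by
      rw [Sp_consZ (r := 0) (Z := [1]) (by simp)]
      refine ⟨u3, mem_Eg_zero.2 fun t => ?_⟩
      rcases eq_or_ne t 0 with rfl | ht
      · simp
      refine eq_of_norm_le_re_inner_eq_norm_sq (𝕜 := ℂ) (H.un.norm _ _).le ?_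
      rw [inner_re_symm, g1 t ht, ← hc, inner_self_eq_norm_sq]
    have h6 := mem_Eg_zero.1 (H.tl (r := 4) (R := [(6, 1)]) (Z := [0, 1]) (monH ρ 9 hl) (by simp [hA]) (by simpa [hA] using hl1) (by simp only [List.map]; decide +kernel)
      (((hf.dm1 6 1 [10, 11] (by decide)).trans (tor1 (torG ρ 11 6 (by decide +kernel))
        (mul_ne_zero one_ne_zero (hf.1 _)) _)).le.trans hj) h5)
    have h7 := mem_Eg_zero.1 ((mem_Sp.1 u1).2 8 (by simp))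
    obtain ⟨s, hs⟩ := hH.eq_zero (τ := τ) H.ne one_ne_zero one_ne_zero
    exact u4 (hs u ((mem_Sp.1 u1).1 (6, 1) (by simp)) (h7 1) (by rw [h6, h7]))
  have hω0 : ω ≠ 0 := by rintro rfl; simp at hω
  have hz := monH ρ 7 hω0
  have hω' : ω ^ (-3 : ℤ) = 1 := by rw [zpow_neg, show (3 : ℤ) = (3 : ℕ) from rfl, zpow_natCast, hω, inv_one]
  set z := ρ.h 7 (.mk0 ω hω0)
  obtain ⟨s, hs⟩ := exists_scalar (ρ := τ) (W := S [(6, 1)] [10, 11]) hj (hz.st (by simp [hA, hω']))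
  let P := End.eigenspace (τ z) s
  have hP : ∀ r t, ω ^ cG2.A 7 r = 1 → ∀ v ∈ P, τ (ρ.x r t) v ∈ P := fun r t e v hv => by
    have := hz.2 r t
    rw [End.mem_eigenspace_iff] at *
    simp only [e, one_mul, mul_inv_eq_iff_eq_mul, id] at this
    rw [← ap_mul, this, ap_mul, hv, map_smul]
  have u5 : u ∈ P := pr_mem fun t => hP 1 t (by rw [hA.2.2.2.1, hω']) a
    (End.mem_eigenspace_iff.2 (hs a ha'))
  have d1 : (q - 1) * 1 ≤ finrank ℂ (S [(6, 1)] [1] ⊓ P : Submodule ℂ V) := by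
    refine (sum_erase_ge fun c hc0 => ?_).trans (sum_finrank_le _
      (fun c => (S [(6, 1)] [1] ⊓ P) ⊓ Eg τ ψ (ρ.x 0) c) (fun _ _ => inf_le_left)
      fun i _ j _ e v hv w hw => H.un.orth_Eg H.ne hv.2 hw.2 e)
    refine finrank_pos_of (v := pr τ ψ (ρ.x 0) c u) ⟨pr_mem fun t => ⟨H.map_mem (by simp only [List.map]; decide +kernel) t u u3,
      hP 0 t (by simp [hA]) u u5⟩, pr_mem_Eg (H.add 0) _ _⟩ fun e => hc ?_
    have h5 := congrArg (inner ℂ u) e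
    have h6 := sum_psi H.ne (-c)
    rw [if_neg (neg_ne_zero.2 hc0), ← add_sum_erase _ _ (mem_univ 0)] at h6
    rw [pr_apply, inner_smul_right, inner_sum, ← add_sum_erase _ _ (mem_univ 0),
      sum_congr rfl fun t ht => show _ = ψ (t * -c) * κ by
        rw [inner_smul_right, g1 t (ne_of_mem_erase ht), mul_neg, mul_comm t], ← sum_mul] at h5
    simp only [mul_zero, neg_zero, zero_mul, AddChar.map_zero_eq_one, PreSt.x_zero, map_one, one_smul,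
      End.one_apply, inner_zero_right, mul_eq_zero, inv_eq_zero, card_ne, false_or] at h5 h6
    linear_combination h5 - κ * h6
  have d2 : finrank ℂ (S [(6, 1)] [1]) = q := by
    simpa [hm, ← Dm.eq_1] using (g2_m2 H h3 1 one_ne_zero).2.2
  have he : ω⁻¹ - 1 ≠ 0 := sub_ne_zero.2 (by simpa using h1)
  obtain ⟨b, hb⟩ := hH.eq_zero (τ := τ) H.ne one_ne_zero he
  have s1 : ρ.x 8 1 ∈ St τ (S [(6, 1)] [1]) := H.map_mem (by simp only [List.map]; decide +kernel) 1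
  have s2 : ρ.x 4 b ∈ St τ (S [(6, 1)] [1]) := H.map_mem (by simp only [List.map]; decide +kernel) b
  obtain ⟨v, v1, v2, v3, v4, v5, v0⟩ := codim4 (le_comap (P := P) (one_mem (St τ (S [(6, 1)] [1]))))
    (le_comap (P := P) s1)
    (le_comap (P := P) s2) (le_comap (P := P) (mul_mem s1 s2)) (by omega) (by omega)
  have key : ∀ y ∈ P, τ (ρ.x 8 1) y ∈ P → τ (ρ.x 8 (ω⁻¹ - 1)) y = y := fun y y1 y2 => by
    have e := hz.2 8 1
    rw [End.mem_eigenspace_iff] at *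
    simp only [hA.2.2.2.2.2, zpow_neg_one, mul_one, mul_inv_eq_iff_eq_mul, id] at e
    rw [← add_sub_cancel 1 ω⁻¹, H.add] at e
    rw [← ap_mul, e, ap_mul, ap_mul, y1, ← map_smul] at y2
    have h5 := congrArg (τ (ρ.x 8 1)⁻¹) y2
    rw [ap_inv_ap, ap_inv_ap, map_smul] at h5
    rcases eq_or_ne s 0 with rfl | h6
    · rw [← ap_inv_ap (ρ := τ) z y, y1]; simp
    exact smul_right_injective V h6 h5
  exact v0 (hb v ((mem_Sp.1 v1).1 (6, 1) (by simp)) (key v (by simpa using v2) v3)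
    (key _ v4 (by simpa using v5)))

omit H h3 [DecidableEq K] in
theorem exists_pow_ne {n : ℕ} (h0 : 0 < n) (h : n + 1 < q) : ∃ l : K, l ≠ 0 ∧ l ^ n ≠ 1 := by
  classical
  obtain ⟨g, hg⟩ := IsCyclic.exists_generator (α := Kˣ)
  refine ⟨g, g.ne_zero, fun e => ?_⟩
  have := Nat.le_of_dvd h0 (orderOf_dvd_of_pow_eq_one (x := g) (Units.ext (by simpa using e)))
  rw [orderOf_eq_card_of_forall_mem_zpowers hg, Nat.card_units, Nat.card_eq_fintype_card] at this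
  omega

theorem g2_ne_three (h4 : 4 < q) (h : ∃ v, τ (ρ.x 11 1) v ≠ v) :
    q ^ 3 ≤ finrank ℂ V + 1 ∧ (q % 3 = 1 → q ^ 3 + 1 ≤ finrank ℂ V) := by
  obtain ⟨l, hl, hl3⟩ := exists_pow_ne (K := K) three_pos h4
  obtain ⟨a, ha⟩ : ∃ a, q = a + 1 := ⟨q - 1, by omega⟩
  rcases g2_bound H h3 hl hl3 h with h1 | ⟨hm, h1, h2⟩
  · rw [ha, Nat.add_sub_cancel] at h1
    have : (a + 1) ^ 3 + 1 ≤ finrank ℂ V := le_trans (by
      obtain ⟨b, rfl⟩ : ∃ b, a = b + 2 := ⟨a - 2, by omega⟩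
      ring_nf; omega) h1
    rw [ha]; omega
  refine ⟨by rw [← h1, ha, Nat.add_sub_cancel]; nlinarith, fun h5 => by_contra fun h6 => ?_⟩
  obtain ⟨ω, hω⟩ := exists_prime_orderOf_dvd_card (G := Kˣ) 3 (hp := ⟨Nat.prime_three⟩)
    (by rw [Fintype.card_units]; omega)
  rw [← h1, ha, Nat.add_sub_cancel] at h6
  refine g2_cube H h3 hl hl3 h4 (ω := ω) (fun e => ?_) (by rw [← hω, ← Units.val_pow_eq_pow_val]; simp)
    hm (by nlinarith) (by nlinarith)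
  rw [Units.val_eq_one.1 e] at hω
  simp at hω

end CF.BN.Md
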