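import Cfsg.Agent.BN.MdH

/-!
# Degrees of representations of `G₂(q)`, `q` a power of three
-/

set_option autoImplicit false
set_option synthInstance.maxSize 1024

namespace CF.BN.Md

open Module Finset CF.Chev Cfsg.Lie

/-- The graph symmetry. -/
def pg : Fin 12 → Fin 12 := ![2, 3, 0, 1, 5, 4, 7, 6, 10, 11, 8, 9]

theorem pg_val : pg 6 = 7 ∧ pg 7 = 6 ∧ pg 8 = 10 ∧ pg 9 = 11 ∧ pg 10 = 8 := by decide

/-- The symmetric commutator check. -/
def ok3 (r s : Fin 12) (L : List (Fin 12)) : Prop := okG 3 r s L ∧ okG 3 (pg r) (pg s) (L.map pg)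

instance instDecidableOk3 (r s : Fin 12) (L : List (Fin 12)) : Decidable (ok3 r s L) := by
  unfold ok3; infer_instance

variable {K : Type*} [Field K] {G : Type*} [Group G] {V : Type*} [NormedAddCommGroup V]
  [InnerProductSpace ℂ V] {τ : G →* End ℂ V} {ψ : AddChar K ℂ}

section
variable {ι : Type*} {x : ι → K → G} {π : ι → ι}

omit [Field K] in
theorem Ul_comp (L : List ι) : Ul (x ∘ π) L = Ul x (L.map π) := by simp [Ul]

theorem Sp_comp (R : List (ι × K)) (Z : List ι) :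
    Sp τ ψ (x ∘ π) R Z = Sp τ ψ x (R.map fun p => (π p.1, p.2)) (Z.map π) := by
  ext v; simp only [mem_Sp, List.forall_mem_map, Function.comp]

theorem Dm_comp (R : List (ι × K)) (Z Z' : List ι) (h : ∀ s, s ∈ Z.map π ↔ s ∈ Z') :
    Dm τ ψ (x ∘ π) R Z = Dm τ ψ x (R.map fun p => (π p.1, p.2)) Z' := by
  rw [Dm, Sp_comp]; exact Dm_Z h

theorem Dm_comp1 (r r' : ι) (c : K) (Z Z' : List ι) (h : π r = r' ∧ ∀ s, s ∈ Z.map π ↔ s ∈ Z') :
    Dm τ ψ (x ∘ π) [(r, c)] Z = Dm τ ψ x [(r', c)] Z' := h.1 ▸ Dm_comp _ _ _ h.2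

theorem Dm_comp2 (r r' s s' : ι) (c d : K) (Z Z' : List ι)
    (h : π r = r' ∧ π s = s' ∧ ∀ s, s ∈ Z.map π ↔ s ∈ Z') :
    Dm τ ψ (x ∘ π) [(r, c), (s, d)] Z = Dm τ ψ x [(s', d), (r', c)] Z' :=
  h.1 ▸ h.2.1 ▸ (Dm_comp _ _ _ h.2.2).trans (Dm_swap _ _)

theorem Mon.comp {g : G} {w w' : ι → ι} {e : ι → K} (h : Mon x g w e) (hw : ∀ r, π (w' r) = w (π r)) :
    Mon (x ∘ π) g w' (e ∘ π) := ⟨fun _ => h.1 _, fun r t => by simp [h.2, hw]⟩

theorem hs_of_eq {r s γ : ι} {e : K} (he : e ≠ 0) (h0 : ∀ t, x γ (-t) = (x γ t)⁻¹)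
    (h : ∀ t u, x r t * x s u = x s u * x r t * x γ (e * u * t)) (L : List ι) :
    Hs x r s γ L ∧ Hs x s r γ L :=
  ⟨⟨(e * ·), mul_left_surjective₀ he, fun t u => ⟨1, one_mem _, by rw [mul_one, h]⟩⟩,
    (-e * ·), mul_left_surjective₀ (neg_ne_zero.2 he), fun t u => ⟨1, one_mem _, by
      rw [mul_one, h]; beta_reduce; rw [neg_mul, neg_mul, h0, mul_right_comm e, mul_inv_cancel_right]⟩⟩

end

/-- The relations used symmetrically. -/
structure G3 (x : Fin 12 → K → G) : Prop where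
  h87 : ∀ L, Hs x 8 7 9 L ∧ Hs x 7 8 9 L
  h76 : Hs x 7 6 8 [9, 10, 11]
  ha : ∃ g e, Mon x g wa e
  hb : ∃ g e, Mon x g wb e
  t1 : ∀ a ≠ 0, ∃ g e, Mon x g id e ∧ e 9 = a
  t2 : ∀ a ≠ 0, ∃ g e, Mon x g id e ∧ e 10 = a ^ 2 ∧ e 8 = 1

variable [Fintype K] [DecidableEq K] [FiniteDimensional ℂ V]

local notation "q" => Fintype.card K

section
variable {x : Fin 12 → K → G} (H : Cx τ ψ x ok3) (T : G3 x)
include H T

local notation "D" => Dm τ ψ x

theorem G3.l1 (c : K) (hc : c ≠ 0) : D [(9, c)] [11] = q * D [(9, 1)] [8, 11] := by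
  rw [H.heis (T.h87 _).1 [8, 11] hc (by simp) (by simp only [List.map]; decide +kernel) (by decide), tor1 T.t1 hc]

omit H [Fintype K] [DecidableEq K] in
theorem G3.l2 (c : K) (hc : c ≠ 0) : D [(8, c)] [9, 11] = D [(9, 1)] [8, 11] :=
  let ⟨_, _, ha⟩ := T.ha
  (ha.dm1 9 c [8, 11] (by decide)).trans (tor1 T.t1 (mul_ne_zero hc (ha.1 _)) _)

theorem G3.l3 {X : ℕ} (hX : ∀ c ≠ 0, ∀ d ≠ 0, D [(11, c), (9, d)] [10] = q * X) :
    (q - 1) * X ≤ D [(9, 1)] [8, 11] := by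
  obtain ⟨_, _, hb⟩ := T.hb
  refine le_of_add_le_right (H.dec_ge 10 [8, 10, 11] (by simp only [List.map]; decide +kernel) (by decide) fun c hc => ?_)
  refine le_of_le_of_eq (Nat.le_of_mul_le_mul_left ?_ (Fintype.card_pos (α := K)))
    (hb.dm2 11 9 c 1 [7, 10] (by decide)).symm
  have h1 := mul_ne_zero one_ne_zero (hb.1 9)
  rw [← H.heis (T.h87 [10]).2 [7, 10] h1 (by simp) (by simp only [List.map]; decide +kernel) (by decide), hX _ (mul_ne_zero hc (hb.1 _)) _ h1]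

theorem G3.l4 {c d : K} (hc : c ≠ 0) (hd : d ≠ 0) (h : 3 ≤ D [(10, d), (8, c)] [9, 11]) :
    3 * (q - 1) ≤ 2 * D [(9, 1)] [8, 11] := by
  rw [← T.l2 c hc, H.dec' 10 (by simp only [List.map]; decide +kernel)]
  have h1 : #(univ.erase (0 : K)) ≤ 2 * #((univ.erase 0).image fun a : K => d * a ^ 2) :=
    card_le_mul_card_image _ 2 fun b hb => by
      obtain ⟨a, -, rfl⟩ := mem_image.1 hb
      refine (card_le_card fun y hy => ?_).trans (card_le_two (a := a) (b := -a))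
      simpa [hd, sq_eq_sq_iff_eq_or_eq_neg] using (mem_filter.1 hy).2
  have h2 := card_nsmul_le_sum ((univ.erase 0).image fun a : K => d * a ^ 2)
    (fun b => D [(10, b), (8, c)] [9, 11]) 3 fun b hb => by
      obtain ⟨a, ha, rfl⟩ := mem_image.1 hb
      obtain ⟨g, e, h1, h2, h3⟩ := T.t2 a (ne_of_mem_erase ha)
      have := h1.dm2 (τ := τ) (ψ := ψ) 10 8 d c [9, 11] (Z' := [9, 11]) (by simp)
      rw [h2, h3, mul_one] at this
      exact this ▸ h
  have h3 := sum_le_sum_of_subset (f := fun b => D [(10, b), (8, c)] [9, 11])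
    (subset_univ ((univ.erase 0).image fun a : K => d * a ^ 2))
  rw [card_erase_of_mem (mem_univ _), card_univ] at h1
  rw [smul_eq_mul] at h2
  omega

theorem G3.l5 (h : ∀ c ≠ 0, ∀ d ≠ 0, D [(10, d), (8, c)] [9, 11] = 0) (c : K) (hc : c ≠ 0) :
    D [(8, c)] [9, 10, 11] = D [(9, 1)] [8, 11] ∧
      q * D [(7, c)] [8, 9, 10, 11] = D [(9, 1)] [8, 11] := by
  obtain ⟨_, _, hb⟩ := T.hb
  have h1 : ∀ c ≠ 0, D [(8, c)] [9, 10, 11] = D [(9, 1)] [8, 11] := fun c hc => by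
    rw [← T.l2 c hc, H.dec_eq 10 [9, 10, 11] (by simp only [List.map]; decide +kernel) (by decide) (h c hc)]; simp
  have h2 := mul_ne_zero hc (hb.1 8)
  refine ⟨h1 c hc, ?_⟩
  rw [← h1 _ h2, H.heis T.h76 [7, 9, 10, 11] h2 (by simp) (by simp only [List.map]; decide +kernel) (by simp)]
  exact congrArg _ (hb.dm1 8 c _ (by decide))

end

variable (ρ : StRep cG2 K G) [CharP K 3]

omit [Fintype K] [DecidableEq K] in
theorem g3_id : G3 ρ.x where
  h87 := hs_of_eq (e := -1) (by simp) (ρ.x_neg 9) fun t u => by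
    simpa [mul_assoc] using g2_87 ρ.toPreSt u t 1
  h76 := ⟨(- ·), neg_surjective, fun t u => ⟨_, mul_mem (x_mem_Ul (s := 9) (by simp) _) (mul_mem
    (x_mem_Ul (s := 10) (by simp) _) (x_mem_Ul (s := 11) (by simp) _)), by
    simpa [evT] using commG2 ρ.toPreSt 6 7 [(8, 1, 1, 1), (9, 1, 1, 2), (10, -1, 1, 3), (11, -2, 2, 3)]
      (by decide +kernel) u t⟩⟩
  ha := ⟨_, monN ρ 7 1 wa vec_wa⟩
  hb := ⟨_, monN ρ 6 1 wb vec_wb⟩
  t1 := torG ρ 7 9 (by decide +kernel)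
  t2 a ha := ⟨_, _, monH ρ 10 ha, by simp, by simp [show cG2.A 10 8 = 0 by decide +kernel]⟩

omit [DecidableEq K] in
theorem g3_pg : G3 (ρ.x ∘ pg) where
  h87 := hs_of_eq (e := -1) (by simp) (ρ.x_neg 11) fun t u => by
    simpa [pg_val] using hs_eq ρ 10 6 11 1 (by decide +kernel) t u
  h76 := ⟨fun u => -u ^ 3, neg_surjective.comp (Finite.surjective_of_injective
    (@frobenius K _ 3 (ExpChar.prime Nat.prime_three)).injective), fun t u =>
      ⟨ρ.x 8 (u * t) * (ρ.x 9 (u ^ 2 * t) * ρ.x 11 (-(u ^ 3 * t ^ 2))), mul_mem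
        (x_mem_Ul (s := 10) (by simp) _) (mul_mem (x_mem_Ul (s := 11) (by simp) _)
          (x_mem_Ul (s := 9) (by simp) _)), by
      have := g2_67 ρ.toPreSt u t 1
      rw [← g2_comm _ 9 10 (by decide +kernel), ← g2_comm _ 8 10 (by decide +kernel)] at this
      simpa [mul_assoc, pg_val] using this⟩⟩
  ha := let ⟨_, h⟩ := monN ρ 6 1 wb vec_wb; ⟨_, _, h.comp (by decide)⟩
  hb := let ⟨_, h⟩ := monN ρ 7 1 wa vec_wa; ⟨_, _, h.comp (by decide)⟩
  t1 a ha := let ⟨_, _, h, e⟩ := torG ρ 6 11 (by decide +kernel) a ha; ⟨_, _, h.comp fun _ => rfl, e⟩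
  t2 a ha := ⟨_, _, (monH ρ 8 ha).comp fun _ => rfl, by simp [pg_val],
    by simp [pg_val, show cG2.A 8 10 = 0 by decide +kernel]⟩

variable {ρ}

local notation "D" => Dm τ ψ (PreSt.x (StRep.toPreSt ρ))

omit [Fintype K] [DecidableEq K] [FiniteDimensional ℂ V] in
theorem cx3 (hU : Un τ) (hψ : ψ ≠ 1) : Cx τ ψ ρ.x ok3 ∧ Cx τ ψ (ρ.x ∘ pg) ok3 :=
  ⟨⟨hU, hψ, ρ.x_add, fun r s L h => krG ρ (by simpa using three_eq) r s L h.1⟩,
    hU, hψ, fun _ => ρ.x_add _, fun r s L h t u => by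
      simpa [Ul_comp] using krG ρ (by simpa using three_eq) _ _ _ h.2 t u⟩

theorem g2_three (H : Cx τ ψ ρ.x ok3) (h3 : 3 < q) {c : K} (hc : c ≠ 0) (d : K)
    (h : D [(10, d), (8, c)] [9, 11] ≠ 0) : 3 ≤ D [(10, d), (8, c)] [9, 11] ∧
      ∃ b ≠ 0, D [(6, b), (8, c)] [] ≠ 0 := by
  obtain ⟨l, hl, h2⟩ := exists_pow_ne (K := K) two_pos h3
  obtain ⟨t, ht⟩ : ∃ t, c * t - d * t ^ 3 ≠ 0 := by
    by_contra! e
    have e1 := e 1
    exact h2 (mul_left_cancel₀ (mul_ne_zero hc hl) (by linear_combination l ^ 3 * e1 - e l))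
  have key : ∀ b, D [(6, b), (10, d), (8, c)] [9, 11] ≤
      D [(6, c * t - d * t ^ 3 + b), (10, d), (8, c)] [9, 11] := fun b =>
    shift (H.map_mem (r := 7) (by simp only [List.map]; decide +kernel) t) fun u v hv => by
      obtain ⟨h4, h5⟩ := mem_Sp.1 hv
      have := g2_67 ρ.toPreSt t u 1
      simp only [mul_one] at this
      simp only [← ap_mul, this]
      simp only [ap_mul, mem_Eg_zero.1 (h5 9 (by simp)) _, mem_Eg_zero.1 (h5 11 (by simp)) _,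
        h4 (10, d) (by simp) _, h4 (8, c) (by simp) _, map_smul, smul_smul, ← AddChar.map_add_eq_mul]
      congr 2; ring
  generalize c * t - d * t ^ 3 = e at *
  rw [H.dec' 6 (by simp only [List.map]; decide +kernel)] at *
  obtain ⟨b, -, hb⟩ := exists_ne_zero_of_sum_ne_zero h
  have h4 := key b
  have h5 := key (e + b)
  have h6 : b ≠ e + (e + b) := fun h => ht (by linear_combination h + e * three_eq (K := K))
  refine ⟨le_trans ?_ (sum_le_sum_of_subset (subset_univ {b, e + b, e + (e + b)})), ?_⟩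
  · rw [sum_insert (by simp [ht, h6]), sum_pair (by simp [ht])]
    omega
  have h7 : ∀ b, D [(6, b), (10, d), (8, c)] [9, 11] ≤ D [(6, b), (8, c)] [] :=
    fun b => Dm_le (by simp) (by simp)
  rcases eq_or_ne b 0 with rfl | h8
  · exact ⟨e + 0, by simpa, by have := h7 (e + 0); omega⟩
  · exact ⟨b, h8, by have := h7 b; omega⟩

local notation "D'" => Dm τ ψ (PreSt.x (StRep.toPreSt ρ) ∘ pg)

omit [Fintype K] [DecidableEq K] [CharP K 3] in
theorem tor2G (r s r' s' : Fin 12) (e : cG2.A r' r = 1 ∧ cG2.A r' s = 0 ∧ cG2.A s' r = 0 ∧ cG2.A s' s = 1)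
    {c d : K} (hc : c ≠ 0) (hd : d ≠ 0) (Z : List (Fin 12)) :
    D [(r, c), (s, d)] Z = D [(r, 1), (s, 1)] Z :=
  tor2 (fun _ ha _ hb => ⟨_, _, (monH ρ r' ha).mul (monH ρ s' hb), by simp [e], by simp [e]⟩) hc hd Z

variable (H : Cx τ ψ ρ.x ok3) (H' : Cx τ ψ (ρ.x ∘ pg) ok3)
include H

theorem g3_x (c : K) (hc : c ≠ 0) (d : K) (hd : d ≠ 0) :
    D [(11, c), (9, d)] [10] = q * D [(11, 1), (9, 1)] [8, 10] ∧
    D [(11, c), (9, d)] [] = q * (q * D [(11, 1), (9, 1)] [8, 10]) ∧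
    D' [(11, d), (9, c)] [10] = q * D [(11, 1), (9, 1)] [8, 10] := by
  have x0 : D [(11, c), (9, d)] [10] = q * D [(11, 1), (9, 1)] [8, 10] := by
    rw [H.heis ((g3_id ρ).h87 _).1 [8, 10] hd (by simp) (by simp only [List.map]; decide +kernel) (by decide),
      tor2G 11 9 6 7 (by decide +kernel) hc hd]
  have x1 : D [(11, c), (9, d)] [] = q * (q * D [(11, 1), (9, 1)] [8, 10]) := by
    rw [H.heis (hsG ρ 10 6 11 1 (by simp) (by decide +kernel) _) [10] hc (by simp) (by simp only [List.map]; decide +kernel) (by decide), x0]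
  refine ⟨x0, x1, (Dm_comp2 _ 9 _ 11 _ _ _ [8] (by decide)).trans
    (Nat.eq_of_mul_eq_mul_left (Fintype.card_pos (α := K)) ?_)⟩
  rw [← x1, H.heis ((g3_id ρ).h87 []).1 [8] hd (by simp) (by simp only [List.map]; decide +kernel) (by decide)]

theorem g3_x0 (h3 : 3 < q) (h : ∃ v, τ (ρ.x 9 1) v ≠ v) : D [(11, 1), (9, 1)] [8, 10] ≠ 0 := fun h0 => by
  have T := g3_id ρ
  obtain ⟨_, _, ha⟩ := T.ha
  obtain ⟨_, _, hb⟩ := T.hb
  have h1 : D [(9, 1)] [8, 11] = 0 := by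
    rw [← T.l2 1 one_ne_zero, H.dec' 10 (by simp only [List.map]; decide +kernel)]
    refine sum_eq_zero fun d _ => by_contra fun e => ?_
    obtain ⟨b, h1, h2⟩ := (g2_three H h3 one_ne_zero d e).2
    refine h2 ((ha.dm2 10 9 b 1 [] (by simp)).trans ((hb.dm2 11 9 _ _ [] (by simp)).trans ?_))
    rw [(g3_x H _ (mul_ne_zero (mul_ne_zero h1 (ha.1 _)) (hb.1 _)) _
      (mul_ne_zero (mul_ne_zero one_ne_zero (ha.1 _)) (hb.1 _))).2.1, h0, mul_zero, mul_zero]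
  have h2 := H.dec_eq (R := []) (Z := []) 9 [9] (by simp) (by simp) (a := 0) fun c hc => by
    rw [H.dec_eq 11 [11] (by simp only [List.map]; decide +kernel) (by decide) fun d hd => (g3_x H d hd c hc).2.1, T.l1 H c hc, h1, h0]; simp
  obtain ⟨v, hv⟩ := h
  rw [Dm, Sp_nil, finrank_top, mul_zero, add_zero] at h2
  have : v ∈ Sp τ ψ ρ.x [] [9] := Submodule.eq_top_of_finrank_eq h2.symm ▸ Submodule.mem_top
  exact hv (mem_Eg_zero.1 ((mem_Sp.1 this).2 9 (by simp)) 1)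

omit [CharP K 3] in
theorem g3_u0 (h3 : 3 < q) (j1 : ∀ c ≠ 0, 1 ≤ D [(7, c)] [8, 9, 10, 11])
    (j2 : ∀ c ≠ 0, 1 ≤ D [(6, c)] [8, 9, 10, 11]) : 2 * (q - 1) ≤ D [] [8, 9, 10, 11] := by
  have h1 : ∀ c ≠ 0, ∀ d ≠ 0, D [(6, c), (7, d)] [8, 9, 10, 11] = D [(6, 1), (7, 1)] [8, 9, 10, 11] :=
    fun c hc d hd => tor2G 6 7 11 9 (by decide +kernel) hc hd _
  rcases Nat.eq_zero_or_pos (D [(6, 1), (7, 1)] [8, 9, 10, 11]) with h2 | h2
  · have h3 := H.dec_ge (R := []) 7 [7, 8, 9, 10, 11] (by simp only [List.map]; decide +kernel) (by decide) j1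
    have h4 := H.dec_ge (R := []) (Z := [7, 8, 9, 10, 11]) 6 [6, 7, 8, 9, 10, 11] (by simp only [List.map]; decide +kernel) (by decide)
      (a := 1) fun c hc => by
        have := H.dec_eq (R := [(6, c)]) (Z := [8, 9, 10, 11]) 7 [7, 8, 9, 10, 11] (by simp only [List.map]; decide +kernel) (by decide)
          fun d hd => (Dm_swap _ _).trans ((h1 c hc d hd).trans h2)
        have := j2 c hc
        omega
    omega
  · have h3 := H.dec_ge (R := []) (Z := [8, 9, 10, 11]) 7 [7, 8, 9, 10, 11] (by simp only [List.map]; decide +kernel) (by decide) (a := 2)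
      fun d hd => by
        have := H.dec_ge (R := [(7, d)]) (Z := [8, 9, 10, 11]) 6 [6, 8, 9, 10, 11] (by simp only [List.map]; decide +kernel) (by decide)
          (a := 1) fun c hc => h2.trans_eq (h1 c hc d hd).symm
        omega
    omega

include H'

theorem g3_n : finrank ℂ V = D [] [9, 11] + (q - 1) * (q * D [(9, 1)] [8, 11]) +
    (q - 1) * (q * D' [(9, 1)] [8, 11] + (q - 1) * (q * (q * D [(11, 1), (9, 1)] [8, 10]))) := by
  have n2 := H.dec_eq (R := []) (Z := []) 11 [11] (by simp) (by simp)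
    (a := q * D' [(9, 1)] [8, 11] + (q - 1) * (q * (q * D [(11, 1), (9, 1)] [8, 10]))) fun c hc => by
      rw [H.dec_eq 9 [9] (by simp only [List.map]; decide +kernel) (by decide) fun d hd => (Dm_swap _ _).trans (g3_x H c hc d hd).2.1,
        ← (g3_pg ρ).l1 H' c hc, Dm_comp1 9 11 _ _ [9] (by decide)]
  rwa [Dm, Sp_nil, finrank_top,
    H.dec_eq (R := []) (Z := [11]) 9 [9, 11] (by simp only [List.map]; decide +kernel) (by decide) ((g3_id ρ).l1 H)] at n2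

theorem g2_eq_three (h9 : 9 ≤ q) (h : ∃ v, τ (ρ.x 9 1) v ≠ v) :
    q ^ 4 + q ^ 2 ≤ finrank ℂ V + 2 := by
  have T := g3_id ρ
  have T' := g3_pg ρ
  have p1 := T.l3 H fun c hc d hd => (g3_x H c hc d hd).1
  have p2 := T'.l3 H' fun c hc d hd => (g3_x H d hd c hc).2.2
  have n2 := g3_n H H'
  have h0 := g3_x0 H (by omega) h
  generalize D [(11, 1), (9, 1)] [8, 10] = X at *
  obtain ⟨a, ha⟩ : ∃ a, q = a + 9 := ⟨q - 9, by omega⟩
  have ha' : q - 1 = a + 8 := by omega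
  rcases (Nat.one_le_iff_ne_zero.2 h0).eq_or_lt with rfl | hX
  swap
  · obtain ⟨b, rfl⟩ := Nat.exists_eq_add_of_lt hX
    rw [n2, ha', ha]
    ring_nf; omega
  have cv : ∀ c d, D' [(10, c), (8, d)] [9, 11] = D [(10, d), (8, c)] [9, 11] :=
    fun c d => Dm_comp2 _ _ _ _ _ _ _ _ (by decide)
  by_cases hu : ∀ c ≠ 0, ∀ d ≠ 0, D [(10, d), (8, c)] [9, 11] = 0
  swap
  · push Not at hu
    obtain ⟨c, hc, d, hd, hu⟩ := hu
    have h1 := (g2_three H (by omega) hc d hu).1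
    have h2 := T.l4 H hc hd h1
    have h3 := T'.l4 H' hd hc (h1.trans_eq (cv c d).symm)
    obtain ⟨b, hb⟩ := Nat.exists_eq_add_of_le (show 3 * (q - 1) ≤ D [(9, 1)] [8, 11] +
      D' [(9, 1)] [8, 11] by omega)
    rw [n2, mul_add (q - 1), ← add_assoc, add_assoc (D [] _), ← mul_add, ← mul_add, hb, ha', ha]
    ring_nf; omega
  have l1 := T.l5 H hu
  have l2 := T'.l5 H' fun c hc d hd => (cv d c).trans (hu d hd c hc)
  have n3 := H.dec_eq (R := []) (Z := [9, 11]) 8 [8, 9, 11] (by simp only [List.map]; decide +kernel) (by decide) T.l2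
  have n4 := H.dec_eq (R := []) (Z := [8, 9, 11]) 10 [8, 9, 10, 11] (by simp only [List.map]; decide +kernel) (by decide) fun c hc =>
    (Dm_comp1 8 10 c _ _ (by decide)).symm.trans (l2 c hc).1
  have j1 : ∀ c ≠ 0, 1 ≤ D [(7, c)] [8, 9, 10, 11] := fun c hc => Nat.pos_of_ne_zero fun e => by
    have := (l1 c hc).2
    rw [e] at this; omega
  have j2 : ∀ c ≠ 0, 1 ≤ D' [(7, c)] [8, 9, 10, 11] := fun c hc => Nat.pos_of_ne_zero fun e => by
    have := (l2 c hc).2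
    rw [e] at this; omega
  obtain ⟨b, hb⟩ := Nat.exists_eq_add_of_le (g3_u0 H (by omega) j1 fun c hc =>
    (j2 c hc).trans_eq (Dm_comp1 _ _ _ _ _ (by decide)))
  obtain ⟨j, hj⟩ := Nat.exists_eq_add_of_le (j1 1 one_ne_zero)
  obtain ⟨j', hj'⟩ := Nat.exists_eq_add_of_le (j2 1 one_ne_zero)
  rw [n2, n3, n4, hb, ← (l1 1 one_ne_zero).2, ← (l2 1 one_ne_zero).2, hj, hj', ha', ha]
  ring_nf; omega

end CF.BN.Md
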