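import Cfsg.Agent.BN.TMul
import Cfsg.Agent.BN.TChain
import Cfsg.Agent.Geom.Polar
import Cfsg.Agent.Geom.Families
import Cfsg.Agent.Geom.Orders

/-!
# The multiplier of `Ω⁻`: the inductive step for the characteristic
-/

set_option autoImplicit false

namespace CF.BN

open CF.Schur CF.Geom Subgroup QuadraticMap Module
open scoped commutatorElement

universe u

/-- Canonical lifts for a family of perfect subgroups. -/
theorem exists_can {E G ι : Type*} [Group E] [Group G] {π : E →* G} (hs : Function.Surjective π)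
    {K : ι → Subgroup G} (hP : ∀ i j, K i ⊓ K j ≤ ⁅K i ⊓ K j, K i ⊓ K j⁆)
    (h1 : ∀ i, ∀ z ∈ ⁅(K i).comap π, (K i).comap π⁆, π z = 1 → z = 1) : ∃ c : G → E,
      (∀ i j, ∀ g ∈ K i ⊓ K j, c g ∈ ⁅(K i ⊓ K j).comap π, (K i ⊓ K j).comap π⁆) ∧
      ∀ i, ∀ g ∈ K i, π (c g) = g ∧ (∀ g' ∈ K i, c (g * g') = c g * c g') ∧
        ∀ x, π x ∈ K i → x * c g * x⁻¹ = c (π x * g * (π x)⁻¹) := by
  have h2 : ∀ i j, ∀ g ∈ K i ⊓ K j, ∃ x ∈ ⁅(K i ⊓ K j).comap π, (K i ⊓ K j).comap π⁆, π x = g :=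
    fun i j g hg => show g ∈ Subgroup.map π _ by
      rw [map_commutator, map_comap_eq_self_of_surjective hs]; exact hP i j hg
  have h3 : ∀ i, ∀ x ∈ ⁅(K i).comap π, (K i).comap π⁆, ∀ y ∈ ⁅(K i).comap π, (K i).comap π⁆,
      π x = π y → x = y :=
    fun i x hx y hy e => mul_inv_eq_one.1 (h1 i _ (mul_mem hx (inv_mem hy)) (by simp [e]))
  have h4 : ∀ {A B : Subgroup G}, A ≤ B → ⁅A.comap π, A.comap π⁆ ≤ ⁅B.comap π, B.comap π⁆ :=
    fun h => commutator_mono (comap_mono h) (comap_mono h)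
  have h5 : ∀ g, ∃ x, ∀ i j, g ∈ K i ⊓ K j → x ∈ ⁅(K i ⊓ K j).comap π, (K i ⊓ K j).comap π⁆ ∧
      π x = g := fun g => by
    by_cases h : ∃ i, g ∈ K i
    swap
    · exact ⟨1, fun i _ hi => (h ⟨i, il hi⟩).elim⟩
    obtain ⟨i, hi⟩ := h
    obtain ⟨x, hx, rfl⟩ := h2 i i g (im hi hi)
    refine ⟨x, fun j k h => ⟨?_, rfl⟩⟩
    obtain ⟨y, hy, e⟩ := h2 j k _ h
    obtain ⟨z, hz, e'⟩ := h2 i j _ (im hi (il h))
    rwa [← h3 i _ (h4 inf_le_left hz) _ (h4 inf_le_left hx) e',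
      h3 j _ (h4 inf_le_right hz) _ (h4 inf_le_left hy) (e'.trans e.symm)]
  choose c hc using h5
  have h6 : ∀ i, ∀ g ∈ K i, c g ∈ ⁅(K i).comap π, (K i).comap π⁆ ∧ π (c g) = g :=
    fun i g hg => by simpa using hc g i i (im hg hg)
  refine ⟨c, fun i j g hg => (hc g i j hg).1, fun i g hg => ⟨(h6 i g hg).2, fun g' h => ?_,
    fun x hx => ?_⟩⟩
  · exact h3 i _ (h6 i _ (mul_mem hg h)).1 _ (mul_mem (h6 i _ hg).1 (h6 i _ h).1) (by
      rw [map_mul, (h6 i _ (mul_mem hg h)).2, (h6 i _ hg).2, (h6 i _ h).2])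
  have h7 := mul_mem (mul_mem hx hg) (inv_mem hx)
  refine h3 i _ ?_ _ (h6 i _ h7).1 (by simp [(h6 i _ h7).2, (h6 i _ hg).2])
  have h8 : ((K i).comap π).map (MulAut.conj x).toMonoidHom ≤ (K i).comap π := by
    rintro _ ⟨y, hy, rfl⟩
    simpa using mul_mem (mul_mem hx hy) (inv_mem hx)
  exact commutator_mono h8 h8 ((map_commutator _ _ _).le ⟨_, (h6 i _ hg).1, rfl⟩)

theorem commute_of_der {E G : Type*} [Group E] [Group G] {π : E →* G} (hZ : π.ker ≤ center E)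
    {A : Subgroup G} {x y : E} (hx : x ∈ ⁅A.comap π, A.comap π⁆) (hy : ∀ a ∈ A, Commute (π y) a) :
    x * y = y * x :=
  mem_centralizer_singleton_iff.1 ((commutator_le (H₃ := centralizer {y})).2 (fun _ ha _ hb =>
    mem_centralizer_singleton_iff.2 (Chev.commute_commutator_of_center
      (commutator_mem_center' hZ (hy _ ha)) (commutator_mem_center' hZ (hy _ hb))).symm) hx)

variable {F : Type*} {V : Type u} [Field F] [AddCommGroup V] [Module F V] {Q : QuadraticForm F V}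
  {ι : Type*} {e f : ι → V} {u w w' : V}

variable (Q e f) in
/-- The elements of `Ω` fixing some hyperbolic planes pointwise. -/
def Fxo (J : Finset ι) : Subgroup (commutator (OG Q)) where
  carrier := {g | ∀ i ∈ J, g.1.1 (e i) = e i ∧ g.1.1 (f i) = f i}
  one_mem' _ _ := ⟨rfl, rfl⟩
  mul_mem' ha hb i h := by simp [ha i h, hb i h]
  inv_mem' {g} ha i h := ⟨g.1.1.injective (by simp [ha i h]), g.1.1.injective (by simp [ha i h])⟩

open scoped _root_.Classical in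
/-- Eichler transformations in `Ω`. -/
noncomputable def eio (Q : QuadraticForm F V) (u w : V) : commutator (OG Q) :=
  if h : ∃ hu : Q u = 0, ∃ hw : polar Q u w = 0, eichler hu hw ∈ commutator (OG Q) then
    ⟨_, h.2.2⟩ else 1

variable [FiniteDimensional F V] (hQ : (polarBilin Q).Nondegenerate)
include hQ

section

variable (h5 : 5 ≤ finrank F V) (hu : Q u = 0) (hw : polar Q u w = 0)
include h5 hu hw

theorem eio_val : (eio Q u w).1 = eichler hu hw := by
  rw [eio, dif_pos ⟨hu, hw, eichlerSub_le_commutator hQ (.inr (by omega)) (eichler_mem hu hw)⟩]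

theorem eio_add (hw' : polar Q u w' = 0) : eio Q u (w + w') = eio Q u w * eio Q u w' :=
  Subtype.ext (by
    rw [coe_mul, eio_val hQ h5 hu hw, eio_val hQ h5 hu hw', ← eichler_add, eio_val hQ h5 hu])

theorem eio_conj (g : commutator (OG Q)) : g * eio Q u w * g⁻¹ = eio Q (g.1.1 u) (g.1.1 w) :=
  Subtype.ext (by rw [coe_mul, coe_mul, coe_inv, eio_val hQ h5 hu hw, conj_eichler, eio_val hQ h5])

theorem eio_apply (x : V) : (eio Q u w).1.1 x =
    x + polar Q u x • w - polar Q w x • u - (Q w * polar Q u x) • u := by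
  rw [eio_val hQ h5 hu hw, eichler_apply]

theorem eio_mem {J : Finset ι} (h : ∀ i ∈ J, ∀ x ∈ [u, w], polar Q (e i) x = 0 ∧ polar Q (f i) x = 0) :
    eio Q u w ∈ Fxo Q e f J := fun i hi => by
  have := h i hi
  simp only [List.forall_mem_cons] at this
  simp [eio_apply hQ h5 hu hw, polar_comm Q u, polar_comm Q w, this]

end

variable [Finite F]

theorem exists_om_perp {W : Submodule F V} (h : Disjoint W (perp (polarBilin Q) W))
    (h' : finrank F W + 5 ≤ finrank F V) :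
    ∃ φ : commutator (OG (Q.comp (perp (polarBilin Q) W).subtype)) →* commutator (OG Q),
      Function.Injective φ ∧ (∀ g, g ∈ φ.range ↔ ∀ y ∈ W, g.1.1 y = y) ∧
        ∀ k x, (φ k).1.1 x.1 = k.1.1 x := by
  have hW := isWittPair_quad Q hQ
  have h1 := hW.isCompl_perp h
  have h2 := hW.finrank_perp W
  have h3 := nondegenerate_comp_subtype (hW.disjoint_perp_perp h)
  set U := perp (polarBilin Q) W
  have D := orthDecomp_quad (Q := Q) (Q₁ := Q.comp U.subtype) (Q₂ := Q.comp W.subtype)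
    (e := Submodule.prodEquivOfIsCompl _ _ h1.symm) fun x y => by
      simpa [quad_add, polar_comm Q x.1] using mem_perp.1 x.2 _ y.2
  let ψ := D.hom.comp (MonoidHom.inl _ _)
  have h4 : ∀ k, ψ k ∈ commutator (OG Q) ↔ k ∈ commutator _ := fun k => by
    obtain ⟨vs, h5, rfl⟩ := mem_reflSub_iff.1 ((reflSub_eq_top h3 (.inr (by omega))).ge (mem_top k))
    rw [prod_oRefl_mem_commutator_iff h3 (reflSub_eq_top h3 (.inr (by omega))) _ h5]
    refine (congrArg (· ∈ _) (D.hom_prod_oRefl_left vs)).to_iff.trans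
      ((prod_oRefl_mem_commutator_iff hQ (reflSub_eq_top hQ (.inr (by omega))) _ ?_).trans ?_)
    · simpa using h5
    · simp
  have h5 : ∀ k (x : U) (y : W), (ψ k).1 (x + y) = k.1 x + y := fun k x y => D.hom_apply (k, 1) x y
  refine ⟨(ψ.comp (Subgroup.subtype _)).codRestrict _ fun k => (h4 k).2 k.2, fun a b e =>
    Subtype.ext (congrArg Prod.fst (D.hom_injective (congrArg Subtype.val e))), fun g => ⟨?_,
    fun h6 => ?_⟩, fun k x => show (ψ k).1 _ = _ by simpa using h5 k x 0⟩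
  · rintro ⟨k, rfl⟩ y hy
    exact show (ψ k).1 _ = _ by simpa using h5 k 0 ⟨y, hy⟩
  obtain ⟨⟨a, b⟩, h7⟩ := (D.range_hom h3).ge (show g.1 ∈ _ by
    rw [left_prodEquivOfIsCompl]
    exact mem_stabSet_perp (mem_stabSet_iff_le.2 fun y hy => (h6 y hy).symm ▸ hy))
  obtain rfl : b = 1 := Subtype.ext (LinearEquiv.ext fun y => Subtype.ext (by
    simpa [h7, h6, eq_comm] using D.hom_apply (a, b) 0 y))
  exact ⟨⟨a, (h4 a).1 (h7.symm ▸ g.2 : D.hom (a, 1) ∈ _)⟩, Subtype.ext h7⟩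

variable (hf : QFrame Q e f)
include hf

theorem exists_Fxo (J : Finset ι) (h : 2 * J.card + 5 ≤ finrank F V) :
    ∃ U : Submodule F V, (polarBilin (Q.comp U.subtype)).Nondegenerate ∧
      (∀ x, x ∈ U ↔ ∀ i ∈ J, polar Q (e i) x = 0 ∧ polar Q (f i) x = 0) ∧
      2 * J.card + finrank F U = finrank F V ∧
      ∃ φ : commutator (OG (Q.comp U.subtype)) →* commutator (OG Q), Function.Injective φ ∧
        φ.range = Fxo Q e f J ∧ ∀ k x, (φ k).1.1 x.1 = k.1.1 x := by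
  have hW := isWittPair_quad Q hQ
  replace hf : QFrame Q (fun i : J => e i) (fun i => f i) := hf.comp Subtype.val_injective
  obtain ⟨φ, h1, h2, h3⟩ := exists_om_perp hQ (hf.disjoint hW) (by simpa [hf.finrank_span hW])
  refine ⟨_, nondegenerate_comp_subtype (hW.disjoint_perp_perp (hf.disjoint hW)),
    fun x => mem_perp_qFrame.trans (by simp [forall_and]), by simpa using hf.finrank_perp hW,
    φ, h1, Subgroup.ext fun g => (h2 g).trans ⟨fun h i hi => ⟨h _ (left_mem_hypSpan _ _ (⟨i, hi⟩ : J)),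
      h _ (right_mem_hypSpan _ _ (⟨i, hi⟩ : J))⟩, fun hg y hy => ?_⟩, h3⟩
  refine (Submodule.span_le (p := LinearMap.eqLocus g.1.1.toLinearMap .id)).2 ?_ hy
  rintro _ ⟨i | i, rfl⟩
  exacts [(hg i i.2).1, (hg i i.2).2]

theorem Fxo_perfect (J : Finset ι) (h : 2 * J.card + 5 ≤ finrank F V) :
    Fxo Q e f J ≤ ⁅Fxo Q e f J, Fxo Q e f J⁆ := by
  obtain ⟨U, h1, -, h2, φ, -, h3, -⟩ := exists_Fxo hQ hf J h
  rw [← h3, MonoidHom.range_eq_map, ← map_commutator, ← _root_.commutator_def,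
    commutator_omega_eq_top h1 (by omega)]

theorem Fxo_le {i j : ι} (hij : i ≠ j) (h : 7 ≤ finrank F V)
    {M : Subgroup (commutator (OG Q))} (hM : ∀ u ∈ [e j, f j], ∀ y,
      (∀ k ∈ [i, j], polar Q (e k) y = 0 ∧ polar Q (f k) y = 0) → eio Q u y ∈ M) :
    Fxo Q e f {i} ≤ M := by
  classical
  obtain ⟨U, h1, h2, h3, φ, -, h4, h5⟩ := exists_Fxo hQ hf {i} (by simpa)
  simp only [Finset.mem_singleton, forall_eq, Finset.card_singleton] at h2 h3
  have h6 : ∀ u v : U, Q u = 0 → Q v = 0 → polar Q u v = 1 → (∀ y ∈ U, polar Q u y = 0 →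
      polar Q v y = 0 → eio Q u y ∈ M) → Rad (polarBilin (Q.comp U.subtype)) (Q.comp U.subtype) u ⊤ ≤
        ((M.comap φ).map (Subgroup.subtype _)).map (Subgroup.subtype _) := fun u v hu hv e1 H => by
    refine (Rad_le_iff_eichler h1 (fun e => by simp [e] at e1) hu Submodule.mem_top).2 fun w _ hw =>
      ⟨_, ⟨eio _ u w, ?_, eio_val h1 (by omega) hu hw⟩, rfl⟩
    have e2 : polar Q u w = 0 := hw
    have e3 : polar Q u u = 0 := by rw [polar_self', hu, mul_zero]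
    have e4 : polar Q u (w - polar Q v w • u) = 0 := by simp [e2, e3]
    have e5 := eio_mem hQ (e := e) (f := f) (by omega) hu e4 (J := {i}) (by
      simp [(h2 _).1 u.2, (h2 _).1 w.2])
    refine (congrArg (· ∈ M) (Subtype.ext (Subtype.ext (LinearEquiv.ext fun x => ?_)))).mpr
      (H _ (sub_mem w.2 (U.smul_mem _ u.2)) e4 (by simp [polar_comm Q v.1, e1]))
    obtain ⟨y, e6, e7⟩ := hyp_decomp (hf.qe' i) (hf.qf' i) (by simp [hf.polar_ef]) x
    have e8 := h4.le ⟨eio _ u w, rfl⟩ i (by simp)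
    have e9 := h5 (eio _ u w) ⟨y, (h2 y).2 e7⟩
    rw [eio_apply h1 (by omega) hu hw] at e9
    rw [e6, map_add, map_add, map_add, map_add, map_smul, map_smul, map_smul, map_smul, e8.1, e8.2,
      (e5 i (by simp)).1, (e5 i (by simp)).2, e9, eio_apply hQ (by omega) hu e4]
    congr 1
    change y + polar Q u y • w.1 - polar Q w y • u.1 - (Q w * polar Q u y) • u.1 = _
    simp [quad_sub, quad_smul, hu, polar_comm Q w.1 u, e2]
    module
  rw [← h4]
  rintro _ ⟨k, rfl⟩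
  have e1 : e j ∈ U := by simp [h2, hf.polar_ee, hf.polar_fe, hij]
  have e2 : f j ∈ U := by simp [h2, hf.polar_ff, hf.polar_ef, hij]
  obtain ⟨_, ⟨k', h7, rfl⟩, h8⟩ := (polarG_omega' h1 (by omega)).le_of_pair (u := ⟨_, e1⟩)
    (v := ⟨_, e2⟩) (hf.qe j) (hf.qf j) (ne_of_eq_of_ne (hf.ef_self j) one_ne_zero)
    (h6 _ ⟨_, e2⟩ (hf.qe' j) (hf.qf' j) (hf.ef_self j) fun y a b c => hM _ (by simp) y
      (by simpa [(h2 y).1 a] using ⟨b, c⟩))
    (h6 _ ⟨_, e1⟩ (hf.qf' j) (hf.qe' j) (by simp [hf.polar_fe]) fun y a b c => hM _ (by simp) y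
      (by simpa [(h2 y).1 a] using ⟨c, b⟩)) (mem_OmG.2 k.2)
  exact (show k' = k from Subtype.ext (Subtype.ext h8)) ▸ h7

omit hf in
theorem index_stab (h : 5 ≤ finrank F V) (h0 : u ≠ 0) (hu : Q u = 0) :
    (MulAction.stabilizer (commutator (OG Q)) u).index + 1 = Nat.card {v // Q v = 0} := by
  have hW := isWittPair_quad Q hQ
  have : Finite V := Module.finite_of_finite F
  rw [MulAction.index_stabilizer, ← Set.ncard_insert_of_notMem (a := 0), ← Nat.card_coe_set_eq]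
  · refine congrArg (fun S : Set V => Nat.card S) (Set.ext fun v => ⟨?_, fun hv => ?_⟩)
    · rintro (rfl | ⟨g, rfl⟩)
      exacts [map_zero Q, (OG_map g.1 u).trans hu]
    refine (eq_or_ne v 0).imp_right fun h1 => ?_
    obtain ⟨g, h2, rfl⟩ := hW.exists_isom_vec h0 h1 (hv.trans hu.symm)
    refine (exists_mul_mem_commutator (reflSub_eq_top hQ (.inr (by omega)))
      (MulAction.stabilizer (OG Q) u) (fun v hv => ?_) (⟨g, h2⟩ : OG Q)⁻¹).elim fun k h3 =>
        ⟨⟨_, inv_mem h3.2⟩, (congrArg (· • u) (mul_inv_rev k _)).trans ((mul_smul _ _ _).trans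
          (congrArg g (inv_mem h3.1)))⟩
    obtain ⟨y, h3, h4⟩ := hW.exists_hyperbolic h0 (hu.trans (map_zero Q).symm)
    have h5 := hW.disjoint_hyperbolic (hW.self_eq_zero (hu.trans (map_zero Q).symm))
      (hW.self_eq_zero h3) (ne_of_eq_of_ne h4 one_ne_zero)
    have h6 := hW.finrank_perp (Submodule.span F {u, y})
    rw [IsWittPair.finrank_span_hyperbolic (hW.self_eq_zero (hu.trans (map_zero Q).symm))
      (ne_of_eq_of_ne h4 one_ne_zero)] at h6
    obtain ⟨z, h7, h8⟩ := exists_quad_eq_mem (hW.disjoint_perp_perp h5) (by omega) hv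
    exact ⟨oRefl Q z, oRefl_of_polar_eq_zero (polar_comm Q u z ▸ (mem_perp_pair.1 h7).1),
      oRefl_mul_mem_commutator hQ hv (h8 ▸ hv) ⟨_, by rw [h8]⟩⟩
  · rintro ⟨g, e⟩
    exact h0 (g.1.1.map_eq_zero_iff.1 e)

omit hf in
theorem om_step {p m : ℕ} [Fact p.Prime] [CharP F p] (hm : finrank F V = 2 * m + 2) (h4 : 4 ≤ m)
    (hp : ¬ IsPlus Q) (ih : ∀ U : Submodule F V, (polarBilin (Q.comp U.subtype)).Nondegenerate →
      ¬ IsPlus (Q.comp U.subtype) → finrank F U = 2 * m →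
      ¬ p ∣ Nat.card (Mult (commutator (OG (Q.comp U.subtype))))) :
    ¬ p ∣ Nat.card (Mult (commutator (OG Q))) := fun hd => by
  obtain ⟨e, f, hf⟩ := exists_qFrame_of_le hQ (k := 4) (by omega)
  have hW := isWittPair_quad Q hQ
  have h5 : 5 ≤ finrank F V := by omega
  have : Finite V := Module.finite_of_finite F
  have : Finite (V ≃ₗ[F] V) := DFunLike.finite _
  obtain ⟨Γ, _, _, π, hs, hc⟩ := exists_stem_prime (hasSchur_mult _) Fact.out hd
  let K (i : Fin 4) := Fxo Q e f {i}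
  have k1 : ∀ i, ∀ z ∈ ⁅(K i).comap π, (K i).comap π⁆, π z = 1 → z = 1 := fun i z hz => by
    obtain ⟨U, h1, h2, h3, φ, h6, h7, -⟩ := exists_Fxo hQ hf {i} (by simp; omega)
    simp only [Finset.mem_singleton, forall_eq, Finset.card_singleton] at h2 h3
    have : Finite (U ≃ₗ[F] U) := DFunLike.finite _
    refine eq_one_of_mult (stem_cext hs) Fact.out hc h6 (ih U h1 (fun h => hp ?_) (by omega))
      (h7 ▸ hz)
    obtain ⟨a, b, h8⟩ := h.exists_qFrame h1 (m := m) (by omega)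
    have h9 : QFrame Q (fun i => (a i).1) (fun i => (b i).1) :=
      ⟨fun i => (h8.qe' i).trans (map_zero Q).symm, fun i => (h8.qf' i).trans (map_zero Q).symm,
        h8.ee, h8.ff, h8.ef_self, h8.ef_ne⟩
    exact QFrame.isPlus hQ (h9.cons hW (hf.qe i) (hf.qf i) (hf.ef_self i)
      (fun j => ((h2 _).1 (a j).2).1) (fun j => ((h2 _).1 (b j).2).1)
      (fun j => ((h2 _).1 (a j).2).2) fun j => ((h2 _).1 (b j).2).2) (by simp; omega)
  have k2 : ∀ i j, K i ⊓ K j = Fxo Q e f {i, j} := fun i j => Subgroup.ext fun g => by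
    simp [K, Fxo, ← SetLike.mem_coe]
  obtain ⟨c, c1, c2⟩ := exists_can hs.1 (fun i j => k2 i j ▸ Fxo_perfect hQ hf _ (by
    have := Finset.card_le_two (a := i) (b := j); omega)) k1
  let o (i : Fin 4) (w : V) : Prop := polar Q (e i) w = 0 ∧ polar Q (f i) w = 0
  let pr (i : Fin 4) (w : V) : V := polar Q (f i) w • e i + polar Q (e i) w • f i
  have o1 : ∀ i w, o i (w - pr i w) := fun i w => by
    simp [o, pr, hf.polar_ee, hf.polar_ff, hf.polar_ef, hf.polar_fe]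
  have o2 : ∀ {i j}, i ≠ j → ∀ w, o i (pr j w) := fun h w => by
    simp [o, pr, hf.polar_ee, hf.polar_ff, hf.polar_ef, hf.polar_fe, h]
  have o3 : ∀ {i j}, i ≠ j → o i (e j) ∧ o i (f j) := fun h => by
    simp [o, hf.polar_ee, hf.polar_ff, hf.polar_ef, hf.polar_fe, h]
  have o4 : ∀ {i v w}, o i v → o i w → o i (v - w) := fun h h' => by simp [o, h.1, h.2, h'.1, h'.2]
  have o5 : ∀ {i u w}, Q u = 0 → polar Q u w = 0 → o i u → o i w → eio Q u w ∈ K i :=
    fun h1 h2 h3 h6 => eio_mem hQ h5 h1 h2 (by simpa using ⟨h3, h6⟩)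
  let P := LinearMap.ker (polarBilin Q (e 0))
  let E (w : V) := eio Q (e 0) w
  have p1 : ∀ {i}, 0 ≠ i → ∀ w, pr i w ∈ P := fun h w => (o2 h w).1
  have p2 : ∀ {i w}, 0 ≠ i → w ∈ P → o i w → E w ∈ K i := fun h h1 h2 =>
    o5 (hf.qe' 0) h1 (o3 h.symm).1 h2
  have p3 : ∀ v ∈ P, ∀ w ∈ P, E (v + w) = E v * E w := fun v h w h' => eio_add hQ h5 (hf.qe' 0) h h'
  have p4 : ∀ {i}, 0 ≠ i → ∀ v ∈ P, ∀ w ∈ P, o i v → o i w → c (E (v + w)) = c (E v) * c (E w) :=
    fun h v h1 w h2 h3 h6 => p3 v h1 w h2 ▸ (c2 _ _ (p2 h h1 h3)).2.1 _ (p2 h h2 h6)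
  have p5 : ∀ {i j}, 0 ≠ i → 0 ≠ j → ∀ w ∈ P, o i w →
      c (E w) = c (E (pr j w)) * c (E (w - pr j w)) := fun {i j} h h' w h1 h2 => by
    have : o i (pr j w) := (eq_or_ne i j).elim (fun e => by simp [← e, o, pr, h2.1, h2.2]) (o2 · w)
    rw [← p4 h _ (p1 h' w) _ (sub_mem h1 (p1 h' w)) this (o4 h2 this), add_sub_cancel]
  have p6 : ∀ {i}, 0 ≠ i → ∀ v ∈ P, ∀ w ∈ P, o i v → o i w → Commute (c (E v)) (c (E w)) :=
    fun h v h1 w h2 h3 h6 => (p4 h v h1 w h2 h3 h6).symm.trans (add_comm v w ▸ p4 h w h2 v h1 h6 h3)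
  let S : Multiplicative P →* Γ := .mk' (fun w => c (E (pr 1 w.toAdd)) * c (E (w.toAdd - pr 1 w.toAdd)))
    fun v w => by
      have e1 : pr 1 (v * w).toAdd = pr 1 v.toAdd + pr 1 w.toAdd := by
        simp [pr, add_smul]; abel
      have e2 := sub_mem v.toAdd.2 (p1 (i := 1) (by decide) v.toAdd)
      have e3 : Commute (c (E (pr 1 w.toAdd))) (c (E (v.toAdd - pr 1 v.toAdd))) := by
        rw [p5 (j := 2) (by decide) (by decide) _ e2 (o1 1 _)]
        exact (p6 (i := 3) (by decide) _ (p1 (by decide) _) _ (p1 (by decide) _) (o2 (by decide) _)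
          (o2 (by decide) _)).mul_right (p6 (i := 2) (by decide) _ (p1 (by decide) _) _
            (sub_mem e2 (p1 (by decide) _)) (o2 (by decide) _) (o1 _ _))
      rw [e1, toAdd_mul, Submodule.coe_add, ← sub_add_sub_comm, p4 (i := 2) (by decide) _
        (p1 (by decide) _) _ (p1 (by decide) _) (o2 (by decide) _) (o2 (by decide) _),
        p4 (i := 1) (by decide) _ e2 _ (sub_mem w.toAdd.2 (p1 (by decide) _)) (o1 _ _) (o1 _ _),
        mul_assoc, mul_assoc, e3.left_comm]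
  have s1 : ∀ w, π (S w) = E w.toAdd := fun w => by
    rw [← add_sub_cancel (pr 1 w.toAdd) w.toAdd, p3 _ (p1 (by decide) _) _
      (sub_mem w.toAdd.2 (p1 (by decide) _))]
    exact (map_mul π _ _).trans (congrArg₂ _ (c2 2 _ (p2 (by decide) (p1 (by decide) _)
      (o2 (by decide) _))).1 (c2 1 _ (p2 (by decide) (sub_mem w.toAdd.2 (p1 (by decide) _)) (o1 _ _))).1)
  have s2 : ∀ {i}, 0 ≠ i → ∀ w (h : w ∈ P), o i w → S (.ofAdd ⟨w, h⟩) = c (E w) := fun h w h1 h2 =>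
    (p5 h (by decide) w h1 h2).symm
  have s3 : ∀ {i}, 0 ≠ i → ∀ x, π x ∈ K 0 → π x ∈ K i → ∀ w ∈ P, o i w →
      x * c (E w) * x⁻¹ ∈ S.range := fun {i} h x h1 h2 w h3 h6 => by
    have e1 := fun v => OG_polar (π x).1 v w
    rw [(c2 i _ (p2 h h3 h6)).2.2 x h2, eio_conj hQ h5 (hf.qe' 0) h3, (h1 0 (by simp)).1]
    refine ⟨_, s2 h _ (((h1 0 (by simp)).1 ▸ e1 (e 0)).trans h3) ⟨?_, ?_⟩⟩
    · exact ((h2 i (by simp)).1 ▸ e1 (e i)).trans h6.1
    · exact ((h2 i (by simp)).2 ▸ e1 (f i)).trans h6.2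
  have s4 : ∀ {i j}, 0 ≠ i → 0 ≠ j → i ≠ j → ∀ g ∈ K 0, g ∈ K j → (∀ x, π x = g → ∀ w,
      x * c (E (pr j w)) * x⁻¹ ∈ S.range) → g ∈ (normalizer (S.range : Set Γ)).map π :=
    fun {i j} h h' h1 g h2 h3 h6 => by
      obtain ⟨x, rfl⟩ := hs.1 g
      refine ⟨x, mem_normalizer_fintype ?_, rfl⟩
      rintro _ ⟨w, rfl⟩
      have e1 := sub_mem w.toAdd.2 (p1 h' w.toAdd)
      have := mul_mem (h6 x rfl w.toAdd) (s3 h' x h2 h3 _ e1 (o1 j _))
      rw [conj_mul, ← s2 h _ (p1 h' _) (o2 h1 _), ← s2 h' _ e1 (o1 j _), ← map_mul, ← ofAdd_add] at this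
      simpa using this
  have s5 : K 0 ≤ (normalizer (S.range : Set Γ)).map π := by
    refine Fxo_le hQ hf (j := 1) (by decide) (by omega) fun u hu y hy => ?_
    have e1 : Q u = 0 ∧ (∀ i, i ≠ 1 → o i u) ∧ (∀ y, o 1 y → polar Q u y = 0) ∧
        ∀ g ∈ K 1, g.1.1 u = u := by
      simp only [List.mem_cons, List.not_mem_nil, or_false] at hu
      rcases hu with rfl | rfl
      exacts [⟨hf.qe' 1, fun i h => (o3 h).1, fun y h => h.1, fun g h => (h 1 (by simp)).1⟩,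
        ⟨hf.qf' 1, fun i h => (o3 h).2, fun y h => h.2, fun g h => (h 1 (by simp)).2⟩]
    have e2 : ∀ {i y}, i ≠ 1 → o 1 y → o i y → eio Q u y ∈ K i := fun h h1 h2 =>
      o5 e1.1 (e1.2.2.1 _ h1) (e1.2.1 _ h) h2
    have e3 : ∀ {k j}, 0 ≠ k → 0 ≠ j → 1 ≠ k → 1 ≠ j → k ≠ j → ∀ y,
        eio Q u (pr k y) ∈ (normalizer (S.range : Set Γ)).map π := fun {k j} a1 a2 a3 a4 a5 y =>
      s4 a1 a2 a5 _ (e2 (by decide) (o2 a3 y) (o2 a1 y)) (e2 a4.symm (o2 a3 y) (o2 a5.symm y))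
        fun x hx w => by
          rw [← commute_of_der hs.2.1 (c1 1 k _ (im (p2 (by decide) (p1 a2 w) (o2 a4 w))
            (p2 a1 (p1 a2 w) (o2 a5 w)))) (y := x) fun g hg => ?_, mul_inv_cancel_right]
          · exact ⟨_, s2 a1 _ (p1 a2 w) (o2 a5 w)⟩
          refine (mul_inv_eq_iff_eq_mul.1 ?_).symm
          rw [hx, eio_conj hQ h5 e1.1 (e1.2.2.1 _ (o2 a3 y)), e1.2.2.2 g (il hg)]
          simp [pr, ir hg k (by simp)]
    have e4 : o 0 y ∧ o 1 y := by simpa using hy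
    have e5 := fun i (h : i ≠ 2) (h' : i ≠ 3) (e : o i y) => o4 (o4 e (o2 h y)) (o2 h' (y - pr 2 y))
    have e6 := e5 1 (by decide) (by decide) e4.2
    have e7 := e2 (by decide) e6 (e5 0 (by decide) (by decide) e4.1)
    rw [← add_sub_cancel (pr 2 y) y, ← add_sub_cancel (pr 3 (y - pr 2 y)) (y - pr 2 y),
      eio_add hQ h5 e1.1 (e1.2.2.1 _ (o2 (by decide) _)) (e1.2.2.1 _ (by
        simpa using o4 e4.2 (o2 (by decide) y))),
      eio_add hQ h5 e1.1 (e1.2.2.1 _ (o2 (by decide) _)) (e1.2.2.1 _ e6)]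
    refine mul_mem (e3 (j := 3) (by decide) (by decide) (by decide) (by decide) (by decide) _)
      (mul_mem (e3 (j := 2) (by decide) (by decide) (by decide) (by decide) (by decide) _)
        (s4 (i := 2) (j := 3) (by decide) (by decide) (by decide) _ e7 (e2 (by decide) e6 (o1 3 _))
          fun x hx w => s3 (i := 2) (by decide) x (hx ▸ e7) (hx ▸ e2 (by decide) e6 (o4 (o1 2 y)
            (o2 (by decide) _))) _ (p1 (by decide) _) (o2 (by decide) _)))
  have s6 : ⁅(K 0).comap π, (K 0).comap π⁆ ≤ normalizer (S.range : Set Γ) :=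
    (commutator_le_self _).trans fun x hx => by
      obtain ⟨t, h1, h2⟩ := s5 hx
      simpa using mul_mem h1 (center_le_normalizer _ (hs.2.1 (show t⁻¹ * x ∈ π.ker by simp [h2])))
  have s7 : ∀ w ∈ P, (E w).1.1 (f 0) = f 0 + w - (polar Q w (f 0) + Q w) • e 0 := fun w hw => by
    simp [E, eio_apply hQ h5 (hf.qe' 0) hw, hf.polar_ef, add_smul, sub_sub]
  refine stem_not_split hs Fact.out hc (⁅(K 0).comap π, (K 0).comap π⁆ ⊔ S.range) (fun h => ?_)
    (eq_bot_iff.2 fun z hz => ?_)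
  · have h1 := index_stab hQ h5 ((hf.linearIndependent_left hW).ne_zero 0) (hf.qe' 0)
    rw [card_singular_minus hQ hp hm, Nat.add_right_cancel_iff] at h1
    have := Fintype.ofFinite F
    have h2 : p ∣ Nat.card F := by
      rw [← CharP.cast_eq_zero_iff F, Nat.card_eq_fintype_card, FiniteField.cast_card_eq_zero]
    refine (Fact.out : p.Prime).not_dvd_one (((Nat.Prime.dvd_mul Fact.out).1 (h1 ▸ h.trans
      (index_dvd_of_le fun g hg => ?_))).elim (Nat.dvd_add_right (dvd_pow h2 (by omega))).1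
      (Nat.dvd_sub_iff_right (Nat.one_le_pow _ _ Nat.card_pos) (dvd_pow h2 (by omega))).1)
    have e1 : g.1.1 (e 0) = e 0 := hg
    have e2 : g.1.1 (f 0) - f 0 ∈ P := by
      simpa [P, ← hf.polar_ef 0 0, sub_eq_zero, e1] using OG_polar g.1 (e 0) (f 0)
    have e3 : (E (g.1.1 (f 0) - f 0))⁻¹ * g ∈ K 0 := fun i hi => by
      obtain rfl := Finset.mem_singleton.1 hi
      refine ⟨(E (g.1.1 (f 0) - f 0)).1.1.injective ?_, (E (g.1.1 (f 0) - f 0)).1.1.injective ?_⟩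
      · rw [eio_apply hQ h5 (hf.qe' 0) e2 (e 0), polar_comm Q (_ - _), show polar Q (e 0) _ = 0 from e2]
        simp [e1, hf.polar_ee]
      · simp [s7 _ e2, quad_sub, OG_map, hf.qf', hf.polar_ff]
    rw [← mul_inv_cancel_left (E (g.1.1 (f 0) - f 0)) g]
    exact mul_mem ⟨_, mem_sup_right ⟨.ofAdd ⟨_, e2⟩, rfl⟩, s1 _⟩
      ⟨_, mem_sup_left (by simpa using c1 0 0 _ (im e3 e3)), (c2 0 _ e3).1⟩
  obtain ⟨d, h1, _, ⟨w, rfl⟩, rfl⟩ := (coe_mul_of_left_le_normalizer_right _ _ s6).le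
    (commutator_le_self _ hz.1)
  have h2 : π d * E w.toAdd = 1 := s1 w ▸ (map_mul π _ _).symm.trans hz.2
  have h3 := ((K 0).inv_mem (commutator_le_self ((K 0).comap π) h1) 0 (by simp)).2
  rw [← eq_inv_of_mul_eq_one_right h2, s7 _ w.toAdd.2, add_sub_assoc, add_eq_left, sub_eq_zero] at h3
  have h6 : E w.toAdd = 1 := Subtype.ext ((eio_val hQ h5 (hf.qe' 0) w.toAdd.2).trans
    ((eichler_congr _ _ rfl h3).trans (eichler_smul_self _ _ _)))
  have h7 : S w = 1 := (s2 (i := 1) (by decide) _ w.toAdd.2 (by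
    rw [h3]; simp [o, hf.polar_ee, hf.polar_fe])).trans (by
      simpa [h6] using (c2 0 1 (one_mem _)).2.1 1 (one_mem _))
  simpa [h7] using k1 0 d h1 (by simpa [h6] using h2)

end CF.BN
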