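import Cfsg.Agent.BN.ReeTori
import Cfsg.Agent.BN.ReeDeg
import Cfsg.Agent.Char.PermLemma

/-!
# Squares of classes: a character estimate and a count of classes
-/

set_option autoImplicit false

namespace CF.BN

open Subgroup Cfsg CF.Char ComplexConjugate

variable {G : Type*} [Group G]

theorem exists_mul_of_bound [Finite G] (hp : commutator G = ⊤) {d : ℕ}
    (hd : ∀ χ, IsIrrCharacter G χ → ∀ n : ℕ, χ 1 = n → 2 ≤ n → d ≤ n) {x g : G} {a r : ℕ}
    (hx : Nat.card (centralizer ({x} : Set G)) ≤ a + 1) (hg : Nat.card (centralizer ({g} : Set G)) ≤ r ^ 2)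
    (h : a * r < d) : ∃ u v : G, g = u * x * u⁻¹ * (v * x * v⁻¹) := by
  classical
  have := Fintype.ofFinite G
  by_contra h0
  have h1 := card_class_mul_eq x x g
  have : IsEmpty {p : G × G // IsConj x p.1 ∧ IsConj x p.2 ∧ p.1 * p.2 = g} := ⟨fun ⟨p, a, b, c⟩ => by
    obtain ⟨u, hu⟩ := isConj_iff.1 a
    obtain ⟨v, hv⟩ := isConj_iff.1 b
    exact h0 ⟨u, v, by rw [hu, hv, c]⟩⟩
  have h2 : (Nat.card {y : G // IsConj x y} : ℂ) ≠ 0 := by
    have : Nonempty {y : G // IsConj x y} := ⟨⟨x, IsConj.refl x⟩⟩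
    exact_mod_cast Nat.card_pos.ne'
  rw [Nat.card_of_isEmpty, Nat.cast_zero, eq_comm, mul_eq_zero] at h1
  replace h1 := h1.resolve_left (div_ne_zero (mul_ne_zero h2 h2) card_ne_zero_complex)
  rw [← Finset.add_sum_erase _ _ (Finset.mem_univ (oneIrr G))] at h1
  simp only [oneIrr_apply, map_one, mul_one, div_one] at h1
  have hd0 : (0 : ℝ) < d := by exact_mod_cast (by omega : 0 < d)
  have h3 : ∀ χ ∈ Finset.univ.erase (oneIrr G),
      ‖(χ : G → ℂ) x * (χ : G → ℂ) x * conj ((χ : G → ℂ) g) / (χ : G → ℂ) 1‖ ≤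
        ‖(χ : G → ℂ) x‖ ^ 2 * (r / d) := fun χ hχ => by
    obtain ⟨n, hn0, hn⟩ := irr_one_eq_nat χ.2
    have h4 : d ≤ n := hd _ χ.2 n hn (by
      by_contra h5
      have h6 : (χ : G → ℂ) 1 = 1 := by rw [hn, show n = 1 by omega, Nat.cast_one]
      exact Finset.ne_of_mem_erase hχ (Subtype.ext (irr_eq_one_of_charKer_eq_top χ.2
        (top_unique (hp ▸ (irr_one_eq_one_iff χ.2).1 h6)))))
    have h5 : ‖(χ : G → ℂ) g‖ ≤ r := by
      have h6 := Finset.single_le_sum (f := fun ψ : IrrCharacter G => ‖(ψ : G → ℂ) g‖ ^ 2)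
        (fun _ _ => sq_nonneg _) (Finset.mem_univ χ)
      rw [sum_irr_norm_sq] at h6
      have h7 : (Nat.card (centralizer ({g} : Set G)) : ℝ) ≤ r ^ 2 := by exact_mod_cast hg
      exact (abs_le_of_sq_le_sq' (h6.trans h7) (Nat.cast_nonneg r)).2
    rw [norm_div, norm_mul, norm_mul, Complex.norm_conj, hn, Complex.norm_natCast, ← sq, mul_div_assoc]
    refine mul_le_mul_of_nonneg_left ?_ (sq_nonneg _)
    exact div_le_div₀ (Nat.cast_nonneg r) h5 hd0 (by exact_mod_cast h4)
  have h4 := (norm_sum_le _ _).trans (Finset.sum_le_sum h3)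
  rw [eq_neg_of_add_eq_zero_right h1, norm_neg, norm_one, ← Finset.sum_mul] at h4
  have h5 := sum_irr_norm_sq x
  rw [← Finset.add_sum_erase _ _ (Finset.mem_univ (oneIrr G))] at h5
  simp only [oneIrr_apply, norm_one, one_pow] at h5
  have h6 : (Nat.card (centralizer ({x} : Set G)) : ℝ) ≤ a + 1 := by exact_mod_cast hx
  have h7 : (a : ℝ) * r < d := by exact_mod_cast h
  have h8 : (1 : ℝ) ≤ a * (r / d) := h4.trans (mul_le_mul_of_nonneg_right (by linarith) (by positivity))
  rw [← mul_div_assoc, le_div_iff₀ hd0] at h8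
  linarith

theorem card_isConj_mul [Finite G] (x : G) :
    Nat.card {y : G // IsConj x y} * Nat.card (centralizer ({x} : Set G)) = Nat.card G := by
  have h := card_eq_ncard_mul ⊤ x (X := {y | IsConj x y}) (fun y => by simp [isConj_iff])
  rw [top_inf_eq, card_top] at h
  exact h.symm

theorem ncard_classes [Finite G] {S : Set G} (hS : ∀ x ∈ S, ∀ y, IsConj x y → y ∈ S) {c : ℕ}
    (hc : ∀ x ∈ S, Nat.card (centralizer ({x} : Set G)) = c) :
    (ConjClasses.mk '' S).ncard * Nat.card G = Nat.card S * c := by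
  classical
  have := Fintype.ofFinite G
  have h1 := Finset.card_eq_sum_card_image ConjClasses.mk S.toFinset
  rw [Nat.card_coe_set_eq, Set.ncard_eq_toFinset_card' S, h1, Finset.sum_mul,
    show (ConjClasses.mk '' S).ncard = (S.toFinset.image ConjClasses.mk).card by
      rw [← Set.ncard_coe_finset, Finset.coe_image, Set.coe_toFinset], ← smul_eq_mul, ← Finset.sum_const]
  refine Finset.sum_congr rfl fun C hC => ?_
  obtain ⟨x, hx, rfl⟩ := Finset.mem_image.1 hC
  rw [Set.mem_toFinset] at hx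
  rw [← card_isConj_mul x, hc x hx, Nat.card_eq_fintype_card, Fintype.card_subtype]
  congr 2
  ext y
  simp only [Finset.mem_filter, Finset.mem_univ, true_and, Set.mem_toFinset, ConjClasses.mk_eq_mk_iff_isConj]
  exact ⟨fun h => ⟨hS x hx y h, h.symm⟩, fun h => h.2.symm⟩

theorem card_cent_conj (g x : G) :
    Nat.card (centralizer ({g * x * g⁻¹} : Set G)) = Nat.card (centralizer ({x} : Set G)) := by
  refine Nat.card_congr ⟨fun y => ⟨g⁻¹ * y * g, ?_⟩, fun y => ⟨g * y * g⁻¹, ?_⟩, fun y => Subtype.ext ?_,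
    fun y => Subtype.ext ?_⟩
  · have := mem_cent_iff.1 y.2
    exact mem_cent_iff.2 (commute_conj_iff.1 this)
  · exact mem_cent_iff.2 (commute_conj_iff.2 (by simpa [mul_assoc] using mem_cent_iff.1 y.2))
  · simp [mul_assoc]
  · simp [mul_assoc]

theorem OTor.card_cent [Finite G] {A : Subgroup G} (hA : OTor A) {x : G}
    (h : ¬ (orderOf x).Coprime (Nat.card A)) :
    Nat.card (centralizer ({x} : Set G)) = Nat.card (centralizer (A : Set G)) := by
  obtain ⟨g, hg⟩ := hA.exists_conj_mem_cent h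
  have h1 : g * x * g⁻¹ * (g * x * g⁻¹) ≠ 1 := (hA.mul_self_ne_one_iff hg).2 (by
    rwa [show orderOf (g * x * g⁻¹) = orderOf x from (MulAut.conj g).orderOf_eq x])
  rw [← card_cent_conj g x]
  congr 2
  exact le_antisymm (fun y hy => hA.mem_cent' hg h1 (mem_cent_iff.1 hy)) fun y hy => mem_cent_iff.2 (hA.comm hy hg)

theorem Ree.ReeData.TorData.ncard [Finite G] {A : Subgroup G} {k e n : ℕ} (h : Ree.ReeData.TorData A k e n) :
    (ConjClasses.mk '' {x : G | ¬ (orderOf x).Coprime k}).ncard * n = e * (k - 1) * (e * k) := by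
  have h1 := ncard_classes (S := {x : G | ¬ (orderOf x).Coprime k}) (c := e * k)
    (fun x hx y hy => by
      obtain ⟨g, rfl⟩ := isConj_iff.1 hy
      show ¬ _
      rwa [show orderOf (g * x * g⁻¹) = orderOf x from (MulAut.conj g).orderOf_eq x])
    fun x hx => by rw [h.tor.card_cent (h.card ▸ hx), h.cent, h.card]
  have h2 := h.tor.card_not_coprime h.cent
  rw [h.card] at h2
  rw [h2, ← (normalizer (A : Set G)).card_mul_index, h.norm] at h1
  have h3 : 0 < (normalizer (A : Set G)).index := Nat.pos_of_ne_zero index_ne_zero_of_finite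
  refine Nat.eq_of_mul_eq_mul_right h3 ?_
  rw [mul_assoc, h1]; ring

end CF.BN
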