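import Cfsg.Agent.BN.RcA

/-!
# Small Ree groups: centralisers and an equation over the field
-/

set_option autoImplicit false

namespace CF.BN.Ree

open Subgroup Finset

variable {K : Type*} [Field K]

theorem RT.exists_sol [Finite K] (T : RT K) (hq : 3 < Nat.card K) {σ : K} (h0 : σ ≠ 0) :
    ∃ (C : K) (t : Kˣ), (t : K) * (T.l t)⁻¹ + (t : K)⁻¹ * (C ^ 2 + 1) = σ := by
  classical
  have := Fintype.ofFinite K
  have h27 := T.le_card hq
  rw [Nat.card_eq_fintype_card] at h27
  by_contra hc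
  have h3 := T.three
  have hn : ∀ κ : K, κ ≠ 0 → quadraticChar K (σ * κ - κ ^ 2 * (T.l κ)⁻¹ - 1) = -1 := fun κ hκ => by
    rw [quadraticChar_neg_one_iff_not_isSquare]
    rintro ⟨C, e⟩
    refine hc ⟨C, Units.mk0 κ hκ, ?_⟩
    simp only [Units.val_mk0]
    rw [sq C, ← e]; field_simp; ring
  have hch : ringChar K ≠ 2 := by
    have := T.charP
    rw [ringChar.eq K 3]; norm_num
  have h1 : (univ.erase (0 : K)).card ≤
      3 * (univ.filter fun x : K => quadraticChar K x = -1 ∧ quadraticChar K (1 - x) = -1).card := by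
    refine card_le_mul_card_image_of_maps_to (f := fun κ => -(σ * κ - κ ^ 2 * (T.l κ)⁻¹) - 1) (fun κ hκ => ?_) 3
      fun x _ => ?_
    · have hκ := ne_of_mem_erase hκ
      refine mem_filter.2 ⟨mem_univ _, ?_, ?_⟩
      · rw [← hn (-κ) (neg_ne_zero.2 hκ), map_neg, inv_neg]; congr 1; ring
      · rw [← hn κ hκ]; congr 1; linear_combination h3
    · obtain ⟨ν, rfl⟩ : ∃ ν, x = -ν - 1 := ⟨-x - 1, by ring⟩
      let P : Cubic K := ⟨σ * T.l σ, -ν * T.l σ - T.l ν * σ ^ 2, 2 * T.l ν * σ * ν - 1, -T.l ν * ν ^ 2⟩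
      refine (card_le_card fun κ hκ => ?_).trans (Cubic.card_roots_le (P := P))
      obtain ⟨h4, h5⟩ := mem_filter.1 hκ
      have hκ := ne_of_mem_erase h4
      have h6 := T.l_ne_zero hκ
      have e1 : T.l κ * (σ * κ - ν) = κ ^ 2 := by
        have : ν = σ * κ - κ ^ 2 * (T.l κ)⁻¹ := by linear_combination h5
        rw [this]; field_simp; ring
      have e2 := congrArg T.l e1
      simp only [map_mul, map_sub, map_pow, T.l_l] at e2
      rw [Multiset.mem_toFinset, Cubic.mem_roots_iff (Cubic.ne_zero_of_a_ne_zero (mul_ne_zero h0 (T.l_ne_zero h0)))]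
      refine mul_left_cancel₀ (pow_ne_zero 3 hκ) ?_
      simp only [P]
      linear_combination (σ * κ - ν) ^ 2 * e2 + (T.l κ * (σ * κ - ν) + κ ^ 2 - κ ^ 3 * T.l σ * (σ * κ - ν)) * e1
  have hne := quadraticChar_ne_one hch
  have h2 : ∑ x : K, (1 - quadraticChar K x) * (1 - quadraticChar K (1 - x)) = Fintype.card K + 1 := by
    have a1 := jacobiSum_nontrivial_inv hne
    rw [(quadraticChar_isQuadratic K).inv, jacobiSum,
      quadraticChar_neg_one_iff_not_isSquare.2 T.not_isSquare_neg_one] at a1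
    have a2 := quadraticChar_sum_zero hch
    have a3 : ∑ x : K, quadraticChar K (1 - x) = 0 := by
      rw [← a2]; exact Fintype.sum_equiv (Equiv.subLeft 1) _ _ fun _ => rfl
    simp only [sub_mul, mul_sub, one_mul, mul_one, sum_sub_distrib, a1, a2, a3]
    simp
  have h4 : ((univ.filter fun x : K => quadraticChar K x = -1 ∧ quadraticChar K (1 - x) = -1).card : ℤ) * 4 ≤
      Fintype.card K + 1 := by
    rw [← h2, ← nsmul_eq_mul, ← sum_const]
    refine (sum_le_sum fun x hx => ?_).trans (sum_le_sum_of_subset_of_nonneg (filter_subset _ _) fun x _ _ => ?_)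
    · obtain ⟨-, a, b⟩ := mem_filter.1 hx
      rw [a, b]; norm_num
    · have key : ∀ y : K, 0 ≤ 1 - quadraticChar K y := fun y => by
        rcases quadraticChar_isQuadratic K y with h | h | h <;> rw [h] <;> norm_num
      exact mul_nonneg (key _) (key _)
  rw [card_erase_of_mem (mem_univ _), card_univ] at h1
  omega

theorem card_le_of_param {G : Type*} [Group G] {C : Subgroup G} {α : Type*} [Finite α] (f : α → G)
    (h : ∀ z ∈ C, ∃ p, z = f p) : Nat.card C ≤ Nat.card α := by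
  choose p hp using h
  exact Nat.card_le_card_of_injective (fun z : C => p z z.2) fun z z' e =>
    Subtype.ext (by rw [hp z z.2, hp z' z'.2]; exact congrArg f e)

variable {T : RT K} {G : Type*} [Group G] (D : ReeData T G)

namespace ReeData

theorem h_eq_of_commute {x y z : G} (hx : x ∈ D.U) {t : Kˣ} (hz : z = x * D.h t) {a b c : K} (hy : y = D.u a b c)
    (h : Commute z y) : T.χ₁ t * a = a ∧ (a = 0 → T.χ₂ t * b = b) := by
  obtain ⟨a', b', c', rfl⟩ := D.mem_U.1 hx
  have e : D.u a' b' c' * (D.h t * D.u a b c * (D.h t)⁻¹) = D.u a b c * D.u a' b' c' := by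
    have := h.eq
    rw [hz, hy] at this
    rw [← mul_assoc, ← mul_assoc, this]; group
  rw [D.h_conj_u, D.u_mul, D.u_mul, D.u_inj] at e
  refine ⟨by linear_combination e.1, fun h0 => ?_⟩
  have := e.2.1
  simp only [h0, mul_zero, map_zero, zero_mul, sub_zero] at this
  linear_combination this

variable [Finite K]

theorem card_cent_nine {a b c : K} (ha : a ≠ 0) :
    Nat.card (centralizer ({D.u a b c} : Set G)) ≤ 3 * Nat.card K := by
  have key : ∀ z, Commute z (D.u a b c) → ∀ b' c', z = D.u 0 b' c' → ∃ d, z = D.u 0 0 d := fun z hz b' c' e => by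
    have := hz.eq
    rw [e, D.m_mul_u, D.u_mul_m, D.u_inj] at this
    have h1 : a * b' = 0 := by linear_combination -this.2.2
    exact ⟨c', by rw [e, (mul_eq_zero.1 h1).resolve_left ha]⟩
  refine (card_le_of_param (fun p : Fin 3 × K => D.u 0 0 p.2 * D.u a b c ^ ((p.1 : ℤ) - 1)) fun z hz => ?_).trans
    (by simp)
  have hz := mem_cent_iff.1 hz
  have h1 : D.u a b c ≠ 1 := fun e => ha (D.u_eq_one.1 e).1
  obtain ⟨x, hx, t, e⟩ := D.mem_B'.1 (D.mem_B_of_conj (g := z) (D.u_mem_U a b c) h1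
    (by rw [hz.eq, mul_inv_cancel_right]; exact D.u_mem_B ..))
  have h2 := (D.h_eq_of_commute hx e rfl hz).1
  obtain rfl : t = 1 := T.χ₁_eq_one.1 (mul_right_cancel₀ ha (h2.trans (one_mul a).symm))
  obtain ⟨a', b', c', rfl⟩ := D.mem_U.1 hx
  rw [map_one, mul_one] at e
  have h3 := hz.eq
  rw [e, D.u_mul, D.u_mul, D.u_inj] at h3
  have h4 : a' = 0 ∨ a' = a ∨ a' = -a := by
    refine or_iff_not_imp_left.2 fun h5 => ?_
    have h6 := T.l_ne_zero ha
    have := T.sq_eq_one_of_l_eq (t := a' / a) (div_ne_zero h5 ha) (by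
      rw [map_div₀, div_eq_div_iff h6 ha]; linear_combination h3.2.1)
    rw [div_pow, div_eq_one_iff_eq (pow_ne_zero 2 ha), sq_eq_sq_iff_eq_or_eq_neg] at this
    exact this
  rcases h4 with rfl | rfl | rfl
  · obtain ⟨d, e⟩ := key z hz _ _ e
    exact ⟨(1, d), by simpa using e⟩
  · obtain ⟨d, e⟩ := key (z * (D.u a' b c)⁻¹) (hz.mul_left (Commute.refl _).inv_left) _ _
      (by rw [e, D.u_inv, D.u_mul, add_neg_cancel])
    exact ⟨(2, d), by simp [← e]⟩
  · obtain ⟨d, e⟩ := key (z * D.u a b c) (hz.mul_left (Commute.refl _)) _ _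
      (by rw [e, D.u_mul, neg_add_cancel])
    exact ⟨(0, d), by simp [← e]⟩

theorem card_cent_six {a b c : K} (h2 : D.u a b c * D.j * (D.u a b c * D.j) ≠ 1) :
    Nat.card (centralizer ({D.u a b c * D.j} : Set G)) ≤ 2 * Nat.card K := by
  have h3 := T.three
  have key : ∀ z ∈ D.U, Commute z (D.u a b c * D.j) → ∃ d, z = D.u 0 d (-(a * d)) := fun z hz hc => by
    obtain ⟨a', b', c', rfl⟩ := D.mem_U.1 hz
    have e : D.u a' b' c' * D.u a b c = D.u a b c * (D.j * D.u a' b' c' * D.j⁻¹) := by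
      have := hc.eq
      rw [← mul_assoc, ← mul_assoc, ← this]; group
    rw [D.j_conj_u, D.u_mul, D.u_mul, D.u_inj] at e
    obtain rfl : a' = 0 := by linear_combination -e.1 + a' * h3
    refine ⟨b', D.u_inj.2 ⟨rfl, rfl, ?_⟩⟩
    have := e.2.2
    simp only [map_zero, neg_zero, mul_zero, zero_mul, sub_zero, add_zero, zero_pow two_ne_zero] at this
    linear_combination -this + c' * h3
  refine (card_le_of_param (fun p : Fin 2 × K => D.u 0 p.2 (-(a * p.2)) * (D.u a b c * D.j) ^ (p.1 : ℕ))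
    fun z hz => ?_).trans (by simp)
  have hz := mem_cent_iff.1 hz
  have hz2 := hz.mul_right hz
  rw [D.u_mul_j_sq] at h2 hz2
  obtain ⟨x, hx, t, e⟩ := D.mem_B'.1 (D.mem_B_of_conj (g := z) (D.u_mem_U _ _ _) h2
    (by rw [hz2.eq, mul_inv_cancel_right]; exact D.u_mem_B ..))
  have h4 := (D.h_eq_of_commute hx e rfl hz2).2 rfl
  have h5 : a * T.l a - b ≠ 0 := fun h => h2 (D.u_eq_one.2 ⟨rfl, h, by linear_combination -a * h⟩)
  rcases T.χ₂_eq_one.1 (mul_right_cancel₀ h5 (h4.trans (one_mul _).symm)) with rfl | rfl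
  · obtain ⟨d, e⟩ := key z (by rw [e, map_one, mul_one]; exact hx) hz
    exact ⟨(0, d), by simpa using e⟩
  · obtain ⟨d, e⟩ := key (z * (D.u a b c * D.j)⁻¹) (by
      rw [e, mul_inv_rev, ← mul_assoc, show D.h (-1) = D.j from rfl, mul_inv_cancel_right]
      exact mul_mem hx (inv_mem (D.u_mem_U ..))) (hz.mul_left (Commute.refl _).inv_left)
    exact ⟨(1, d), by simp [← e, mul_assoc]⟩

end ReeData

end CF.BN.Ree
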