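import Cfsg.Agent.BN.RcB

/-!
# Small Ree groups: squares of regular semisimple classes
-/

set_option autoImplicit false

namespace CF.BN.Ree

open Subgroup CF.Chev Matrix
open scoped MatrixGroups

variable {K : Type*} [Field K] {T : RT K} {G : Type*} [Group G]

/-- `g` is a product of two conjugates of `x` -/
def Sq (x g : G) : Prop := ∃ u v : G, g = u * x * u⁻¹ * (v * x * v⁻¹)

theorem Sq.of_conj {x g : G} (k : G) (h : Sq x (k * g * k⁻¹)) : Sq x g := by
  obtain ⟨u, v, e⟩ := h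
  refine ⟨k⁻¹ * u, k⁻¹ * v, ?_⟩
  have : g = k⁻¹ * (k * g * k⁻¹) * k := by group
  rw [this, e]; group

theorem Sq.mul {x y z : G} (hy : IsConj x y) (hz : IsConj x z) : Sq x (y * z) := by
  obtain ⟨u, rfl⟩ := isConj_iff.1 hy
  obtain ⟨v, rfl⟩ := isConj_iff.1 hz
  exact ⟨u, v, rfl⟩

theorem orderOf_conj' (g x : G) : orderOf (g * x * g⁻¹) = orderOf x := (MulAut.conj g).orderOf_eq x

theorem IsConj.orderOf_eq' {x y : G} (h : IsConj x y) : orderOf y = orderOf x := by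
  obtain ⟨g, rfl⟩ := isConj_iff.1 h
  exact orderOf_conj' g x

namespace ReeData

variable (D : ReeData T G)

/-- a trace function -/
structure TrD (τ : G → K) (s : Kˣ) : Prop where
  conj : ∀ g x, τ (g * x * g⁻¹) = τ x
  pow : ∀ x, τ (x ^ Nat.card K) = τ x
  val : ∀ (B C : K) (t : Kˣ), τ (D.u 0 (T.l B) (T.l C) * (D.h (T.lu t * s) * D.w)) =
    -1 + (t * (T.l t)⁻¹ * B ^ 2 + (t : K)⁻¹ * (C ^ 2 + B * T.l B))

theorem hw_inv (t : Kˣ) : (D.h t * D.w)⁻¹ = D.h t * D.w := by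
  rw [_root_.mul_inv_rev, D.w_inv, ← map_inv, D.w_mul_h, inv_inv]

theorem exists_invol : ∃ j : G, orderOf j = 2 ∧ j = D.w⁻¹ * D.u 0 1 0 * D.w * (D.u 0 1 0)⁻¹ := by
  have h3 := T.three
  let A : SL(2, K) := ((sl2Rep K).n true 1)⁻¹ * sl2x K true 1 * (sl2Rep K).n true 1 * (sl2x K true 1)⁻¹
  have hA : (A : Matrix (Fin 2) (Fin 2) K) = !![1, -1; -1, 2] := by
    have e : ((sl2Rep K).n true 1 : Matrix (Fin 2) (Fin 2) K) = _ := val_sl2_n_true (K := K) 1
    rw [Matrix.SpecialLinearGroup.coe_mul, Matrix.SpecialLinearGroup.coe_mul, Matrix.SpecialLinearGroup.coe_mul,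
      Matrix.SpecialLinearGroup.coe_inv, Matrix.SpecialLinearGroup.coe_inv, e, val_sl2x_true,
      adjugate_fin_two_of, adjugate_fin_two_of]
    ext i j; fin_cases i <;> fin_cases j <;> simp
    norm_num
  refine ⟨D.φ A, orderOf_eq_prime ?_ fun e => ?_, by simp only [A, map_mul, map_inv, D.φ_u, D.φ_w]⟩
  · rw [← map_pow, D.φ_eq_one]
    refine Or.inr (Matrix.SpecialLinearGroup.ext _ _ fun i j => ?_)
    rw [sq, Matrix.SpecialLinearGroup.coe_mul, hA]
    fin_cases i <;> fin_cases j <;> simp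
    exacts [by linear_combination h3, by linear_combination -h3, by linear_combination -h3,
      by linear_combination 2 * h3]
  · rcases D.φ_eq_one.1 e with e | e <;>
    · have := congrFun (congrFun hA 0) 1
      rw [e] at this
      simp at this

variable [Finite K] (hq : 3 < Nat.card K) {r : ℕ} (hr : r ^ 2 = 3 * Nat.card K)
include hq hr

theorem r_le (T : RT K) : r + 4 ≤ Nat.card K ∧ 9 ≤ r ∧ 3 ∣ r := by
  have := T.le_card hq
  refine ⟨by nlinarith, by nlinarith, Nat.prime_three.dvd_of_dvd_pow (hr ▸ dvd_mul_right _ _)⟩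

theorem cases4 (D : ReeData T G) (x : G) : orderOf x = 1 ∨ orderOf x = 2 ∨ orderOf x = 3 ∨ orderOf x = 6 ∨ orderOf x = 9 ∨
    ¬ (orderOf x).Coprime ((Nat.card K - 1) / 2) ∨ ¬ (orderOf x).Coprime ((Nat.card K + 1) / 4) ∨
      ¬ (orderOf x).Coprime (Nat.card K - r + 1) ∨ ¬ (orderOf x).Coprime (Nat.card K + r + 1) := by
  obtain ⟨-, -, -, -, -, -, -, -, h⟩ := D.exists_tori hq hr
  have key : ∀ n, x ≠ 1 → orderOf x ∣ n → ¬ (orderOf x).Coprime n := fun n h1 h2 h3 =>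
    h1 (orderOf_eq_one_iff.1 (Nat.Coprime.eq_one_of_dvd h3 h2))
  rcases D.orderOf_cases x with h1 | h1 | h1 | h1 | h1 | h1 | h1 | h1
  iterate 7 tauto
  rcases h x h1 with h2 | h2 <;> have := key _ h1.1 h2 <;> tauto

theorem cent_tor (D : ReeData T G) {x : G} (h : ¬ (orderOf x).Coprime ((Nat.card K - 1) / 2) ∨
    ¬ (orderOf x).Coprime ((Nat.card K + 1) / 4) ∨ ¬ (orderOf x).Coprime (Nat.card K - r + 1) ∨
      ¬ (orderOf x).Coprime (Nat.card K + r + 1)) :
    Nat.card (centralizer ({x} : Set G)) ≤ Nat.card K + r + 1 ∧ ¬ 3 ∣ Nat.card (centralizer ({x} : Set G)) := by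
  have := D.finite
  obtain ⟨⟨A, a⟩, ⟨B, b⟩, ⟨C, c⟩, ⟨E, e⟩⟩ := D.exists_torData hq hr
  have h1 := T.card_mod_four
  have h2 := T.three_dvd
  have h3 := r_le hq hr T
  rcases h with h | h | h | h
  · rw [a.tor.card_cent (a.card ▸ h), a.cent, a.card]; omega
  · rw [b.tor.card_cent (b.card ▸ h), b.cent, b.card]; omega
  · rw [c.tor.card_cent (c.card ▸ h), c.cent, c.card]; omega
  · rw [e.tor.card_cent (e.card ▸ h), e.cent, e.card]; omega

theorem cent_reg (D : ReeData T G) {x : G} (h2 : 2 < orderOf x) (h3 : ¬ 3 ∣ orderOf x) :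
    Nat.card (centralizer ({x} : Set G)) ≤ Nat.card K + r + 1 ∧ ¬ 3 ∣ Nat.card (centralizer ({x} : Set G)) := by
  refine D.cent_tor hq hr ?_
  rcases D.cases4 hq hr x with h | h | h | h | h | h
  iterate 5 omega
  exact h

theorem ncard_le (D : ReeData T G) : (ConjClasses.mk '' {x : G | ¬ 3 ∣ orderOf x}).ncard ≤ Nat.card K := by
  have := D.finite
  obtain ⟨⟨A, a⟩, ⟨B, b⟩, ⟨C, c⟩, ⟨E, e⟩⟩ := D.exists_torData hq hr
  have h1 := T.card_mod_four
  have h3 := r_le hq hr T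
  have a1 := a.ncard
  have b1 := b.ncard
  have c1 := c.ncard
  have e1 := e.ncard
  generalize hA : ConjClasses.mk '' {x : G | ¬ (orderOf x).Coprime ((Nat.card K - 1) / 2)} = SA at a1
  generalize hB : ConjClasses.mk '' {x : G | ¬ (orderOf x).Coprime ((Nat.card K + 1) / 4)} = SB at b1
  generalize hC : ConjClasses.mk '' {x : G | ¬ (orderOf x).Coprime (Nat.card K - r + 1)} = SC at c1
  generalize hE : ConjClasses.mk '' {x : G | ¬ (orderOf x).Coprime (Nat.card K + r + 1)} = SE at e1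
  have h4 : ConjClasses.mk '' {x : G | ¬ 3 ∣ orderOf x} ⊆
      {ConjClasses.mk 1, ConjClasses.mk D.j} ∪ (SA ∪ (SB ∪ (SC ∪ SE))) := by
    rintro _ ⟨x, hx, rfl⟩
    have hx : ¬ 3 ∣ orderOf x := hx
    rcases D.cases4 hq hr x with h | h | h | h | h | h | h | h | h
    · exact Or.inl (Or.inl (by rw [orderOf_eq_one_iff.1 h]))
    · exact Or.inl (Or.inr (ConjClasses.mk_eq_mk_iff_isConj.2 (D.isConj_invol h D.orderOf_j)))
    iterate 3 omega
    exacts [.inr (.inl (hA ▸ ⟨x, h, rfl⟩)), .inr (.inr (.inl (hB ▸ ⟨x, h, rfl⟩))),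
      .inr (.inr (.inr (.inl (hC ▸ ⟨x, h, rfl⟩)))), .inr (.inr (.inr (.inr (hE ▸ ⟨x, h, rfl⟩))))]
  have h5 := (Set.ncard_le_ncard h4).trans ((Set.ncard_union_le _ _).trans (add_le_add
    ((Set.ncard_insert_le _ _).trans_eq (by rw [Set.ncard_singleton]))
    ((Set.ncard_union_le _ _).trans (add_le_add le_rfl ((Set.ncard_union_le _ _).trans
      (add_le_add le_rfl (Set.ncard_union_le _ _)))))))
  obtain ⟨k, hk⟩ : ∃ k, Nat.card K = 4 * k + 3 := ⟨Nat.card K / 4, by omega⟩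
  obtain ⟨n, hn⟩ : ∃ n, Nat.card K = r + n := ⟨Nat.card K - r, by omega⟩
  have a2 : SA.ncard = 2 * k := by
    rw [hk, show (4 * k + 3 - 1) / 2 = 2 * k + 1 by omega, show 4 * k + 3 - 1 = 2 * (2 * k + 1) by omega] at a1
    refine Nat.eq_of_mul_eq_mul_right (m := 2 * (2 * (2 * k + 1))) (by omega) ?_
    rw [a1, Nat.add_sub_cancel]; ring
  have b2 : SB.ncard * 6 = 4 * k := by
    rw [hk, show (4 * k + 3 + 1) / 4 = k + 1 by omega, show 4 * k + 3 + 1 = 4 * (k + 1) by omega] at b1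
    refine Nat.eq_of_mul_eq_mul_right (m := 4 * (k + 1)) (by omega) ?_
    rw [mul_assoc, b1, Nat.add_sub_cancel]
  have c2 : SC.ncard * 6 = Nat.card K - r := by
    refine Nat.eq_of_mul_eq_mul_right (m := Nat.card K - r + 1) (by omega) ?_
    rw [mul_assoc, c1, Nat.add_sub_cancel, one_mul, one_mul]
  have e2 : SE.ncard * 6 = Nat.card K + r := by
    refine Nat.eq_of_mul_eq_mul_right (m := Nat.card K + r + 1) (by omega) ?_
    rw [mul_assoc, e1, Nat.add_sub_cancel, one_mul, one_mul]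
  omega

namespace TrD

variable {D} {τ : G → K} {s : Kˣ} (h : D.TrD τ s)
include h

omit hq hr in
theorem exists_pow (y : G) : ∃ n : ℕ, ¬ 3 ∣ orderOf (y ^ n) ∧ τ (y ^ n) = τ y := by
  have := D.finite
  obtain ⟨a, m, h1, h2⟩ := Nat.exists_eq_pow_mul_and_not_dvd (orderOf_pos y).ne' 3 (by norm_num)
  refine ⟨Nat.card K ^ a, fun h3 => h1 (h3.trans (orderOf_dvd_of_pow_eq_one ?_)), ?_⟩
  · rw [← pow_mul, ← orderOf_dvd_iff_pow_eq_one, h2]
    exact Nat.mul_dvd_mul_right (pow_dvd_pow_of_dvd T.three_dvd a) m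
  · clear h2
    induction a with
    | zero => simp
    | succ a ih => rw [pow_succ, pow_mul, h.pow, ih]

omit hq hr [Finite K] in
theorem val0 (C : K) (t : Kˣ) : τ (D.u 0 0 (T.l C) * (D.h (T.lu t * s) * D.w)) = -1 + (t : K)⁻¹ * C ^ 2 := by
  simpa using h.val 0 C t

theorem inj {x y : G} (hx : ¬ 3 ∣ orderOf x) (hy : ¬ 3 ∣ orderOf y) (e : τ x = τ y) : IsConj x y := by
  have := D.finite
  let f : ConjClasses G → K := Quotient.lift τ fun a b hab => by
    obtain ⟨g, rfl⟩ := isConj_iff.1 hab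
    exact (h.conj g a).symm
  have h1 : f '' (ConjClasses.mk '' {x : G | ¬ 3 ∣ orderOf x}) = Set.univ := Set.eq_univ_of_forall fun c => by
    obtain ⟨y, rfl⟩ : ∃ y, τ y = c := by
      by_cases h0 : c + 1 = 0
      · exact ⟨_, (h.val0 0 1).trans (by linear_combination -h0)⟩
      · exact ⟨_, (h.val0 1 (Units.mk0 _ h0)⁻¹).trans (by simp)⟩
    obtain ⟨n, h2, h3⟩ := h.exists_pow y
    exact ⟨_, ⟨_, h2, rfl⟩, h3⟩
  have h2 := Set.injOn_of_ncard_image_eq (f := f) (s := ConjClasses.mk '' {x : G | ¬ 3 ∣ orderOf x})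
    (le_antisymm (Set.ncard_image_le (Set.toFinite _)) (by rw [h1, Set.ncard_univ]; exact D.ncard_le hq hr))
  exact ConjClasses.mk_eq_mk_iff_isConj.1 (h2 ⟨x, hx, rfl⟩ ⟨y, hy, rfl⟩ e)

variable {x : G} (h2 : 2 < orderOf x) (h3 : ¬ 3 ∣ orderOf x)
include h2 h3

theorem isConj {y : G} (e : τ y = τ x) : IsConj x y := by
  have := D.finite
  obtain ⟨n, a, b⟩ := h.exists_pow y
  obtain ⟨g, hg⟩ := isConj_iff.1 (h.inj hq hr h3 a (e.symm.trans b.symm))
  refine h.inj hq hr h3 (fun c => (D.cent_reg hq hr h2 h3).2 (c.trans ?_)) e.symm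
  rw [← card_cent_conj g, hg]
  exact orderOf_dvd_natCard _ (mem_cent_iff.2 (Commute.self_pow y n))

theorem ne : τ x + 1 ≠ 0 := fun e => by
  have h4 := IsConj.orderOf_eq' (h.isConj hq hr h2 h3 ((h.val0 0 1).trans (by linear_combination -e)))
  rw [map_zero, D.u_zero, one_mul] at h4
  have := Nat.le_of_dvd two_pos (h4 ▸ orderOf_dvd_of_pow_eq_one (n := 2) (by
    rw [sq, mul_eq_one_iff_inv_eq, D.hw_inv]))
  omega

theorem isConj_z {C : K} (hC : C ≠ 0) : ∃ n : G, n⁻¹ = n ∧ IsConj x (D.u 0 0 (T.l C) * n) ∧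
    IsConj x (D.u 0 0 (-T.l C) * n) := by
  have h0 := h.ne hq hr h2 h3
  refine ⟨_, D.hw_inv (T.lu (Units.mk0 (C ^ 2 / (τ x + 1)) (div_ne_zero (pow_ne_zero 2 hC) h0)) * s),
    h.isConj hq hr h2 h3 ((h.val0 _ _).trans ?_), ?_⟩
  · simp only [Units.val_mk0]; field_simp; ring
  · rw [← map_neg]
    refine h.isConj hq hr h2 h3 ((h.val0 _ _).trans ?_)
    simp only [Units.val_mk0]; field_simp; ring

theorem inv {y : G} (hy : IsConj x y) : IsConj x y⁻¹ := by
  obtain ⟨n, hn, a, b⟩ := h.isConj_z hq hr h2 h3 one_ne_zero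
  have c : IsConj (D.u 0 0 (-T.l 1) * n) (D.u 0 0 (T.l 1) * n)⁻¹ :=
    isConj_iff.2 ⟨n, by rw [← mul_assoc, mul_inv_cancel_right, _root_.mul_inv_rev, hn, D.u_inv]; simp⟩
  obtain ⟨g, rfl⟩ := isConj_iff.1 (a.symm.trans hy)
  exact (b.trans c).trans (isConj_iff.2 ⟨g, by group⟩)

theorem sq_z {c : K} (hc : c ≠ 0) : Sq x (D.u 0 0 c) := by
  obtain ⟨C, rfl⟩ := Finite.surjective_of_injective T.l.injective c
  obtain ⟨n, -, a, b⟩ := h.isConj_z hq hr h2 h3 (C := C) (by rintro rfl; simp at hc)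
  have := Sq.mul b (h.inv hq hr h2 h3 a)
  rw [_root_.mul_inv_rev, ← mul_assoc, mul_inv_cancel_right, D.u_inv, D.z_mul_u] at this
  convert this using 2
  · simp
  · simp
  · linear_combination T.l C * T.three

theorem sq_m {b : K} (hb : b ≠ 0) (c : K) : Sq x (D.u 0 b c) := by
  obtain ⟨C, t, e⟩ := T.exists_sol hq (h.ne hq hr h2 h3)
  have a1 := h.isConj hq hr h2 h3 ((h.val 1 C t).trans (by rw [map_one]; linear_combination e))
  have a2 := h.isConj hq hr h2 h3 ((h.val (-1) C t).trans (by rw [map_neg, map_one]; linear_combination e))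
  rw [map_one] at a1
  rw [map_neg, map_one] at a2
  have key : ∀ ε : K, ε = 1 ∨ ε = -1 → Sq x (D.u 0 ε 0) := by
    rintro _ (rfl | rfl)
    · have := Sq.mul a2 (h.inv hq hr h2 h3 a1)
      rw [_root_.mul_inv_rev, ← mul_assoc, mul_inv_cancel_right, D.u_inv, neg_zero, D.u_mul_m] at this
      convert this using 2
      · linear_combination T.three
      · simp
    · have := Sq.mul a1 (h.inv hq hr h2 h3 a2)
      rw [_root_.mul_inv_rev, ← mul_assoc, mul_inv_cancel_right, D.u_inv, neg_zero, D.u_mul_m] at this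
      convert this using 2
      · linear_combination -T.three
      · simp
  have k1 : Sq x (D.u 0 b 0) := by
    obtain ⟨β, e⟩ := T.exists_sq (Units.mk0 b hb)
    refine Sq.of_conj (D.h (T.lu β⁻¹ * β⁻¹)) ?_
    rw [D.h_conj_u, T.χ₂_lu, mul_zero, mul_zero]
    refine key _ (e.imp (fun e => ?_) fun e => ?_) <;>
    · have := congrArg Units.val e
      simp only [Units.val_mk0] at this
      simp [this]
  refine Sq.of_conj (D.u (-c / b) 0 0) ?_
  have : D.u (-c / b) 0 0 * D.u 0 b c = D.u 0 b 0 * D.u (-c / b) 0 0 := by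
    rw [D.u_mul_m, D.m_mul_u]; congr 1; field_simp; ring
  rwa [this, mul_inv_cancel_right]

theorem sq_j {g : G} (hg : orderOf g = 2) : Sq x g := by
  have h0 := h.ne hq hr h2 h3
  obtain ⟨j, hj, e⟩ := D.exists_invol
  obtain ⟨k, rfl⟩ := isConj_iff.1 (D.isConj_invol hg hj)
  refine Sq.of_conj k ?_
  obtain ⟨t, ht⟩ := Finite.surjective_of_injective (f := T.lu)
    (Units.map_injective T.l.injective) s⁻¹
  obtain ⟨C, ε, h4, h5⟩ : ∃ (C : K) (ε : Kˣ), (ε = 1 ∨ ε = -1) ∧ (τ x + 1) * t * ε = C ^ 2 := by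
    obtain ⟨β, e | e⟩ := T.exists_sq (Units.mk0 _ h0 * t)
    · exact ⟨β, 1, Or.inl rfl, by simpa using congrArg Units.val e⟩
    · exact ⟨β, -1, Or.inr rfl, by simpa [neg_eq_iff_eq_neg] using congrArg Units.val e⟩
  have a := h.isConj hq hr h2 h3 ((h.val0 C (t * ε)).trans (by rw [← h5]; simp; field_simp; ring))
  rw [show T.lu (t * ε) * s = ε by
    rw [map_mul, ht, mul_right_comm, inv_mul_cancel, one_mul]; rcases h4 with rfl | rfl <;> simp] at a
  have := Sq.mul (h.inv hq hr h2 h3 a) (a.trans (isConj_iff.2 ⟨D.u 0 1 0, rfl⟩))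
  have c1 : Commute (D.u 0 0 (T.l C)) (D.u 0 1 0) := by
    rw [Commute, SemiconjBy, D.z_mul_u, D.u_mul_z]
  have c2 : Commute (D.h ε) (D.u 0 1 0) := by
    rcases h4 with rfl | rfl
    · simp
    · exact D.commute_j_m 1
  rw [← mul_assoc (D.u 0 0 _), ← mul_assoc (D.u 0 1 0), ← (c1.mul_left c2).eq] at this
  rw [e]
  convert this using 1
  group

omit h2 h3 h in
theorem _root_.CF.BN.Ree.ReeData.cent_le (D : ReeData T G) {g : G} (h1 : orderOf g ≠ 1) (h2 : orderOf g ≠ 2)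
    (h3 : orderOf g ≠ 3) : Nat.card (centralizer ({g} : Set G)) ≤ r ^ 2 := by
  have h4 := r_le hq hr T
  have key : 3 ∣ orderOf g → ∃ k a b c t, k * g * k⁻¹ = D.u a b c * D.h t := fun h =>
    (D.exists_conj_mem_B h).imp fun _ h => D.mem_B.1 h
  rcases D.cases4 hq hr g with h | h | h | h | h | h
  iterate 3 contradiction
  · obtain ⟨k, a, b, c, t, e⟩ := key (by omega)
    rw [← orderOf_conj' k, e] at h
    have h5 := h ▸ D.orderOf_dvd_mul_h (D.u_mem_U a b c) t
    have h6 := orderOf_dvd_natCard t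
    rw [Nat.card_units] at h6
    have h7 : orderOf t ∣ 2 := Nat.Coprime.dvd_of_dvd_mul_right (n := 3) (Nat.Coprime.coprime_dvd_left
      h6 ((Nat.Prime.coprime_iff_not_dvd Nat.prime_three).2 (by have := T.three_dvd; omega)).symm) h5
    rcases sq_eq_one_iff.1 (congrArg Units.val (orderOf_dvd_iff_pow_eq_one.1 h7)) with e1 | e1
    · obtain rfl : t = 1 := Units.ext e1
      rw [map_one, mul_one] at h
      exact absurd (h ▸ orderOf_dvd_of_pow_eq_one (D.pow_nine (D.u_mem_U a b c))) (by norm_num)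
    · obtain rfl : t = -1 := Units.ext e1
      rw [← card_cent_conj k, e]
      refine (D.card_cent_six fun e2 => ?_).trans (by omega)
      exact absurd (h ▸ orderOf_dvd_of_pow_eq_one ((sq _).trans e2)) (by norm_num)
  · obtain ⟨k, hk⟩ := D.exists_conj_mem_B (x := g) (by omega)
    rw [← orderOf_conj' k] at h
    obtain ⟨a, b, c, e⟩ := D.mem_U.1 (D.mem_U_of_mem_B hk (h ▸ pow_orderOf_eq_one _))
    rw [← card_cent_conj k, e, hr]
    refine D.card_cent_nine fun e2 => ?_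
    exact absurd (h ▸ e ▸ orderOf_dvd_of_pow_eq_one (D.u_cube_eq_one.2 e2)) (by norm_num)
  · have := (D.cent_tor hq hr h).1
    omega

theorem sq {g : G} (hg : g ≠ 1) : Sq x g := by
  have := D.finite
  by_cases a2 : orderOf g = 2
  · exact h.sq_j hq hr h2 h3 a2
  by_cases a3 : orderOf g = 3
  · obtain ⟨k, hk⟩ := D.exists_conj_mem_B (x := g) (by omega)
    rw [← orderOf_conj' k] at a3
    have hU := D.mem_U_of_mem_B hk (orderOf_dvd_iff_pow_eq_one.1 (by rw [a3]; norm_num))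
    obtain ⟨⟨b, c, e⟩, h1⟩ := (D.orderOf_eq_three hU).1 a3
    refine Sq.of_conj k ?_
    rw [e] at h1 ⊢
    by_cases hb : b = 0
    · subst hb
      exact h.sq_z hq hr h2 h3 fun hc => h1 (D.u_eq_one.2 ⟨rfl, rfl, hc⟩)
    · exact h.sq_m hq hr h2 h3 hb c
  have h4 := r_le hq hr T
  refine exists_mul_of_bound (D.commutator_eq_top hq) (fun χ hχ n => D.le_degree hq hχ) (D.cent_reg hq hr h2 h3).1
    (D.cent_le hq hr (by simpa using hg) a2 a3) ?_
  obtain ⟨n, hn⟩ : ∃ n, Nat.card K = r + 4 + n := ⟨Nat.card K - (r + 4), by omega⟩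
  have : (Nat.card K + r) * r + Nat.card K ≤ Nat.card K ^ 2 := by nlinarith
  omega

end TrD

end ReeData

end CF.BN.Ree
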