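import Cfsg.Agent.BN.ReeTori

/-!
# Groups isospectral to the cube of a small Ree group
-/

set_option autoImplicit false

namespace CF.BN.Ree

open Subgroup Matrix SemidirectProduct CF.Chev CF.Classical
open scoped MatrixGroups

theorem sd_pow {N Q : Type*} [CommGroup N] [Group Q] {φ : Q →* MulAut N} (z : N ⋊[φ] Q) {k : ℕ}
    (h : z.right ^ k = 1) : ∃ m, z ^ k = inl m ∧ φ z.right m = m := by
  have e : z ^ k = inl (z ^ k).left := by
    ext
    · simp
    · rw [right_inl, ← rightHom_eq_right, map_pow]; exact h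
  refine ⟨_, e, ?_⟩
  have := congrArg SemidirectProduct.left (Commute.self_pow z k).eq
  rw [e] at this
  simpa [mul_comm] using this

variable {K : Type*} [Field K]

theorem sl2_sq (g : SL(2, K)) : (g : Matrix (Fin 2) (Fin 2) K) * g = (trace g.1) • g.1 - 1 := by
  have := g.2
  rw [det_fin_two] at this
  ext i j
  fin_cases i <;> fin_cases j <;> simp [mul_apply, trace_fin_two]
  · linear_combination -this
  · ring
  · ring
  · linear_combination -this

/-- The twisted tensor action. -/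
def RT.act (T : RT K) (p : ℤˣ × SL(2, K)) (M : Matrix (Fin 2) (Fin 2) K) : Matrix (Fin 2) (Fin 2) K :=
  ((p.1 : ℤ) : K) • (p.2.1 * M * (p.2.1.map (T.l.comp T.l))ᵀ)

theorem RT.act_mul (T : RT K) (p q : ℤˣ × SL(2, K)) (M : Matrix (Fin 2) (Fin 2) K) :
    T.act (p * q) M = T.act p (T.act q M) := by
  simp only [RT.act, Prod.fst_mul, Prod.snd_mul, Matrix.SpecialLinearGroup.coe_mul, Matrix.map_mul,
    transpose_mul, Units.val_mul, Int.cast_mul, mul_smul_comm, smul_mul_assoc, smul_smul, mul_assoc]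

theorem RT.act_one (T : RT K) (M : Matrix (Fin 2) (Fin 2) K) : T.act 1 M = M := by
  simp [RT.act]

theorem RT.act_neg_one (T : RT K) (M : Matrix (Fin 2) (Fin 2) K) : T.act (1, -1) M = M := by
  simp [RT.act, Matrix.map_neg]

theorem RT.act_add (T : RT K) (p : ℤˣ × SL(2, K)) (M M' : Matrix (Fin 2) (Fin 2) K) :
    T.act p (M + M') = T.act p M + T.act p M' := by
  simp [RT.act, mul_add, add_mul]

theorem RT.of_act_eq (T : RT K) {p : ℤˣ × SL(2, K)} {M : Matrix (Fin 2) (Fin 2) K} (h0 : M ≠ 0)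
    (h : T.act p M = M) : p.2 * p.2 = -1 ∨ (p.1 = 1 ∧ (p.2 ^ 3 = 1 ∨ p.2 ^ 3 = -1)) := by
  obtain ⟨ε, g⟩ := p
  have h3 := T.three
  have hg := sl2_sq g
  simp only [RT.act] at h ⊢
  set τ := trace g.1
  set k := (g.1.map (T.l.comp T.l))ᵀ with hk
  have hk2 : k * k = τ ^ 3 • k - 1 := by
    rw [hk, ← transpose_mul, ← Matrix.map_mul, hg, Matrix.map_sub _ (map_sub _), Matrix.map_one _
      (map_zero _) (map_one _), transpose_sub, transpose_one, ← T.l_l]
    congr 1
    ext i j
    simp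
  have he : ((ε : ℤ) : K) * ((ε : ℤ) : K) = 1 := by
    rw [← Int.cast_mul, Int.units_coe_mul_self, Int.cast_one]
  set e := ((ε : ℤ) : K) with he'
  have h1 : g.1 * M * k = e • M := by
    conv_rhs => rw [← h, smul_smul, he, one_smul]
  have h2 : g.1 * g.1 * M * (k * k) = M := by
    calc _ = g.1 * (g.1 * M * k) * k := by simp only [mul_assoc]
      _ = M := by rw [h1, mul_smul_comm, smul_mul_assoc, h]
  have h4 : (τ * e - τ ^ 3) • (M * k) = 0 := by
    rw [hg, sub_mul, sub_mul, smul_mul_assoc, smul_mul_assoc, ← mul_assoc, h1, one_mul, hk2, mul_sub,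
      mul_smul_comm, smul_mul_assoc, smul_smul, mul_one] at h2
    linear_combination (norm := module) h2
  have h5 : τ * e - τ ^ 3 = 0 := by
    refine (smul_eq_zero.1 h4).resolve_right fun h' => h0 ?_
    rw [← h, mul_assoc, h', mul_zero, smul_zero]
  have h6 : τ = 0 ∨ τ ^ 2 = e := by
    rcases mul_eq_zero.1 (show τ * (τ ^ 2 - e) = 0 by linear_combination -h5) with h | h
    exacts [Or.inl h, Or.inr (sub_eq_zero.1 h)]
  rcases h6 with h6 | h6
  · left
    ext1
    simp [hg, h6]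
  · right
    rcases Int.units_eq_one_or ε with rfl | rfl
    · have hg3 : g.1 ^ 3 = -(τ • 1) := by
        rw [pow_succ, sq, hg, sub_mul, smul_mul_assoc, hg, smul_sub, smul_smul, ← sq, h6]
        simp [he']
      rcases sq_eq_one_iff.1 (show τ ^ 2 = 1 by simpa [he'] using h6) with h | h
      · exact ⟨rfl, Or.inr (Subtype.ext (by simp [hg3, h]))⟩
      · exact ⟨rfl, Or.inl (Subtype.ext (by simp [hg3, h]))⟩
    · exact absurd ⟨τ, by rw [← sq, h6]; simp [he']⟩ T.not_isSquare_neg_one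

/-- The action on a sum of copies of the twisted tensor module. -/
def RT.actN (T : RT K) (n : ℕ) :
    ℤˣ × SL(2, K) →* MulAut (Multiplicative (Fin n → Matrix (Fin 2) (Fin 2) K)) :=
  MonoidHom.mk' (fun p =>
    { toFun v := .ofAdd fun i => T.act p (v.toAdd i)
      invFun v := .ofAdd fun i => T.act p⁻¹ (v.toAdd i)
      left_inv v := by simp [← T.act_mul, T.act_one]
      right_inv v := by simp [← T.act_mul, T.act_one]
      map_mul' v w := by simp only [toAdd_mul, Pi.add_apply, T.act_add]; rfl }) fun p q => by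
    ext v i : 3
    exact T.act_mul p q _

namespace ReeData

variable {T : RT K} {G : Type*} [Group G] (D : ReeData T G) [Finite K]

/-- The centralizer of `j` as an image of `±1 × SL₂(K)`. -/
def ι : ℤˣ × SL(2, K) →* G :=
  (D.h.comp (Units.map (Int.castRingHom K))).noncommCoprod D.φ fun ε g => by
    rcases Int.units_eq_one_or ε with rfl | rfl
    · simp
    · simpa [j] using D.commute_j (D.φ_mem_L g)

theorem ι_one (g : SL(2, K)) : D.ι (1, g) = D.φ g := by simp [ι]

theorem ι_neg_one (g : SL(2, K)) : D.ι (-1, g) = D.j * D.φ g := by simp [ι, j]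

theorem ker_ι_le (n : ℕ) : D.ι.rangeRestrict.ker ≤ (T.actN n).ker := by
  rintro ⟨ε, g⟩ h
  rw [MonoidHom.ker_rangeRestrict, MonoidHom.mem_ker] at h
  rcases Int.units_eq_one_or ε with rfl | rfl
  · rcases D.φ_eq_one.1 ((D.ι_one g).symm.trans h) with rfl | rfl
    · exact one_mem _
    · ext v i : 3
      exact T.act_neg_one _
  · rw [ι_neg_one, mul_eq_one_iff_eq_inv] at h
    exact absurd (h ▸ inv_mem (D.φ_mem_L g)) D.j_not_mem_L

theorem mem_range_ι {y : G} (h : Commute D.j y) : y ∈ D.ι.range := by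
  rcases D.commute_j_iff.1 h with ⟨g, h⟩ | ⟨g, h⟩ <;> obtain ⟨g, rfl⟩ := slToPSL_surjective g
  · exact ⟨(1, g), (D.ι_one g).trans h⟩
  · refine ⟨(-1, g), ?_⟩
    rw [ι_neg_one, show D.φ g = D.j * y from h, ← mul_assoc, j_mul_j, one_mul]

/-- The action of the centralizer of `j`. -/
noncomputable def actC (n : ℕ) :
    D.ι.range →* MulAut (Multiplicative (Fin n → Matrix (Fin 2) (Fin 2) K)) :=
  D.ι.rangeRestrict.liftOfSurjective D.ι.rangeRestrict_surjective ⟨T.actN n, D.ker_ι_le n⟩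

theorem actC_ι (n : ℕ) (p : ℤˣ × SL(2, K)) : D.actC n (D.ι.rangeRestrict p) = T.actN n p :=
  MonoidHom.liftOfRightInverse_comp_apply ..

/-- The affine group. -/
abbrev Aff (n : ℕ) := Multiplicative (Fin n → Matrix (Fin 2) (Fin 2) K) ⋊[D.actC n] D.ι.range

omit [Finite K] in
theorem cube_eq_one (T : RT K) {n : ℕ} (m : Multiplicative (Fin n → Matrix (Fin 2) (Fin 2) K)) :
    m ^ 3 = 1 := by
  ext i a b
  simp [T.three]

theorem orderOf_aff {n : ℕ} (z : D.Aff n) :
    orderOf z ∣ 6 ∨ orderOf z ∣ 9 ∨ ∃ y : G, orderOf z ∣ orderOf y := by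
  obtain ⟨p, hp⟩ := D.ι.rangeRestrict_surjective z.right
  have key : ∀ k, D.ι p ^ k = 1 → orderOf z ∣ k * 3 := fun k hk => by
    obtain ⟨m, hm, -⟩ := sd_pow z (k := k) (Subtype.ext (by rw [← hp]; exact hk))
    rw [orderOf_dvd_iff_pow_eq_one, pow_mul, hm, ← map_pow, cube_eq_one T, map_one]
  obtain ⟨m, hm, hm'⟩ := sd_pow z (pow_orderOf_eq_one _)
  by_cases h1 : m = 1
  · refine Or.inr (Or.inr ⟨z.right, ?_⟩)
    rw [orderOf_dvd_iff_pow_eq_one, Subgroup.orderOf_coe, hm, h1, map_one]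
  obtain ⟨i, hi⟩ : ∃ i, m.toAdd i ≠ 0 := by
    by_contra! h
    exact h1 (funext h)
  rw [← hp, actC_ι] at hm'
  obtain ⟨ε, g⟩ := p
  rcases T.of_act_eq hi (congrFun hm' i) with h | ⟨rfl, h⟩
  · refine Or.inl (key 2 ?_)
    rw [← map_pow, sq, Prod.mk_mul_mk, Int.units_mul_self, ι_one, D.φ_eq_one]
    exact Or.inr h
  · refine Or.inr (Or.inl (key 3 ?_))
    rwa [ι_one, ← map_pow, D.φ_eq_one]

theorem exists_aff_nine (n : ℕ) : ∃ z : D.Aff (n + 1), orderOf z = 9 := by
  let x : ℤˣ × SL(2, K) := (1, sl2x K true 1)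
  let z : D.Aff (n + 1) := ⟨.ofAdd fun _ => !![0, 0; 0, 1], D.ι.rangeRestrict x⟩
  have h3 := T.three
  have hx : z.right ^ 3 = 1 := Subtype.ext (by
    change D.ι x ^ 3 = 1
    rw [ι_one, D.φ_u, u_cube_eq_one])
  refine ⟨z, orderOf_eq_prime_pow (p := 3) (n := 1) (fun h => ?_) ?_⟩
  · have := congrArg (fun y => y.left.toAdd 0 0 0) h
    simp only [pow_one, pow_three, mul_left, z, actC_ι] at this
    have e : ∀ M, T.act x M = !![1, 1; 0, 1] * M * !![1, 0; 1, 1] := fun M => by
      simp only [RT.act, x, val_sl2x_true, Units.val_one, Int.cast_one, one_smul]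
      congr 1
      ext i j
      fin_cases i <;> fin_cases j <;> simp
    simp [RT.actN, e] at this
    exact T.two_ne_zero' (by linear_combination this - h3)
  · obtain ⟨m, hm, -⟩ := sd_pow z hx
    rw [show 3 ^ (1 + 1) = 3 * 3 by rfl, pow_mul, hm, ← map_pow, cube_eq_one T, map_one]

theorem lt_card_aff (n : ℕ) : n < Nat.card (D.Aff n) := by
  have := D.finite
  rw [SemidirectProduct.card]
  refine lt_of_lt_of_le ?_ (Nat.le_mul_of_pos_right _ Nat.card_pos)
  rw [Nat.card_congr Multiplicative.toAdd, Nat.card_fun, Nat.card_eq_fintype_card (α := Fin n),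
    Fintype.card_fin]
  exact Nat.lt_pow_self Finite.one_lt_card

theorem exists_aff_of_commute (n : ℕ) {y : G} (h : Commute D.j y) {d : ℕ} (hd : d ∣ orderOf y) :
    ∃ z : D.Aff n, orderOf z = d := by
  have := D.finite
  obtain ⟨k, hk⟩ := exists_pow_orderOf_eq hd
  exact ⟨inr ⟨_, D.mem_range_ι (h.pow_right k)⟩, by
    rw [orderOf_injective _ inr_injective, ← Subgroup.orderOf_coe]; exact hk⟩

theorem orderOf_cases_aff (hq : 3 < Nat.card K) (n : ℕ) (g : G) :
    (∃ z : D.Aff (n + 1), orderOf z = orderOf g) ∨ D.Reg g := by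
  have := D.finite
  have h4 := T.card_mod_four
  obtain ⟨z, hz⟩ := D.exists_aff_nine n
  have h6 : orderOf (D.j * D.u 0 1 0) = 6 := by
    rw [(D.commute_j_m 1).orderOf_mul_eq_mul_orderOf_of_coprime, D.orderOf_j,
      orderOf_eq_prime (D.u_cube_eq_one.2 rfl) (by simp [u_eq_one])]
    rw [D.orderOf_j, orderOf_eq_prime (D.u_cube_eq_one.2 rfl) (by simp [u_eq_one])]
    decide
  have a6 : orderOf g ∣ 6 → ∃ z : D.Aff (n + 1), orderOf z = orderOf g := fun h =>
    D.exists_aff_of_commute _ ((Commute.refl _).mul_right (D.commute_j_m 1)) (h6 ▸ h)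
  rcases D.orderOf_cases g with h' | h' | h' | h' | h' | h' | h' | h'
  iterate 4 exact Or.inl (a6 (by simp [h']))
  · exact Or.inl ⟨z, hz.trans h'.symm⟩
  · have := D.card_H₂ ▸ (D.oTor_H₂ hq).orderOf_dvd_of_commute (D.card_H₂' ▸ h') (.refl g)
    obtain ⟨t, ht⟩ := IsCyclic.exists_ofOrder_eq_natCard (α := Kˣ)
    refine Or.inl (D.exists_aff_of_commute _ (D.commute_j_h t) ?_)
    rwa [orderOf_injective _ D.h_injective, ht, Nat.card_units]
  · obtain ⟨c, hc⟩ := D.exists_ns_w
    have := (hc.oTor hq).orderOf_dvd_of_commute (hc.card_A' ▸ h') (.refl g)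
    refine Or.inl (D.exists_aff_of_commute _ (D.commute_j hc.mem) ?_)
    rwa [show orderOf c = 2 * Nat.card (zpowers (c * c)) by have := hc.ord; have := hc.card_A; omega]
  · exact Or.inr h'

theorem range_orderOf_aff (hq : 3 < Nat.card K) (n : ℕ) :
    Set.range (orderOf : G × G × D.Aff (n + 1) → ℕ) = Set.range (orderOf : G × G × G → ℕ) := by
  have := D.finite
  have key : ∀ {d} (g : G), d ∣ orderOf g → ∃ g : G, orderOf g = d :=
    fun g h => let ⟨_, hk⟩ := exists_pow_orderOf_eq h; ⟨_, hk⟩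
  have pos : ∀ {d} n, 0 < Nat.card {g : G // orderOf g = n} → d ∣ n → ∃ g : G, orderOf g = d :=
    fun n h h' => let ⟨g, hg⟩ := (Nat.card_pos_iff.1 h).1; key g (hg ▸ h')
  have : 0 < Nat.card K - 1 := by omega
  ext d
  constructor
  · rintro ⟨⟨a, b, z⟩, rfl⟩
    obtain ⟨c, hc⟩ : ∃ c : G, orderOf c = orderOf z := by
      rcases D.orderOf_aff z with h | h | ⟨y, h⟩
      · exact pos 6 (by rw [D.card_orderOf_six]; positivity) h
      · exact pos 9 (by rw [D.card_orderOf_nine]; positivity) h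
      · exact key y h
    exact ⟨(a, b, c), by simp only [Prod.orderOf_mk, hc]⟩
  · rintro ⟨⟨a, b, c⟩, rfl⟩
    rcases D.orderOf_cases_aff hq n c with ⟨z, hz⟩ | hc
    · exact ⟨(a, b, z), by simp only [Prod.orderOf_mk, hz]⟩
    rcases D.orderOf_cases_aff hq n b with ⟨z, hz⟩ | hb
    · exact ⟨(a, c, z), by simp only [Prod.orderOf_mk, hz, Nat.lcm_comm]⟩
    rcases D.orderOf_cases_aff hq n a with ⟨z, hz⟩ | ha
    · exact ⟨(b, c, z), by simp only [Prod.orderOf_mk, hz]; ac_rfl⟩
    obtain ⟨m, hm⟩ := T.exists_card_eq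
    obtain ⟨x, y, hx, hy, ex, ey, -, -, h⟩ :=
      D.exists_tori hq (r := 3 ^ (m + 1)) (by rw [hm]; ring)
    rw [← ex, ← ey] at h
    have two : ∀ {x a b : G} (c : G), D.Reg x → orderOf a ∣ Nat.card (centralizer ({x} : Set G)) →
        orderOf b ∣ Nat.card (centralizer ({x} : Set G)) → ∃ z : G × G × D.Aff (n + 1),
          orderOf z = (orderOf c).lcm ((orderOf a).lcm (orderOf b)) := fun c hx ha hb => by
      obtain ⟨g, -, hg⟩ := exists_orderOf_eq_of_isCyclic (hx.isCyclic hq) (Nat.lcm_dvd ha hb)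
      exact ⟨(c, g, 1), by simp [Prod.orderOf_mk, hg]⟩
    simp only [Prod.orderOf_mk, Set.mem_range]
    rcases h a ha with ha | ha <;> rcases h b hb with hb | hb <;> rcases h c hc with hc | hc
    · exact two a hx hb hc
    · exact (two c hx ha hb).imp fun _ h => h.trans (by ac_rfl)
    · exact (two b hx ha hc).imp fun _ h => h.trans (by ac_rfl)
    · exact two a hy hb hc
    · exact two a hx hb hc
    · exact (two b hy ha hc).imp fun _ h => h.trans (by ac_rfl)
    · exact (two c hy ha hb).imp fun _ h => h.trans (by ac_rfl)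
    · exact two a hy hb hc

end ReeData

end CF.BN.Ree
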